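import Cfsg.Agent.H8.WeylJ
import Cfsg.Agent.H7.BNF

/-! Conjugacy classes and the longest Bruhat cell they meet (untwisted groups). -/

set_option autoImplicit false
set_option linter.unusedSectionVars false

namespace Cfsg.Agent.H8.AF

open Cfsg.Lie Matrix Cfsg.Agent.H7

variable {D : ChevalleyDatum} {K : Type*} [Field K] {G : Type*} [Group G] [hD : RootFacts D] [hN : NFacts D]
  {x : ℕ → K → G} {a n u : G} {w v : Equiv.Perm ℕ}

theorem cj (g a : G) : IsConj a (g * a * g⁻¹) := isConj_iff.2 ⟨g, rfl⟩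

variable (D x) in
/-- `w` is a longest cell met by the class of `a`. -/
def Mx (a : G) (w : Equiv.Perm ℕ) : Prop :=
  (∃ a', IsConj a a' ∧ a' ∈ Cell D x w) ∧ ∀ a' w', IsConj a a' → a' ∈ Cell D x w' → len D w' ≤ len D w

theorem exists_mx (hx : IsSt D x) (hG : GG x = ⊤) (a : G) : ∃ w, Mx D x a w := by
  obtain ⟨w, -, hw⟩ := hx.exists_cell (hG ▸ Subgroup.mem_top a)
  obtain ⟨w, h1, h2⟩ := exists_max_len (D := D) (P := fun w => ∃ a', IsConj a a' ∧ a' ∈ Cell D x w) ⟨w, a, IsConj.refl a, hw⟩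
  exact ⟨w, h1, fun a' w' k l => h2 _ ⟨a', k, l⟩⟩

theorem Mx.mem_W (h : Mx D x a w) : w ∈ W D := by obtain ⟨⟨_, _, h⟩, -⟩ := h; exact Cell.mem_W h

theorem Mx.form (hx : IsSt D x) (h : Mx D x a w) : ∃ n u, NRep D x n w ∧ u ∈ UU D x ∧ IsConj a (n * u) := by
  obtain ⟨⟨_, k, b, hb, n, hn, b', hb', rfl⟩, -⟩ := h
  obtain ⟨t, ht, u, hu, e⟩ := hx.mem_BB'.1 (mul_mem hb' hb)
  refine ⟨n * t, u, hn.mul_HH hx ht, hu, k.trans (isConj_iff.2 ⟨b⁻¹, ?_⟩)⟩
  rw [mul_assoc n, ← e]; group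

theorem xneg_cell (hx : IsSt D x) (i : Fin D.rank) {t : K} (ht : t ≠ 0) : x (D.neg (D.simple i)) t ∈ Cell D x (sref D i) :=
  refl_simple (D := D) i ▸ hx.x_neg_mem_cell (simple_pos i) ht

theorem Mx.fix (hx : IsSt D x) (h : Mx D x a w) {i : Fin D.rank} (hi : D.IsPosRoot (w (D.simple i))) :
    w (D.simple i) = D.simple i := by
  obtain ⟨n, u, hn, hu, k⟩ := h.form hx
  have hw := h.mem_W
  have g1 := xneg_cell hx i (t := 1) one_ne_zero
  have g2 : (x (D.neg (D.simple i)) 1)⁻¹ ∈ Cell D x (sref D i) := hx.neg _ _ ▸ xneg_cell hx i (neg_ne_zero.2 one_ne_zero)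
  have hc : n * u ∈ Cell D x w := Cell.mul_right hn.mem_cell (UU_le_BB x hu)
  by_contra hne
  rcases pos_or_neg (W_lt (inv_mem hw) (simple_lt i)) with h1 | h1
  · have h2 : D.IsPosRoot ((sref D i * w) (D.simple i)) := sref_pos hi hne
    have := h.2 _ _ (k.trans (cj _ _)) (hx.cell_mul_sref_of_pos (hx.cell_sref_mul_of_pos g1 hc h1) g2 h2)
    rw [len_mul_sref_of_pos (mul_mem (sref_mem i) hw) h2, len_sref_mul_of_pos hw h1] at this
    omega
  · have h2 : n⁻¹ * x (D.neg (D.simple i)) 1 * n ∈ UU D x :=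
      hn.conj_XS' hx (S := {D.neg (D.simple i)}) (T := {r | D.IsPosRoot r}) (fun s hs => by
        rw [Set.mem_singleton_iff.1 hs, Set.mem_ofPred_eq, W_neg (inv_mem hw) (simple_lt i), neg_pos_iff h1.1]; exact h1)
        (x_mem_XS (Set.mem_singleton _) 1)
    have h3 : x (D.neg (D.simple i)) 1 * (n * u) ∈ Cell D x w := by
      simpa [mul_assoc] using Cell.mul_right hn.mem_cell (UU_le_BB x (mul_mem h2 hu))
    have := h.2 _ _ (k.trans (cj _ _)) (hx.cell_mul_sref_of_pos h3 g2 hi)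
    rw [len_mul_sref_of_pos hw hi] at this
    omega

theorem comm_WJ {J : Set ℕ} (hw : w ∈ W D) (hJ : ∀ i : Fin D.rank, i.1 ∈ J → w (D.simple i) = D.simple i)
    (hv : v ∈ WJ D J) : w * v = v * w := by
  refine WJ_len_induction (P := fun v => w * v = v * w) (by simp) (fun v _ i hi _ h2 => ?_) hv
  rw [← mul_assoc, h2, mul_assoc, mul_assoc, mul_inv_eq_iff_eq_mul.1 (conj_sref hw (hJ i hi))]

theorem Mx.up (hx : IsFaith D x) (h : Mx D x a w) (hn : NRep D x n w) (hu : u ∈ UU D x) (k : IsConj a (n * u))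
    {J : Set ℕ} (hJ : ∀ i : Fin D.rank, i.1 ∈ J → w (D.simple i) = D.simple i) (hv : v ∈ WJ D J) : u ∈ H8.Up D x v := by
  have hs := hx.toIsSt
  have hw := h.mem_W
  obtain ⟨g, hg⟩ := NRep.exists_rep x (WJ_le J hv)
  have h1 : n⁻¹ * g * n * g⁻¹ ∈ HH D x := by
    have := ((hn.inv hs).mul hs hg).mul hs hn
    rw [mul_assoc w⁻¹, ← comm_WJ hw hJ hv, inv_mul_cancel_left] at this
    exact this.mul_inv_mem hs hg
  have h2 : g ∈ hs.cellSubgroup J := ⟨v, hv, hg.mem_cell⟩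
  obtain ⟨v', hv', h3⟩ := mul_mem (mul_mem h2 ⟨1, one_mem _, Cell.of_mem_BB (UU_le_BB x hu)⟩) (inv_mem h2)
  have h4 := len_mul_WJ hw (fun i hi => (hJ i hi).symm ▸ simple_pos i) hv'
  have h5 := hs.cell_mul_of_len hn.mem_cell (Cell.mul_left h3 (HH_le_BB x h1)) h4
  have h6 := h.2 _ _ (k.trans (isConj_iff.2 ⟨g, by group⟩)) h5
  obtain rfl : v' = 1 := eq_one_of_len (WJ_le J hv') (by omega)
  exact hx.mem_Up_of_conj hg hu (hs.mem_cell_one.1 h3)

theorem Mx.cent (hx : IsFaith D x) (h : Mx D x a w) (hn : NRep D x n w) (hu : u ∈ UU D x) (k : IsConj a (n * u))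
    {i : Fin D.rank} (hi : w (D.simple i) = D.simple i) : n * x (D.simple i) 1 * n⁻¹ = x (D.simple i) 1 := by
  have hs := hx.toIsSt
  have hw := h.mem_W
  have h1 : u ∈ XS x {r | D.IsPosRoot r ∧ r ≠ D.simple i} :=
    XS_mono x (T := {r | D.IsPosRoot r ∧ r ≠ D.simple i})
      (fun r hr => ⟨hr.1, fun e => not_neg_of_pos hr.2 (by rw [e, sref_simple]; exact neg_simple_neg i)⟩)
      (h.up hx hn hu k (J := {i.1}) (fun j hj => (Fin.ext hj : j = i) ▸ hi) (sref_mem_WJ (Set.mem_singleton _)))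
  have h2 : x (D.neg (D.simple i)) 1 * u * (x (D.neg (D.simple i)) 1)⁻¹ ∈ BB D x := by
    obtain ⟨b, hb, m, hm, b', hb', e⟩ := xneg_cell hx.toIsSt i (t := 1) one_ne_zero
    have := UU_le_BB x (hm.conj_XS hs (T := {r | D.IsPosRoot r}) (fun s h => sref_pos h.1 h.2) (IsFaith.Ui_normal hs i hb' h1))
    rw [e]; simpa [mul_assoc] using mul_mem (mul_mem hb this) (inv_mem hb)
  obtain ⟨c, hc, ha⟩ := hn.acts hs
  have h3 := ha (D.neg (D.simple i)) (c (D.simple i))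
  rw [W_neg hw (simple_lt i), hi, mul_comm, hc _ (simple_lt i)] at h3
  have h4 : c (D.simple i) = 1 := by
    by_contra hne
    have h5 := hs.cell_mul_sref_of_pos hn.mem_cell (Cell.mul_right (xneg_cell hs i (sub_ne_zero.2 hne)) h2)
      (hi.symm ▸ simple_pos i)
    have h6 := h.2 _ _ (k.trans (isConj_iff.2 ⟨x (D.neg (D.simple i)) 1, by
      rw [hs.sub]; nth_rewrite 1 [← h3]; group⟩)) h5
    rw [len_mul_sref_of_pos hw (hi.symm ▸ simple_pos i)] at h6
    omega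
  rw [ha, hi, h4, one_mul]

theorem HH_eq_one (hx : IsChev D x) (hG : GG x = ⊤) {g : G} (hg : g ∈ HH D x)
    (h : ∀ i : Fin D.rank, g * x (D.simple i) 1 * g⁻¹ = x (D.simple i) 1) : g = 1 := by
  have hs := hx.toIsSt
  obtain ⟨c, hc⟩ := hs.acts_of_mem_HH hg
  have h1 : ∀ i : Fin D.rank, torChar c (wt D (D.simple i)) = 1 := fun i => by
    have := h i
    rw [hc, mul_one] at this
    exact Units.val_eq_one.1 (hx.x_inj (simple_lt i) this)
  have h2 := hs.GG_le_of_pm_simple (H := Subgroup.centralizer {g}) (fun i t => by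
      rw [Subgroup.mem_centralizer_singleton_iff, eq_comm, ← mul_inv_eq_iff_eq_mul, hc]; simp [h1])
    (fun i t => by
      rw [Subgroup.mem_centralizer_singleton_iff, eq_comm, ← mul_inv_eq_iff_eq_mul, hc]
      simp [wt_neg (simple_lt i), torChar_neg, h1])
  exact hx.eq_one_of_commute (hG ▸ Subgroup.mem_top g) fun r t =>
    (Subgroup.mem_centralizer_singleton_iff.1 (h2 (x_mem_GG x r t))).symm

theorem Mx.eq_one (hx : IsChev D x) (hG : GG x = ⊤) (h : Mx D x a 1) : a = 1 := by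
  obtain ⟨n, u, hn, hu, k⟩ := h.form hx.toIsSt
  have h1 := h.up hx.toIsFaith hn hu k (J := Set.univ) (fun _ _ => rfl) (wJ_mem _)
  have h2 : u = 1 := hx.eq_one_of_UU_VV hu (XS_mono x (fun r hr => (not_neg_of_pos hr.2
    (wJ_neg hr.1 (inRootSub_iff.2 ⟨hr.1.1, fun i hi => (hi (Set.mem_univ _)).elim⟩))).elim) h1)
  have h3 := HH_eq_one hx hG (hn.mem_HH hx.toIsSt) fun i => h.cent hx.toIsFaith hn hu k rfl
  rw [h2, h3, mul_one] at k
  exact isConj_one_left.1 k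

/-- The normal form when all but one fundamental root are fixed. -/
theorem Mx.dom (hx : IsChev D x) (hG : GG x = ⊤) (h : Mx D x a w) {k : Fin D.rank}
    (hJ : ∀ i : Fin D.rank, i ≠ k → w (D.simple i) = D.simple i) (hA : A D (D.simple k) (w (D.simple k)) = 1)
    (hv : v ∈ WJ D {i | i ≠ k.1}) {m : G} (hm : NRep D x m w)
    (hc : ∀ i : Fin D.rank, i ≠ k → m * x (D.simple i) 1 * m⁻¹ = x (D.simple i) 1) :
    ∃ y ∈ H8.Up D x v, IsConj a (m * y) := by
  have hs := hx.toIsSt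
  obtain ⟨n, u, hn, hu, e⟩ := h.form hs
  have h1 := h.up hx.toIsFaith hn hu e (J := {i | i ≠ k.1}) (fun i hi => hJ i fun e => hi (congrArg Fin.val e)) hv
  obtain ⟨c, hc1, c1⟩ := hn.acts hs
  obtain ⟨d, hd1, d1⟩ := hm.acts hs
  have c0 := hc1.ne_zero (simple_lt k)
  have d0 := hd1.ne_zero (simple_lt k)
  have t0 : c (D.simple k) / d (D.simple k) ≠ 0 := div_ne_zero c0 d0
  have ht := hE_mem_HH x (simple_lt k) t0
  have t1 := hs.hE_conj (simple_lt k) t0
  set t := hE D x (D.simple k) (c (D.simple k) / d (D.simple k))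
  have h2 := HH_eq_one hx hG (hm.inv_mul_mem hs ((hn.HH_mul hs ht).mul_HH hs (inv_mem ht))) fun i => by
    have e1 : t⁻¹ * x (D.simple i) 1 * t =
        x (D.simple i) ((c (D.simple k) / d (D.simple k)) ^ A D (D.simple k) (D.simple i))⁻¹ := by
      rw [mul_assoc, inv_mul_eq_iff_eq_mul, eq_comm, ← mul_inv_eq_iff_eq_mul, t1, mul_inv_cancel₀ (zpow_ne_zero _ t0)]
    have e2 : t * (n * (t⁻¹ * x (D.simple i) 1 * t) * n⁻¹) * t⁻¹ = m * x (D.simple i) 1 * m⁻¹ := by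
      rw [e1, c1, t1]
      by_cases hi : i = k
      · rw [hi, d1, hA, A_self (simple_lt k)]
        congr 1; field_simp
      · have := h.cent hx.toIsFaith hn hu e (hJ i hi)
        rw [c1, hJ i hi, mul_one] at this
        rw [hc i hi, hJ i hi, hx.x_inj (simple_lt i) this, one_mul, mul_inv_cancel₀ (zpow_ne_zero _ t0)]
    calc _ = m⁻¹ * (t * (n * (t⁻¹ * x (D.simple i) 1 * t) * n⁻¹) * t⁻¹) * m := by group
      _ = _ := by rw [e2]; group
  refine ⟨_, hs.HH_conj_XS ht h1, e.trans (isConj_iff.2 ⟨t, ?_⟩)⟩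
  rw [inv_mul_eq_one.1 h2]; group

/-- Cyclic shift of a cell. -/
theorem shift (hx : IsSt D x) {l l' : List (Fin D.rank)} (ha : a ∈ Cell D x (wordW D (l ++ l')))
    (h : len D (wordW D (l' ++ l)) = l'.length + l.length) : ∃ a', IsConj a a' ∧ a' ∈ Cell D x (wordW D (l' ++ l)) := by
  obtain ⟨b, hb, b', hb', rfl⟩ := (hx.mem_cell_iff (NRep.nWd x _)).1 ha
  rw [wordW_append] at h ⊢
  have h1 := len_wordW_le l
  have h2 := len_wordW_le l'
  have h3 := len_mul_le (wordW_mem l') (wordW_mem l)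
  refine ⟨_, isConj_iff.2 ⟨(b * nWd D x l)⁻¹, ?_⟩, hx.cell_mul_of_len (Cell.mul_right (NRep.nWd x l').mem_cell hb')
    (Cell.mul_left (NRep.nWd x l).mem_cell hb) (by omega)⟩
  rw [nWd_append]; group

end Cfsg.Agent.H8.AF
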