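import Cfsg.Agent.H8.AF1
import Cfsg.Agent.H8.AF2
import Cfsg.Agent.H8.TwMk
import Cfsg.Agent.H7.Cox

/-! Corner entries on Bruhat cells; the longest cells of `F4`. -/

set_option autoImplicit false
set_option linter.unusedSectionVars false

namespace Cfsg.Agent.H8.AF

open Cfsg.Lie Matrix Finset Cfsg.Agent.H7

section corner
variable {D : ChevalleyDatum} {K : Type*} [Field K] {G : Type*} [Group G] [hD : RootFacts D] [hN : NFacts D]
  {x : ℕ → K → G} {ι : Type*} [Fintype ι] [DecidableEq ι] (ρ : G →* Matrix ι ι K) (lo hi : ι)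

/-- The elements that stabilise a line and a hyperplane. -/
def Cn : Submonoid G where
  carrier := {g | (∀ i, i ≠ hi → ρ g i hi = 0) ∧ ∀ j, j ≠ lo → ρ g lo j = 0}
  one_mem' := ⟨fun i h => by rw [map_one, one_apply_ne h], fun j h => by rw [map_one, one_apply_ne' h]⟩
  mul_mem' := fun {a b} ha hb => by
    refine ⟨fun i h => ?_, fun j h => ?_⟩ <;> rw [map_mul, mul_apply] <;> refine sum_eq_zero fun k _ => ?_
    · by_cases e : k = hi
      · rw [e, ha.1 i h, zero_mul]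
      · rw [hb.1 k e, mul_zero]
    · by_cases e : k = lo
      · rw [e, hb.2 j h, mul_zero]
      · rw [ha.2 k e, zero_mul]

variable {ρ lo hi}

theorem Cn_inv [Finite G] {g : G} (h : g ∈ Cn ρ lo hi) : g⁻¹ ∈ Cn ρ lo hi := by
  obtain ⟨n, hn⟩ := mem_powers_iff_mem_zpowers.2 (inv_mem (Subgroup.mem_zpowers g))
  exact hn ▸ pow_mem h n

theorem corner [Finite G] [Finite K] (hx : IsSt D x) (hU : ∀ r, D.IsPosRoot r → ∀ t, x r t ∈ Cn ρ lo hi)
    (hH : ∀ (i : Fin D.rank) t, t ≠ 0 → hE D x (D.simple i) t ∈ Cn ρ lo hi) {g : G} {l : List (Fin D.rank)}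
    (hg : g ∈ Cell D x (wordW D l)) (hn : ρ (nWd D x l) lo hi ≠ 0) : ρ g lo hi ≠ 0 := by
  let P : Subgroup G := { Cn ρ lo hi with inv_mem' := Cn_inv }
  have hB : BB D x ≤ P := sup_le (XS_le.2 hU) (by
    rw [hx.HH_eq_range hx.R3_of_finite]
    rintro _ ⟨a, rfl⟩
    rw [hx.hProdHom_eq]
    exact Subgroup.list_prod_mem _ fun g hg => by
      obtain ⟨i, -, rfl⟩ := List.mem_map.1 hg
      exact hH i _ (a i).ne_zero)
  obtain ⟨b, hb, b', hb', rfl⟩ := (hx.mem_cell_iff (NRep.nWd x l)).1 hg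
  have h1 : ∀ M : Matrix ι ι K, ∀ i, (M * ρ b') i hi = M i hi * ρ b' hi hi := fun M i => by
    rw [mul_apply, sum_eq_single hi (fun k _ hk => by rw [(hB hb').1 k hk, mul_zero]) (by simp)]
  have h2 : ∀ M : Matrix ι ι K, ∀ i, (ρ b * M) lo i = ρ b lo lo * M lo i := fun M i => by
    rw [mul_apply, sum_eq_single lo (fun k _ hk => by rw [(hB hb).2 k hk, zero_mul]) (by simp)]
  have h3 := h1 (ρ b'⁻¹) hi
  have h4 := h2 (ρ b⁻¹) lo
  rw [← map_mul, inv_mul_cancel, map_one, one_apply_eq] at h3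
  rw [← map_mul, mul_inv_cancel, map_one, one_apply_eq] at h4
  rw [map_mul, map_mul, h1, h2]
  exact mul_ne_zero (mul_ne_zero (left_ne_zero_of_mul_eq_one h4.symm) hn) (right_ne_zero_of_mul_eq_one h3.symm)

/-- Reduction of a polynomial modulo `v 0 * v 1 = 1`. -/
noncomputable def pred (P : Pol) : Pol :=
  List.rec [] (fun a _ ih => pins 0 a.1 ((a.2.getD 0 0 - a.2.getD 1 0) :: (a.2.getD 1 0 - a.2.getD 0 0) :: a.2.drop 2) ih) P

theorem pev_pred {v : ℕ → K} (h : v 0 * v 1 = 1) (P : Pol) : pev v (pred P) = pev v P := by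
  induction P with
  | nil => rfl
  | cons a P ih =>
    have : pred (a :: P) = pins 0 a.1 ((a.2.getD 0 0 - a.2.getD 1 0) :: (a.2.getD 1 0 - a.2.getD 0 0) :: a.2.drop 2)
      (pred P) := rfl
    rw [this, pev_pins (by simp), ih, pev_cons]
    congr 2
    rcases a with ⟨c, _ | ⟨e, _ | ⟨f, m⟩⟩⟩
    · simp [mev]
    · simp [mev]
    · simp only [mev, List.getD_cons_zero, List.getD_cons_succ, List.drop_succ_cons, List.drop_zero, ← mul_assoc, zero_add]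
      congr 1
      rcases le_total e f with k | k <;> obtain ⟨d, rfl⟩ := Nat.exists_eq_add_of_le k
      · rw [Nat.sub_eq_zero_of_le k, Nat.add_sub_cancel_left, pow_add, ← mul_assoc, ← mul_pow, h]; simp
      · rw [Nat.sub_eq_zero_of_le k, Nat.add_sub_cancel_left, pow_add, mul_right_comm, ← mul_pow, h]; simp

/-- The word of `n_r(1)`. -/
def nw (n r : ℕ) (c : ℤ) : SW := [(r, [(c, [])]), (n - r, [(-c, [])]), (r, [(c, [])])]

theorem evS_app (v : ℕ → K) (w w' : SW) : evS x v (w ++ w') = evS x v w * evS x v w' := by simp [evS]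

end corner

variable {F : Type*} [Field F]

theorem negF4 {r : ℕ} (h : r < 48) : chevF4.neg r = 47 - r := by revert r; decide +kernel

theorem posF4 {r : ℕ} (h : chevF4.IsPosRoot r) : 24 ≤ r ∧ r < 48 :=
  ⟨(by decide +kernel : ∀ r < 48, chevF4.IsPosRoot r → 24 ≤ r) r h.1 h, h.1⟩

theorem evS_nw {G : Type*} [Group G] {x : ℕ → F → G} (v : ℕ → F) {r : ℕ} (h : r < 48) {c : ℤ} (hc : c = 1 ∨ c = -1) :
    evS x v (nw 47 r c) = nE chevF4 x r c := by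
  rcases hc with rfl | rfl <;> simp [nw, nE, mev, negF4 h, mul_assoc]

/-- The word of a product of `n_i`. -/
def nws (l : List (Fin chevF4.rank)) : SW := l.flatMap fun i : Fin chevF4.rank => nw 47 (chevF4.simple i) 1

theorem evS_nws {G : Type*} [Group G] {x : ℕ → F → G} (v : ℕ → F) (l : List (Fin chevF4.rank)) :
    evS x v (nws l) = nWd chevF4 x l := by
  induction l with
  | nil => rfl
  | cons i l ih => rw [nws, List.flatMap_cons, evS_app, nWd_cons, evS_nw v (simple_lt i) (Or.inl rfl), ← ih, Int.cast_one, nws]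

/-- The word of `h_r(t)`. -/
def hw (r : ℕ) : SW := [(r, vr 0), (47 - r, [(-1, [0, 1])]), (r, vr 0)] ++ nw 47 r (-1)

theorem evS_hw {G : Type*} [Group G] {x : ℕ → F → G} (t : F) {r : ℕ} (h : r < 48) :
    evS x (fun i => if i = 0 then t else t⁻¹) (hw r) = hE chevF4 x r t := by
  rw [hw, evS_app, evS_nw _ h (Or.inr rfl)]; simp [hE, nE, mev, negF4 h, mul_assoc]

variable [Finite F]

theorem corner_of {E : ChevalleyDatum} {ρ : chevF4.group F →* Matrix E.Idx E.Idx F} {lo hi : E.Idx} {e : SW → ℕ → ℕ → Pol}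
    (he : ∀ v w i j, pev v (e w (enc E i) (enc E j)) = ρ (evS (xg chevF4 F) v w) i j)
    (hU : ∀ r < 48, 24 ≤ r → ∀ i < E.nroots + E.rank, (i = enc E hi ∨ isNil (e [(r, vr 0)] i (enc E hi)) = true) ∧
      (i = enc E lo ∨ isNil (e [(r, vr 0)] (enc E lo) i) = true))
    (hH : ∀ r ∈ [33, 27, 25, 24], ∀ i < E.nroots + E.rank, (i = enc E hi ∨ isNil (pred (e (hw r) i (enc E hi))) = true) ∧
      (i = enc E lo ∨ isNil (pred (e (hw r) (enc E lo) i)) = true))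
    {g : chevF4.group F} {l : List (Fin chevF4.rank)} (hg : g ∈ Cell chevF4 (xg chevF4 F) (wordW chevF4 l))
    (hn : ∃ c ∈ [(1 : ℤ), -1], peq 0 (e (nws l) (enc E lo) (enc E hi)) [(c, [])] = true) : ρ g lo hi ≠ 0 := by
  refine corner (H7.isChev_xg (D := chevF4) (F := F)).toIsSt (fun r hr t => ?_) (fun i t ht => ?_) hg ?_
  · have k := fun i => hU r (posF4 hr).2 (posF4 hr).1 _ (enc_lt E i)
    have k' := he (fun _ => t) [(r, vr 0)]
    simp only [evS_cons, evS_nil, pev_vr, mul_one] at k'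
    exact ⟨fun j h => by rw [← k', isNil_iff.1 ((k j).1.resolve_left fun e => h (enc_inj E e)), pev_nil],
      fun j h => by rw [← k', isNil_iff.1 ((k j).2.resolve_left fun e => h (enc_inj E e)), pev_nil]⟩
  · have k := fun j => hH (chevF4.simple i) (by revert i; decide +kernel) _ (enc_lt E j)
    have k' := he (fun i => if i = 0 then t else t⁻¹) (hw (chevF4.simple i))
    have k0 := pev_pred (v := fun i => if i = 0 then t else t⁻¹) (by simp [ht])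
    rw [evS_hw t (simple_lt i)] at k'
    exact ⟨fun j h => by rw [← k', ← k0, isNil_iff.1 ((k j).1.resolve_left fun e => h (enc_inj E e)), pev_nil],
      fun j h => by rw [← k', ← k0, isNil_iff.1 ((k j).2.resolve_left fun e => h (enc_inj E e)), pev_nil]⟩
  · obtain ⟨c, hc, h⟩ := hn
    rw [← evS_nws (fun _ => 0), ← he, peq_sound (by simp) _ h]
    simp only [List.mem_cons, List.not_mem_nil, or_false] at hc
    rcases hc with rfl | rfl <;> simp [mev]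

omit [Finite F] in
theorem pev_ent4 (v : ℕ → F) (w : SW) (i j : chevF4.Idx) : pev v (ent fastF4 0 w (enc chevF4 i) (enc chevF4 j)) =
    (((evS (xg chevF4 F) v w : chevF4.group F) : GL chevF4.Idx F) : Matrix chevF4.Idx chevF4.Idx F) i j := by
  rw [pev_ent (by simp) agrF4, evS_xg]

theorem corner_cl {g : chevF4.group F} {l : List (Fin chevF4.rank)} (hg : g ∈ Cell chevF4 (xg chevF4 F) (wordW chevF4 l))
    (hn : ∃ c ∈ [(1 : ℤ), -1], peq 0 (ent fastF4 0 (nws l) 0 47) [(c, [])] = true) : cl g ≠ 0 :=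
  corner_of (ρ := (Units.coeHom _).comp (chevF4.group F).subtype) (e := ent fastF4 0) pev_ent4 (by decide +kernel)
    (by decide +kernel) hg hn

theorem corner_cs {g : chevF4.group F} {l : List (Fin chevF4.rank)} (hg : g ∈ Cell chevF4 (xg chevF4 F) (wordW chevF4 l))
    (hn : ∃ c ∈ [(1 : ℤ), -1], peq 0 (ent7 0 (nws l) 63 125) [(c, [])] = true) : cs g ≠ 0 :=
  corner_of (ρ := (Units.coeHom _).comp (th7 F)) (e := ent7 0) (pev_ent7 (by simp)) (by decide +kernel)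
    (by decide +kernel) hg hn

/-- The images of the fundamental roots under the longest cells. -/
def quads : List (ℕ × ℕ × ℕ × ℕ) := [(33, 27, 25, 24), (7, 27, 25, 24), (33, 27, 25, 1), (10, 27, 25, 15), (13, 27, 16, 24),
  (33, 13, 21, 24), (33, 12, 25, 21), (14, 20, 21, 24), (14, 19, 25, 21), (13, 27, 17, 23), (33, 13, 22, 23), (14, 20, 22, 23)]

/-- The images of the fundamental roots. -/
def quad (w : ℕ → ℕ) : ℕ × ℕ × ℕ × ℕ := (w 33, w 27, w 25, w 24)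

theorem quad_inj {w w' : Equiv.Perm ℕ} (hw : w ∈ W chevF4) (hw' : w' ∈ W chevF4) (h : quad w = quad w') : w = w' := by
  simp only [quad, Prod.mk.injEq] at h
  refine (inv_mul_eq_one.1 (eq_one_of_simple_pos (mul_mem (inv_mem hw') hw) fun i => ?_)).symm
  have : w (chevF4.simple i) = w' (chevF4.simple i) := by
    fin_cases i
    exacts [h.1, h.2.1, h.2.2.1, h.2.2.2]
  rw [Equiv.Perm.mul_apply, this, perm_inv_apply]; exact simple_pos i

/-- The Cartan integers of `F4`. -/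
def cA (r s : ℕ) : ℤ := pkA chevF4 twF4 tcF4 r s

theorem quad_chk0 : allTo 48 (fun a => decide (¬ (a = 33 ∨ a < 24)) || allTo 48 fun b =>
    decide (¬ ((b = 27 ∨ b < 24) ∧ cA a b = cA 33 27 ∧ cA b a = cA 27 33)) || allTo 48 fun c =>
    decide (¬ ((c = 25 ∨ c < 24) ∧ cA a c = cA 33 25 ∧ cA b c = cA 27 25 ∧ cA c b = cA 25 27)) || allTo 48 fun d =>
    decide (¬ ((d = 24 ∨ d < 24) ∧ cA a d = cA 33 24 ∧ cA b d = cA 27 24 ∧ cA c d = cA 25 24 ∧ cA d c = cA 24 25)) ||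
    decide ((a, b, c, d) ∈ quads)) = true := by decide +kernel

theorem quad_chk : ∀ a < 48, (a = 33 ∨ a < 24) → ∀ b < 48, (b = 27 ∨ b < 24) ∧ cA a b = cA 33 27 ∧ cA b a = cA 27 33 →
    ∀ c < 48, (c = 25 ∨ c < 24) ∧ cA a c = cA 33 25 ∧ cA b c = cA 27 25 ∧ cA c b = cA 25 27 →
    ∀ d < 48, (d = 24 ∨ d < 24) ∧ cA a d = cA 33 24 ∧ cA b d = cA 27 24 ∧ cA c d = cA 25 24 ∧ cA d c = cA 24 25 →
    (a, b, c, d) ∈ quads := by
  simpa only [allTo_iff, Bool.or_eq_true, decide_eq_true_eq, ← imp_iff_not_or] using quad_chk0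

theorem quad_mem {w : Equiv.Perm ℕ} (hw : w ∈ W chevF4)
    (h : ∀ i : Fin chevF4.rank, chevF4.IsPosRoot (w (chevF4.simple i)) → w (chevF4.simple i) = chevF4.simple i) :
    quad w ∈ quads := by
  have k : ∀ i : Fin chevF4.rank, w (chevF4.simple i) = chevF4.simple i ∨ w (chevF4.simple i) < 24 := fun i =>
    (pos_or_neg (W_lt hw (simple_lt i))).imp (h i) fun e =>
      (by decide +kernel : ∀ r < 48, chevF4.IsNegRoot r → r < 24) _ e.1 e
  have a : ∀ r s, r < 48 → s < 48 → cA (w r) (w s) = cA r s := fun r s hr hs => by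
    rw [cA, cA, ← A_eq_pk tablesF4 (W_lt hw hr) (W_lt hw hs), A_W hw, A_eq_pk tablesF4 hr hs]
  have l : ∀ r < 48, w r < 48 := fun r hr => W_lt hw hr
  refine quad_chk _ (l _ ?_) (k ⟨0, by decide⟩) _ (l _ ?_) ⟨k ⟨1, by decide⟩, a 33 27 ?_ ?_, a 27 33 ?_ ?_⟩ _ (l _ ?_)
    ⟨k ⟨2, by decide⟩, a 33 25 ?_ ?_, a 27 25 ?_ ?_, a 25 27 ?_ ?_⟩ _ (l _ ?_)
    ⟨k ⟨3, by decide⟩, a 33 24 ?_ ?_, a 27 24 ?_ ?_, a 25 24 ?_ ?_, a 24 25 ?_ ?_⟩ <;> decide

/-- A non-trivial class meets a cell of the table, or its longest cell is the exceptional one. -/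
theorem cell_cases {q : ℕ × ℕ × ℕ × ℕ} {T : List (List ℕ × List ℕ)}
    (h1 : ∀ z ∈ quads, z = (33, 27, 25, 24) ∨ z = q ∨ ∃ p ∈ T, z = quad (actW chevF4 (fl chevF4 p.1 ++ fl chevF4 p.2)))
    (h2 : ∀ p ∈ T, len chevF4 (wordW chevF4 (fl chevF4 p.2 ++ fl chevF4 p.1)) = (fl chevF4 p.2).length + (fl chevF4 p.1).length)
    {a : chevF4.group F} (ha : a ≠ 1) : (∃ w, Mx chevF4 (xg chevF4 F) a w ∧ quad w = q) ∨
      ∃ p ∈ T, ∃ a', IsConj a a' ∧ a' ∈ Cell chevF4 (xg chevF4 F) (wordW chevF4 (fl chevF4 p.2 ++ fl chevF4 p.1)) := by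
  have hx := H7.isChev_xg (D := chevF4) (F := F)
  obtain ⟨w, h⟩ := exists_mx hx.toIsSt H7.GG_xg a
  rcases h1 _ (quad_mem h.mem_W fun i => h.fix hx.toIsSt) with e | e | ⟨p, hp, e⟩
  · obtain rfl := quad_inj h.mem_W (one_mem _) e
    exact (ha (h.eq_one hx H7.GG_xg)).elim
  · exact Or.inl ⟨w, h, e⟩
  · obtain rfl := quad_inj h.mem_W (wordW_mem _) (e.trans (congrArg quad (funext (wordW_apply _)).symm))
    obtain ⟨a', k, l⟩ := h.1
    obtain ⟨a'', k', l'⟩ := shift hx.toIsSt l (h2 p hp)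
    exact Or.inr ⟨p, hp, a'', k.trans k', l'⟩

/-- The table for the long roots. -/
def tabL : List (List ℕ × List ℕ) := [([], [3, 2, 1, 0, 2, 1, 2, 3, 2, 1, 0, 2, 1, 2, 3]),
  ([], [0, 1, 2, 1, 0, 3, 2, 1, 0, 2, 1, 2, 3, 2, 1, 0, 2, 1, 2, 3]),
  ([0, 1, 2, 3], [1, 0, 2, 1, 0, 2, 1, 3, 2, 1, 0, 2, 1, 2, 3, 2, 1, 2]),
  ([2, 3], [1, 0, 2, 1, 0, 2, 1, 3, 2, 1, 0, 2, 1, 2, 3, 2, 1, 0, 2, 1]),
  ([], [1, 0, 2, 1, 0, 2, 1, 3, 2, 1, 0, 2, 1, 2, 3, 2, 1, 0, 2, 1, 2, 3]),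
  ([2, 3], [0, 1, 0, 2, 1, 0, 2, 1, 3, 2, 1, 0, 2, 1, 2, 3, 2, 1, 0, 2, 1]),
  ([], [0, 1, 0, 2, 1, 0, 2, 1, 3, 2, 1, 0, 2, 1, 2, 3, 2, 1, 0, 2, 1, 2, 3]),
  ([], [0, 1, 2, 1, 0, 2, 1, 2, 3, 2, 1, 0, 2, 1, 2, 3, 2, 1, 0, 2, 1, 2, 3]),
  ([], [1, 0, 2, 1, 0, 2, 1, 2, 3, 2, 1, 0, 2, 1, 2, 3, 2, 1, 0, 2, 1, 2, 3]),
  ([], [0, 1, 0, 2, 1, 0, 2, 1, 2, 3, 2, 1, 0, 2, 1, 2, 3, 2, 1, 0, 2, 1, 2, 3])]

/-- The table for the short roots. -/
def tabS : List (List ℕ × List ℕ) := [([], [0, 1, 2, 1, 0, 3, 2, 1, 0, 2, 1, 3, 2, 1, 0]),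
  ([], [0, 1, 2, 1, 0, 3, 2, 1, 0, 2, 1, 2, 3, 2, 1, 0, 2, 1, 2, 3]),
  ([], [0, 1, 2, 1, 0, 2, 1, 2, 3, 2, 1, 0, 2, 1, 2, 3, 2, 1, 0, 2, 1, 2]),
  ([1, 0], [2, 1, 0, 2, 1, 2, 3, 2, 1, 0, 2, 1, 2, 3, 2, 1, 0, 2, 1, 2]),
  ([3, 2, 1, 0], [2, 1, 0, 2, 1, 3, 2, 1, 0, 2, 1, 2, 3, 2, 1, 0, 2, 1]),
  ([], [0, 1, 0, 2, 1, 0, 2, 1, 2, 3, 2, 1, 0, 2, 1, 2, 3, 2, 1, 0, 2, 1, 2]),
  ([], [0, 1, 0, 2, 1, 0, 2, 1, 3, 2, 1, 0, 2, 1, 2, 3, 2, 1, 0, 2, 1, 2, 3]),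
  ([], [0, 1, 2, 1, 0, 2, 1, 2, 3, 2, 1, 0, 2, 1, 2, 3, 2, 1, 0, 2, 1, 2, 3]),
  ([1, 0], [2, 1, 0, 2, 1, 2, 3, 2, 1, 0, 2, 1, 2, 3, 2, 1, 0, 2, 1, 2, 3]),
  ([], [0, 1, 0, 2, 1, 0, 2, 1, 2, 3, 2, 1, 0, 2, 1, 2, 3, 2, 1, 0, 2, 1, 2, 3])]

theorem long_cases {a : chevF4.group F} (ha : a ≠ 1) :
    (∃ w, Mx chevF4 (xg chevF4 F) a w ∧ quad w = (7, 27, 25, 24)) ∨ ∃ a', IsConj a a' ∧ cl a' ≠ 0 :=
  (cell_cases (T := tabL) (by decide +kernel) (by simp only [len, invSet, wordW_apply]; decide +kernel) ha).imp_right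
    fun ⟨p, hp, a', k, l⟩ => ⟨a', k, corner_cl l ((by decide +kernel : ∀ p ∈ tabL, ∃ c ∈ [(1 : ℤ), -1],
      peq 0 (ent fastF4 0 (nws (fl chevF4 p.2 ++ fl chevF4 p.1)) 0 47) [(c, [])] = true) p hp)⟩

theorem short_cases {a : chevF4.group F} (ha : a ≠ 1) :
    (∃ w, Mx chevF4 (xg chevF4 F) a w ∧ quad w = (33, 27, 25, 1)) ∨ ∃ a', IsConj a a' ∧ cs a' ≠ 0 :=
  (cell_cases (T := tabS) (by decide +kernel) (by simp only [len, invSet, wordW_apply]; decide +kernel) ha).imp_right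
    fun ⟨p, hp, a', k, l⟩ => ⟨a', k, corner_cs l ((by decide +kernel : ∀ p ∈ tabS, ∃ c ∈ [(1 : ℤ), -1],
      peq 0 (ent7 0 (nws (fl chevF4 p.2 ++ fl chevF4 p.1)) 63 125) [(c, [])] = true) p hp)⟩

end Cfsg.Agent.H8.AF
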