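import Cfsg.Agent.H8.TE1

/-! Doubly transitive actions with a transitive Borel subgroup. -/

set_option autoImplicit false
set_option linter.unusedSectionVars false

namespace Cfsg.Agent.H8

open Cfsg.Lie MulAction Cfsg.Agent.H7
open scoped commutatorElement

variable {D : ChevalleyDatum} {K : Type*} [Field K] {G : Type*} [Group G] {x : ℕ → K → G} [hD : RootFacts D]
  [hN : NFacts D] {z nz : ℤ → Bool} {r s : ℕ} {Ω : Type*} [MulAction G Ω] [Finite Ω] [Finite G] [FaithfulSMul G Ω]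

variable (D) in
/-- The reflection in `r` sends `a` to `b`. -/
abbrev Mv (r a b : ℕ) : Prop := r < D.nroots ∧ a < D.nroots ∧ b < D.nroots ∧ wt D b = wt D a - A D r a • wt D r

theorem Mv.conj {a b : ℕ} (h : Mv D r a b) (hx : IsSt D x) :
    ∃ c ≠ 0, ∀ t, nE D x r 1 * x a t * (nE D x r 1)⁻¹ = x b (c * t) :=
  ⟨eta D r a, by rcases eta_cases (D := D) r a with e | e <;> simp [e], fun t => by
    rw [hx.nE_conj h.1 one_ne_zero, wt_inj (W_lt (refl_mem r) h.2.1) h.2.2.1 ((wt_refl r a).trans h.2.2.2.symm)]; simp⟩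

theorem Mv.mem {a b : ℕ} (h : Mv D r a b) (hx : IsSt D x) {S : Subgroup G} (hS : NN D x ≤ S) (h1 : ∃ t ≠ 0, x a t ∈ S) :
    ∃ t ≠ 0, x b t ∈ S := by
  obtain ⟨c, hc, h2⟩ := h.conj hx
  obtain ⟨t, ht, h3⟩ := h1
  have := hS (nE_mem_NN x h.1 one_ne_zero)
  exact ⟨_, mul_ne_zero hc ht, h2 t ▸ mul_mem (mul_mem this h3) (inv_mem this)⟩

theorem eq_one_of_trans {P : Subgroup G} (hP : ∀ a b : Ω, ∃ g ∈ P, g • a = b) {S : Subgroup G}
    (h : ∀ g ∈ P, ∀ v ∈ S, g * v * g⁻¹ ∈ S) {y : Ω} (h1 : S ≤ stabilizer G y) {v : G} (hv : v ∈ S) : v = 1 :=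
  eq_of_smul_eq_smul (α := Ω) fun w => by
    obtain ⟨g, hg, e⟩ := hP w y
    have : (g * v * g⁻¹) • y = y := h1 (h g hg v hv)
    simpa [← e, mul_smul] using this

theorem cen_free {P : Subgroup G} (hP : ∀ a b : Ω, ∃ g ∈ P, g • a = b) {v : G} (h : ∀ g ∈ P, Commute g v) {y : Ω}
    (h1 : v • y = y) : v = 1 :=
  eq_one_of_trans hP (S := Subgroup.zpowers v) (fun g hg _ ⟨k, e⟩ => ⟨k, by rw [← e, ((h g hg).zpow_right k).eq]; simp⟩)
    (Subgroup.zpowers_le.2 h1) (Subgroup.mem_zpowers v)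

theorem Cen.not_le (h : Cen D z s) (hx : IsFaith D x) (hz : ∀ c, z c = true → (c : K) = 0)
    (hB : ∀ a b : Ω, ∃ g ∈ BB D x, g • a = b) (y : Ω) : ¬ XS x {s} ≤ stabilizer G y := fun h1 =>
  hx.x_ne_one h.1.1 one_ne_zero (eq_one_of_trans hB (h.conj hx.toIsSt hz) h1 (x_mem_XS (Set.mem_singleton _) 1))

theorem ob_mul_fx (hx : IsFaith D x) (hs : s < D.nroots) (y : Ω) :
    ob (XS x {s}) y * Nat.card {k // x s k • y = y} = Nat.card K := by
  rw [← hx.card_XS_single hs, ← ob_mul _ y]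
  refine congrArg _ (Nat.card_congr (Equiv.ofBijective (fun k => ⟨x s k, x_mem_XS (Set.mem_singleton _) _, k.2⟩)
    ⟨fun a b e => Subtype.ext (hx.x_inj hs (congrArg Subtype.val e)), fun g => ?_⟩))
  obtain ⟨g, h1, h2⟩ := g
  obtain ⟨t, rfl⟩ := hx.toIsSt.mem_XS_singleton h1
  exact ⟨⟨t, h2⟩, rfl⟩

/-- Long root elements have no fixed points. -/
theorem ob_root (hx : IsFaith D x) (hz : ∀ c, z c = true → (c : K) = 0) (hn : ∀ c, nz c = true → (c : K) ≠ 0)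
    (hB : ∀ a b : Ω, ∃ g ∈ BB D x, g • a = b) {θ β γ : ℕ}
    (h : Cen D z θ ∧ D.IsPosRoot β ∧ D.IsPosRoot γ ∧ C1 D z nz θ β γ ∧ Mv D γ β θ) (y : Ω) :
    ob (XS x {θ}) y = Nat.card K := by
  obtain ⟨h1, h2, h3, h4, h5⟩ := h
  have hs := hx.toIsSt
  have : Finite K := .of_injective _ (hx.x_injective h2.1)
  have hc : ∀ {r}, D.IsPosRoot r → ∀ t u, Commute (x r t) (x θ u) := fun hr => (h1.2 _ hr.1 hr).commute hs hz
  have hNT := NT.of hB (h1.conj hs hz)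
  have k1 := ob_mul_fx hx h1.1.1 y
  obtain ⟨c, hc0, k2⟩ := h4.eq hs hz hn
  obtain ⟨c', hc1, k3⟩ := h5.conj hs
  rcases line_lemma (F := K) (d := Nat.card {k // x θ k • y = y})
    { carrier := {v | x β v.1 * x θ v.2 ∈ stabilizer G y}
      zero_mem' := by simp [hs.zero]
      add_mem' := fun {a b} ha hb => by
        have := (stabilizer G y).mul_mem ha hb
        rwa [mul_assoc, ← mul_assoc (x θ _), ← (hc h2 _ _).eq, mul_assoc, ← hs.add, ← mul_assoc, ← hs.add] at this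
      neg_mem' := fun {a} ha => by
        have := (stabilizer G y).inv_mem ha
        rwa [mul_inv_rev, ← hs.neg, ← hs.neg, ← (hc h2 _ _).eq] at this } (fun v hv => by
    obtain ⟨g, e, he, k4⟩ : ∃ (g : G) (e : K), e ≠ 0 ∧ ∀ k, g * (x β (k * v.1) * x θ (k * v.2)) * g⁻¹ = x θ (e * k) := by
      by_cases h : v.1 = 0
      · exact ⟨1, v.2, fun h' => hv (Prod.ext h h'), fun k => by simp [h, hs.zero, mul_comm]⟩
      refine ⟨nE D x γ 1 * x γ (-v.2 / (c * v.1)), c' * v.1, mul_ne_zero hc1 h, fun k => ?_⟩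
      calc _ = nE D x γ 1 * (⁅x γ (-v.2 / (c * v.1)), x β (k * v.1)⁆ * x β (k * v.1) *
            (x γ (-v.2 / (c * v.1)) * x θ (k * v.2) * (x γ (-v.2 / (c * v.1)))⁻¹)) * (nE D x γ 1)⁻¹ := by group
        _ = _ := by
          rw [k2, (hc h3 _ _).eq, mul_inv_cancel_right, ← (hc h2 _ _).eq, mul_assoc (x β _), ← hs.add,
            show c * (k * v.1) * (-v.2 / (c * v.1)) + k * v.2 = 0 by field_simp; ring, hs.zero, mul_one, k3]
          congr 1; ring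
    have k5 := ob_mul_fx hx h1.1.1 (g • y)
    rw [← k1, hNT.ob_eq (g • y) y] at k5
    rw [← Nat.eq_of_mul_eq_mul_left (ob_pos _ _) k5]
    refine Nat.card_congr ((Equiv.mulLeft₀ e he).subtypeEquiv fun k => ?_)
    simp [← k4, mul_smul]) with h | h
  · rwa [h, mul_one] at k1
  · rw [h] at k1
    exact (h1.not_le hx hz hB y fun u hu => ob_eq_one (Nat.eq_of_mul_eq_mul_right Nat.card_pos (k1.trans (one_mul _).symm)) hu).elim

theorem PJ_conj (hx : IsSt D x) (hz : ∀ c, z c = true → (c : K) = 0) {J : List ℕ} (h : Cen D z s)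
    (h1 : ∀ j ∈ J, Mv D (D.simple j) s s) : ∀ g ∈ PJ D x {j | j ∈ J}, ∀ v ∈ XS x {s}, g * v * g⁻¹ ∈ XS x {s} := by
  have : PJ D x {j | j ∈ J} ≤ Subgroup.normalizer (XS x {s} : Set G) := by
    refine sup_le (fun g hg => Subgroup.mem_normalizer_fintype (h.conj hx hz g hg)) ((Subgroup.closure_le _).2 ?_)
    rintro _ ⟨j, hj, -, rfl⟩
    obtain ⟨c, -, h2⟩ := (h1 j hj).conj hx
    exact Subgroup.mem_normalizer_fintype fun v => conj_mem_of_XS fun r (hr : r = s) t => by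
      rw [hr, h2]; exact x_mem_XS (Set.mem_singleton _) _
  exact fun g hg v => (Subgroup.mem_normalizer_iff.1 (this hg) v).1

theorem index_PJ [Finite K] (hx : IsFaith D x) (hG : GG x = ⊤) {J J' : List ℕ} (hJ : ∀ i : Fin D.rank, i.1 ∈ J) {m : ℕ}
    (h : poin D {j | j ∈ J} (Nat.card K) = m * poin D {j | j ∈ J'} (Nat.card K)) : (PJ D x {j | j ∈ J'}).index = m := by
  have h1 := card_cellSubgroup hx {j | j ∈ J}
  rw [cellSubgroup_univ hx.toIsSt hJ, hG, Subgroup.card_top, h, mul_left_comm, ← card_cellSubgroup hx, ← PJ_eq hx.toIsSt,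
    ← (PJ D x {j | j ∈ J'}).index_mul_card] at h1
  exact Nat.eq_of_mul_eq_mul_right Nat.card_pos h1

theorem U_trans [Finite K] (hx : IsChev D x) (hG : GG x = ⊤) (h : TT G Ω) {p : ℕ} [hp : Fact p.Prime] [CharP K p] {k : ℕ}
    (hn : Nat.card Ω = p ^ k) : ∀ a b : Ω, ∃ g ∈ UU D x, g • a = b := by
  obtain ⟨P, hP⟩ := hx.exists_sylow p hG
  have := h.pre
  exact trans_of_coprime (hn ▸ hP ▸ ((Nat.Prime.coprime_iff_not_dvd hp.out).2 P.not_dvd_index).symm.pow_right k)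

theorem dvd_of_ob [Finite K] (hx : IsFaith D x) {M : Subgroup G} (hM : M ≤ UU D x) {k : ℕ}
    (h : ∀ y : Ω, Nat.card K ^ k ≤ ob M y) : Nat.card K ^ k ∣ Nat.card Ω := by
  have := Fintype.ofFinite K
  obtain ⟨p, hp⟩ := CharP.exists K
  obtain ⟨f, hpp, hf⟩ := FiniteField.card K p
  have := Fact.mk hpp
  refine dvd_card_of_ob (Q := M) fun y => ?_
  obtain ⟨j, hj⟩ := ob_pow ((hx.isPGroup_UU p).to_le hM) y
  have := h y
  rw [hj, Nat.card_eq_fintype_card, hf, ← pow_mul] at this ⊢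
  exact pow_dvd_of_le hpp.one_lt this

theorem eq_one_of_tor (hx : IsFaith D x) {m : ℕ} {c : G} (hc : c ∈ XS x {k | D.IsPosRoot k ∧ m ≤ k})
    (h : ∀ k, D.IsPosRoot k → m ≤ k → ∃ r < D.nroots, ∃ τ : K, τ ≠ 0 ∧ τ ^ A D r k ≠ 1 ∧ hE D x r τ * c = c * hE D x r τ) :
    c = 1 := by
  classical
  have hL : ∀ k, k ∈ (List.range D.nroots).filter (fun k => D.IsPosRoot k ∧ m ≤ k) ↔ k ∈ {k | D.IsPosRoot k ∧ m ≤ k} :=
    fun k => by simpa using fun h _ => h.1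
  obtain ⟨f, rfl⟩ := hx.toIsSt.exists_oprod (S := {k | D.IsPosRoot k ∧ m ≤ k}) (fun r hr s hs k _ i j hi hj e =>
    ⟨(pos_comb hr.1 hs.1 hi hj e).1, hr.2.trans (pos_comb hr.1 hs.1 hi hj e).2.1.le⟩) (one_mem _) (fun _ h => h.1) hL
    (List.nodup_range.filter _) hc
  refine oprod_mem (H := ⊥) fun k hk => ?_
  obtain ⟨r, hr, τ, h1, h2, h3⟩ := h k ((hL k).1 hk).1 ((hL k).1 hk).2
  have h4 := (map_oprod (MulAut.conj (hE D x r τ)).toMonoidHom x _ f).symm.trans (mul_inv_eq_iff_eq_mul.2 h3)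
  simp only [MulEquiv.coe_toMonoidHom, MulAut.conj_apply, hx.toIsSt.hE_conj hr h1] at h4
  have := hx.oprod_inj (one_mem _) (fun k hk => ((hL k).1 hk).1) (List.nodup_range.filter _)
    (f := fun k => τ ^ A D r k * f k) h4 k hk
  simp [(mul_left_eq_self₀.1 this).resolve_left h2, hx.zero]

variable [Finite K] (hx : IsChev D x) (hU : ∀ a b : Ω, ∃ g ∈ UU D x, g • a = b) {p : ℕ} [hp : Fact p.Prime] [CharP K p]
  {τ : K} (h0 : τ ≠ 0) {E : List ℤ} (hE : ∀ e ∈ E, τ ^ e ≠ 1)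
include hx h0 hE p

include hU in
theorem exists_N_fix [Nonempty Ω] (h : ∀ k < D.nroots, D.IsPosRoot k → ∃ r < D.nroots, A D r k ∈ E) :
    ∃ y : Ω, NN D x ≤ stabilizer G y := by
  obtain ⟨y0⟩ := ‹Nonempty Ω›
  obtain ⟨⟨y, -, h1⟩, h2⟩ := glaub (hx.isPGroup_UU p) (hx.not_dvd_card_HH p) (fun a ha b hb => hx.HH_commute ha hb)
    (fun a ha m => hx.toIsSt.HH_conj_XS ha) (x := y0) fun a _ => mem_orb.2 (hU _ _)
  refine ⟨y, fun n hn => ?_⟩
  obtain ⟨c, h3, h4, h5⟩ := h2 y (mem_orb.2 (hU _ _)) (n • y) (mem_orb.2 (hU _ _)) h1 fun a ha => by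
    rw [← mul_smul, ← inv_smul_eq_iff, ← mul_smul, ← mul_assoc, h1 _ (hx.toIsSt.NN_conj_HH' hn ha)]
  rw [eq_one_of_tor hx.toIsFaith (m := 0) (c := c) (by simpa using! h3) fun k hk _ =>
    let ⟨r, hr, e⟩ := h k hk.1 hk; ⟨r, hr, τ, h0, hE _ e, h4 _ (hE_mem_HH x hr h0)⟩, one_smul] at h5
  exact h5.symm

theorem mem_of_lead {y : Ω} (hy : HH D x ≤ stabilizer G y) {γ : ℕ}
    (h : ∀ k < D.nroots, D.IsPosRoot k → γ < k → ∃ r < D.nroots, A D r γ = 0 ∧ A D r k ∈ E) {t : K} {v : G}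
    (hv : v ∈ XS x {k | D.IsPosRoot k ∧ γ + 1 ≤ k}) (h1 : x γ t * v ∈ stabilizer G y) : x γ t ∈ stabilizer G y := by
  obtain ⟨c, h3, h4, h5⟩ := (glaub (A := HH D x ⊓ Subgroup.centralizer {x γ t})
    ((hx.isPGroup_UU p).to_le (XS_mono x (S := {k | D.IsPosRoot k ∧ γ + 1 ≤ k}) fun _ h => h.1))
    (fun h => hx.not_dvd_card_HH p (h.trans (Subgroup.card_dvd_of_le inf_le_left))) (fun a ha b hb => hx.HH_commute ha.1 hb.1)
    (fun a ha m => hx.toIsSt.HH_conj_XS ha.1) (x := y) fun a ha => by rw [hy ha.1]; exact mem_orbit_self y).2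
    y (mem_orbit_self y) (v • y) (mem_orb.2 ⟨v, hv, rfl⟩) (fun a ha => hy ha.1) fun a ha => by
      rw [← smul_left_cancel_iff (x γ t), ← mul_smul, ← Subgroup.mem_centralizer_singleton_iff.1 ha.2, mul_smul,
        ← mul_smul (x γ t), h1, hy ha.1]
  rw [eq_one_of_tor hx.toIsFaith h3 fun k hk h6 => let ⟨r, hr, e0, e⟩ := h k hk.1 hk h6; ⟨r, hr, τ, h0, hE _ e,
    h4 _ ⟨hE_mem_HH x hr h0, Subgroup.mem_centralizer_singleton_iff.2 (by
      simpa [e0, mul_inv_eq_iff_eq_mul] using hx.toIsSt.hE_conj hr h0 γ t)⟩⟩, one_smul] at h5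
  rwa [mem_stabilizer_iff, mul_smul, ← h5] at h1

omit h0 hE hp in
theorem card_filt {S : Subgroup G} (T : Finset ℕ) (h : ∀ k, D.IsPosRoot k → k ∉ T → ∀ t,
      ∀ v ∈ XS x {j | D.IsPosRoot j ∧ k + 1 ≤ j}, x k t * v ∈ S → t = 0) :
    Nat.card ↥(UU D x ⊓ S) ≤ Nat.card K ^ T.card := by
  have hn := hx.toIsSt.nilFam isClosed_pos (one_mem _) fun _ h => h
  have key : ∀ j m, m + j = D.nroots → Nat.card ↥(XS x {k | D.IsPosRoot k ∧ m ≤ k} ⊓ S) ≤
      Nat.card K ^ (T.filter (m ≤ ·)).card := fun j => by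
    induction j with
    | zero =>
      intro m hm
      rw [show {k | D.IsPosRoot k ∧ m ≤ k} = ∅ from Set.eq_empty_of_forall_notMem fun k hk => by
        have := hk.1.1; have := hk.2; omega, XS_empty, bot_inf_eq, Subgroup.card_bot]
      exact Nat.one_le_pow _ _ Nat.card_pos
    | succ j ih =>
      intro m hm
      have h1 := ih (m + 1) (by omega)
      have h2 : Nat.card K ^ (T.filter (m + 1 ≤ ·)).card ≤ Nat.card K ^ (T.filter (m ≤ ·)).card :=
        Nat.pow_le_pow_right Nat.card_pos (Finset.card_le_card fun k => by simpa using fun h h' => ⟨h, h'.le⟩)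
      by_cases hm : D.IsPosRoot m
      swap
      · rw [show {k | D.IsPosRoot k ∧ m ≤ k} = {k | D.IsPosRoot k ∧ m + 1 ≤ k} from Set.ext fun k =>
          and_congr_right fun hk => ⟨fun h => lt_of_le_of_ne h (by rintro rfl; exact hm hk), Nat.le_of_succ_le⟩]
        exact h1.trans h2
      have h3 : ∀ a : ↥(XS x {k | D.IsPosRoot k ∧ m ≤ k} ⊓ S), ∃ t, ∃ v ∈ XS x {k | D.IsPosRoot k ∧ m + 1 ≤ k},
        a.1 = x m t * v := fun a => hn.split hm a.2.1
      choose co v hv e using h3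
      have h4 : ∀ a a', co a = co a' → a.1⁻¹ * a'.1 ∈ XS x {k | D.IsPosRoot k ∧ m + 1 ≤ k} ⊓ S := fun a a' k =>
        ⟨by rw [e a, e a', k]; simpa [mul_assoc] using mul_mem (inv_mem (hv a)) (hv a'), S.mul_mem (S.inv_mem a.2.2) a'.2.2⟩
      by_cases hT : m ∈ T
      · refine (card_le_of_co co h4).trans ((Nat.mul_le_mul_left _ h1).trans ?_)
        rw [← pow_succ']
        exact Nat.pow_le_pow_right Nat.card_pos (Finset.card_lt_card ⟨fun k => by simpa using fun h h' => ⟨h, h'.le⟩,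
          fun k => by simpa using k (by simpa using hT : m ∈ _)⟩)
      · refine (card_le_of_co (fun _ => ()) fun a a' _ => h4 a a' ?_).trans (by simpa using h1.trans h2)
        rw [h m hm hT (co a) _ (hv a) (e a ▸ a.2.2), h m hm hT (co a') _ (hv a') (e a' ▸ a'.2.2)]
  simpa using! key D.nroots 0 (by simp)

end Cfsg.Agent.H8
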