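import Cfsg.Agent.H8.Sym
import Cfsg.Agent.H7.Faith
import Cfsg.Agent.H7.Twist

/-! Symbolic evaluation of matrix entries of words in root elements. -/

set_option autoImplicit false
set_option linter.unusedSectionVars false

namespace Cfsg.Agent.H8.AF

open Cfsg.Lie Matrix Cfsg.Agent.H7

/-- Add `P • e_a` to a symbolic vector. -/
noncomputable def vins (p a : ℕ) (P : Pol) (v : SW) : SW :=
  List.rec (wcons a P []) (fun b t ih => (Nat.beq a b.1).rec (b :: ih) (wcons a (padd p P b.2) t)) v

noncomputable def vcol (p : ℕ) (P Q : Pol) (col : List Ent) (acc : SW) : SW :=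
  List.rec acc (fun e _ ih => vins p e.b (pscale p e.c (pmul p (ppow p P e.k) Q)) ih) col

noncomputable def vx (T : Fast) (p r : ℕ) (P : Pol) (v : SW) : SW :=
  (nlt r T.n).rec v (List.rec [] (fun b _ ih => vcol p P b.2 (T.xCol r b.1) ih) v)

/-- Apply a word to a symbolic vector. -/
noncomputable def vw (T : Fast) (p : ℕ) (w v : SW) : SW := List.rec v (fun c _ ih => vx T p c.1 c.2 ih) w

/-- A coordinate of a symbolic vector. -/
noncomputable def vco (p a : ℕ) (v : SW) : Pol :=
  List.rec [] (fun b _ ih => (Nat.beq a b.1).rec ih (padd p b.2 ih)) v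

/-- The entry `(i, j)` of a word. -/
noncomputable def ent (T : Fast) (p : ℕ) (w : SW) (i j : ℕ) : Pol := vco p i (vw T p w [(j, [(Int.ofNat 1, [])])])

/-- Equality test for polynomials. -/
noncomputable def peq (p : ℕ) (P Q : Pol) : Bool := isNil (padd p P (pscale p (Int.negSucc 0) Q))

/-- Substitution of a table of products of root elements in a word. -/
noncomputable def wfold (p : ℕ) (Y : ℕ → List Ent) (w : SW) : SW :=
  List.rec [] (fun c _ ih => List.rec ih (fun e _ acc => (e.b, pscale p e.c (ppow p c.2 e.k)) :: acc) (Y c.1)) w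

variable {D : ChevalleyDatum} {K : Type*} [Field K] {p : ℕ} {T : Fast}

variable (D) in
/-- The value of a symbolic vector. -/
def evV (v : ℕ → K) (s : SW) : D.Idx → K := (s.map fun b => pev v b.2 • bas D K b.1).sum

@[simp] theorem evV_nil (v : ℕ → K) : evV D v [] = 0 := rfl

@[simp] theorem evV_cons (v : ℕ → K) (b : ℕ × Pol) (s : SW) : evV D v (b :: s) = pev v b.2 • bas D K b.1 + evV D v s := by
  simp [evV]

theorem evV_wcons (v : ℕ → K) (a : ℕ) (P : Pol) (s : SW) : evV D v (wcons a P s) = pev v P • bas D K a + evV D v s := by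
  unfold wcons
  cases h0 : isNil P with
  | false => simp
  | true => simp [isNil_iff.1 h0]

variable (hp : (p : K) = 0)
include hp

theorem peq_sound (v : ℕ → K) {P Q : Pol} (h : peq p P Q = true) : pev v P = pev v Q := by
  have := pev_padd hp v P (pscale p (Int.negSucc 0) Q)
  rw [isNil_iff.1 h, pev_pscale hp] at this
  have e : ((Int.negSucc 0 : ℤ) : K) = -1 := by simp
  rw [e, pev_nil] at this
  linear_combination -this

theorem evV_vins (v : ℕ → K) (a : ℕ) (P : Pol) (s : SW) : evV D v (vins p a P s) = pev v P • bas D K a + evV D v s := by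
  induction s with
  | nil => exact evV_wcons v a P []
  | cons b t ih =>
    have : vins p a P (b :: t) = (Nat.beq a b.1).rec (b :: vins p a P t) (wcons a (padd p P b.2) t) := rfl
    rw [this]
    cases h : Nat.beq a b.1 with
    | false => simp only [evV_cons, ih]; abel
    | true => simp only [evV_wcons, pev_padd hp, evV_cons, add_smul, ← nbeq_iff.1 h]; abel

theorem evV_vcol (v : ℕ → K) (P Q : Pol) (col : List Ent) (acc : SW) :
    evV D v (vcol p P Q col acc) = pev v Q • evalC D (pev v P) col + evV D v acc := by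
  induction col with
  | nil => simp [vcol]
  | cons e col ih =>
    have : vcol p P Q (e :: col) acc = vins p e.b (pscale p e.c (pmul p (ppow p P e.k) Q)) (vcol p P Q col acc) := rfl
    rw [this, evV_vins hp, ih, evalC_cons, pev_pscale hp, pev_pmul hp, pev_ppow hp, smul_add, smul_smul, add_assoc]
    congr 2; ring

variable [RootFacts D] [MatFacts D]

theorem evV_vx (hT : Agree D T) (v : ℕ → K) (r : ℕ) (P : Pol) (s : SW) :
    evV D v (vx T p r P s) = (xu D K r (pev v P) : Matrix D.Idx D.Idx K) *ᵥ evV D v s := by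
  unfold vx
  cases h : nlt r T.n with
  | false =>
    rw [← Bool.not_eq_true, nlt_iff, hT.n_eq, not_lt] at h
    simp [xu_ge h]
  | true =>
    rw [nlt_iff, hT.n_eq] at h
    induction s with
    | nil => simp
    | cons b s ih =>
      simp only at ih ⊢
      rw [evV_vcol hp, ih, evV_cons, mulVec_add, mulVec_smul, xu_val, hT.xRep h]

theorem evV_vw (hT : Agree D T) (v : ℕ → K) (w s : SW) :
    evV D v (vw T p w s) = ((evS (xu D K) v w : GL D.Idx K) : Matrix D.Idx D.Idx K) *ᵥ evV D v s := by
  induction w with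
  | nil => simp [vw]
  | cons c w ih =>
    have : vw T p (c :: w) s = vx T p c.1 c.2 (vw T p w s) := rfl
    rw [this, evV_vx hp hT, ih, evS_cons, Units.val_mul, mulVec_mulVec]

omit [RootFacts D] [MatFacts D] in
theorem pev_vco (v : ℕ → K) (i : D.Idx) (s : SW) : pev v (vco p (enc D i) s) = evV D v s i := by
  induction s with
  | nil => simp [vco]
  | cons b s ih =>
    have : vco p (enc D i) (b :: s) = (Nat.beq (enc D i) b.1).rec (vco p (enc D i) s) (padd p b.2 (vco p (enc D i) s)) := rfl
    rw [this, evV_cons, Pi.add_apply, Pi.smul_apply, ← ih, bas]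
    cases h : Nat.beq (enc D i) b.1 with
    | false =>
      rw [← Bool.not_eq_true, nbeq_iff] at h
      simp [h]
    | true => simp [pev_padd hp, nbeq_iff.1 h]

theorem pev_ent (hT : Agree D T) (v : ℕ → K) (w : SW) (i j : D.Idx) :
    pev v (ent T p w (enc D i) (enc D j)) = ((evS (xu D K) v w : GL D.Idx K) : Matrix D.Idx D.Idx K) i j := by
  rw [ent, pev_vco hp, evV_vw hp hT]
  simp [mev, mulVec_bas]

omit [RootFacts D] [MatFacts D] in
theorem evS_wfold {G G' : Type*} [Group G] [Group G'] {x : ℕ → K → G} {y : ℕ → K → G'} {Y : ℕ → List Ent} {θ : G →* G'}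
    (h : ∀ r t, θ (x r t) = yfam y Y r t) (v : ℕ → K) (w : SW) : evS y v (wfold p Y w) = θ (evS x v w) := by
  induction w with
  | nil => simp [wfold]
  | cons c w ih =>
    have : wfold p Y (c :: w) =
      List.rec (wfold p Y w) (fun e _ acc => (e.b, pscale p e.c (ppow p c.2 e.k)) :: acc) (Y c.1) := rfl
    rw [this, evS_cons, map_mul, h, ← ih, yfam]
    induction Y c.1 with
    | nil => simp
    | cons e l ihl => simp only [evS_cons, ihl, List.map_cons, List.prod_cons, mul_assoc, pev_pscale hp, pev_ppow hp]

omit hp in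
theorem evS_xg (v : ℕ → K) (w : SW) : ((evS (xg D K) v w : D.group K) : GL D.Idx K) = evS (xu D K) v w := by
  induction w with
  | nil => simp
  | cons c w ih => simp [ih]

end Cfsg.Agent.H8.AF
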