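import Cfsg.Agent.H8.AF0
import Cfsg.Agent.H7.Fold
import Cfsg.Agent.H8.InvE7
import Cfsg.Agent.H9.AH2

/-! The `27`-dimensional module of `F4` inside the adjoint module of `E7`; extraction on it. -/

set_option autoImplicit false
set_option linter.unusedSectionVars false

namespace Cfsg.Agent.H8.AF

open Cfsg.Lie Matrix Finset Cfsg.Agent.H7 Cfsg.Agent.H9.AH

/-- The folding of `F4` into `E7`. -/
def fold7 : List (List (ℕ × ℕ × ℤ)) := [[(6, 1, 1)], [(10, 1, 1)], [(13, 1, 1)], [(15, 1, 1), (19, 1, 1)], [(21, 1, 1)], [(24, 1, 1)], [(28, 1, 1)], [(16, 1, 1), (35, 1, -1)], [(22, 1, 1), (37, 1, -1)], [(25, 1, 1), (40, 1, -1)], [(29, 1, 1), (49, 1, -1)], [(26, 1, 1), (44, 1, -1)], [(30, 1, 1), (54, 1, 1)], [(31, 1, 1), (58, 1, -1)], [(32, 1, 1), (61, 1, 1)], [(38, 1, 1)], [(41, 1, 1)], [(50, 1, 1)], [(42, 1, 1), (45, 1, 1)], [(51, 1, 1), (55, 1, -1)], [(52, 1, 1), (59, 1, 1)], [(46, 1, -1)], [(56, 1, 1)], [(47, 1, 1)], [(78, 1, 1)],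 [(69, 1, 1)], [(79, 1, -1)], [(73, 1, 1), (66, 1, 1)], [(74, 1, 1), (70, 1, -1)], [(83, 1, 1), (80, 1, 1)], [(75, 1, 1)], [(84, 1, 1)], [(87, 1, 1)], [(93, 1, 1), (64, 1, 1)], [(94, 1, 1), (67, 1, -1)], [(95, 1, 1), (71, 1, 1)], [(99, 1, 1), (81, 1, -1)], [(96, 1, 1), (76, 1, -1)], [(100, 1, 1), (85, 1, -1)], [(103, 1, 1), (88, 1, -1)], [(109, 1, 1), (90, 1, -1)], [(97, 1, 1)], [(101, 1, 1)], [(104, 1, 1)], [(110, 1, 1), (106, 1, 1)], [(112, 1, 1)], [(115, 1, 1)], [(119, 1, 1)]]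

theorem chkFold7 : chkFam fastE7 fastF4 0 (mkY fold7) = true := by decide +kernel

variable {F : Type*} [Field F]

theorem exists_F4_hom [Finite F] {G : Type*} [Group G] {y : ℕ → F → G} (hy : IsSt chevF4 y) :
    ∃ θ : chevF4.group F →* G, ∀ r t, θ (xg chevF4 F r t) = y r t := by
  obtain ⟨τ, hτ⟩ := hy.exists_lift
  obtain ⟨τ', hτ'⟩ := (H7.isChev_xg (D := chevF4) (F := F)).toIsSt.exists_lift
  have hi : Function.Injective τ' := (injective_iff_map_eq_one τ').2 fun g hg => by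
    obtain ⟨a, rfl, ha⟩ := (mem_ker_iff (isSt_scGen _ _) (XS_scGen_top _ _) H7.isChev_xg hτ').1 hg
    have h2 : zker chevF4 F = ⊥ := Subgroup.eq_bot_of_card_eq _ (by rw [card_zkerF4]; simp)
    obtain rfl : a = 1 := Subgroup.mem_bot.1 (h2 ▸ ha)
    simp [hProd, (isSt_scGen chevF4 F).hE_one]
  let ε := MulEquiv.ofBijective τ' ⟨hi, surjective_of_GG H7.GG_xg hτ'⟩
  exact ⟨τ.comp ε.symm.toMonoidHom, fun r t => by rw [← hτ, ← hτ']; exact congrArg τ (ε.symm_apply_apply _)⟩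

theorem exists_th7 [Finite F] : ∃ θ : chevF4.group F →* GL chevE7.Idx F,
    ∀ r t, θ (xg chevF4 F r t) = yfam (xu chevE7 F) (mkY fold7) r t :=
  exists_F4_hom (isSt_yfam agrE7 agrF4 isSt_xu (p := 0) (by simp) (fun r hr => mkY_out hr)
    (mkY_add (p := 1) (by simp) (by decide)) chkFold7)

variable (F) in
/-- The homomorphism `F4 → E7`. -/
noncomputable def th7 [Finite F] : chevF4.group F →* GL chevE7.Idx F := (exists_th7 (F := F)).choose

/-- The entry of a word of `F4` in `E7`. -/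
noncomputable def ent7 (p : ℕ) (w : SW) (i j : ℕ) : Pol := ent fastE7 p (wfold p (mkY fold7) w) i j

variable [Finite F]

theorem pev_ent7 {p : ℕ} (hp : (p : F) = 0) (v : ℕ → F) (w : SW) (i j : chevE7.Idx) :
    pev v (ent7 p w (enc chevE7 i) (enc chevE7 j)) =
      ((th7 F (evS (xg chevF4 F) v w) : GL chevE7.Idx F) : Matrix chevE7.Idx chevE7.Idx F) i j := by
  rw [ent7, pev_ent hp agrE7, evS_wfold hp (exists_th7 (F := F)).choose_spec]; rfl

/-- The weights of the `27`-dimensional module, with their levels. -/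
def L27 : List (ℕ × ℤ) := [(63, -2), (65, -1), (68, -1), (72, -1), (77, -1), (82, -1), (86, -1), (89, -1), (91, -1), (92, 0),
  (98, 0), (102, 0), (105, 0), (107, 0), (108, 1), (111, 0), (113, 0), (114, 1), (116, 0), (117, 1), (118, 1), (120, 0),
  (121, 1), (122, 1), (123, 1), (124, 1), (125, 2)]

/-- The indices of the `27`-dimensional module. -/
def In27 (c : chevE7.Idx) : Prop := enc chevE7 c ∈ L27.map Prod.fst

instance decIn27 : DecidablePred In27 := fun c => inferInstanceAs (Decidable (enc chevE7 c ∈ L27.map Prod.fst))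

/-- The variable number `i`. -/
def vr (i : ℕ) : Pol := [(1, List.replicate i 0 ++ [1])]

omit [Finite F] in
@[simp] theorem pev_vr (v : ℕ → F) (i : ℕ) : pev v (vr i) = v i := by
  induction i generalizing v with
  | zero => simp [vr, mev]
  | succ i ih => simpa [vr, mev, List.replicate_succ] using ih (fun i => v (i + 1))

theorem inv27 (g : chevF4.group F) (i j : chevE7.Idx) (hi : ¬ In27 i) (hj : In27 j) :
    ((th7 F g : GL chevE7.Idx F) : Matrix chevE7.Idx chevE7.Idx F) i j = 0 := by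
  let P : chevF4.group F → Prop := fun g => ∀ i j, ¬ In27 i → In27 j →
    ((th7 F g : GL chevE7.Idx F) : Matrix chevE7.Idx chevE7.Idx F) i j = 0
  have hm : ∀ a b, P a → P b → P (a * b) := fun a b ha hb i j hi hj => by
    rw [map_mul, Units.val_mul, mul_apply]
    refine sum_eq_zero fun k _ => ?_
    by_cases hk : In27 k
    · rw [ha i k hi hk, zero_mul]
    · rw [hb k j hk hj, mul_zero]
  have h1 : P 1 := fun i j hi hj => by
    rw [map_one, Units.val_one, one_apply_ne (by rintro rfl; exact hi hj)]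
  let H : Subgroup (chevF4.group F) :=
    { carrier := {g | P g ∧ P g⁻¹}
      one_mem' := ⟨h1, by rwa [inv_one]⟩
      mul_mem' := fun {a b} ha hb => ⟨hm _ _ ha.1 hb.1, by rw [_root_.mul_inv_rev]; exact hm _ _ hb.2 ha.2⟩
      inv_mem' := fun {a} ha => ⟨ha.2, by rw [inv_inv]; exact ha.1⟩ }
  have hx := (H7.isChev_xg (D := chevF4) (F := F)).toIsSt
  have key : ∀ r ∈ [33, 27, 25, 24, 14, 20, 22, 23], ∀ t, P (xg chevF4 F r t) := fun r hr t i j hi hj => by
    have h0 := (by decide +kernel : ∀ r ∈ [33, 27, 25, 24, 14, 20, 22, 23], ∀ j ∈ L27.map Prod.fst, ∀ i < 133,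
      i ∈ L27.map Prod.fst ∨ isNil (ent7 0 [(r, vr 0)] i j) = true) r hr _ hj _ (enc_lt chevE7 i)
    have := pev_ent7 (p := 0) (by simp) (fun _ => t) [(r, vr 0)] i j
    rw [isNil_iff.1 (h0.resolve_left hi)] at this
    simpa using this.symm
  have key' : ∀ r ∈ [33, 27, 25, 24, 14, 20, 22, 23], ∀ t, xg chevF4 F r t ∈ H := fun r hr t =>
    ⟨key r hr t, by rw [← hx.neg]; exact key r hr _⟩
  exact (hx.GG_le_of_pm_simple (H := H) (fun i => key' _ (by revert i; decide +kernel))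
    (fun i => key' _ (by revert i; decide +kernel)) (H7.GG_xg (D := chevF4) (F := F) ▸ Subgroup.mem_top g)).1 i j hi hj

variable (F) in
/-- The `27`-dimensional module. -/
noncomputable def rho27 : chevF4.group F →* Matrix {c // In27 c} {c // In27 c} F where
  toFun g := ((th7 F g : GL chevE7.Idx F) : Matrix chevE7.Idx chevE7.Idx F).toBlock In27 In27
  map_one' := by rw [map_one, Units.val_one, toBlock_one_self]
  map_mul' a b := by
    rw [map_mul, Units.val_mul, toBlock_mul_eq_add _ In27]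
    have : ((th7 F b : GL chevE7.Idx F) : Matrix chevE7.Idx chevE7.Idx F).toBlock (fun i => ¬ In27 i) In27 = 0 := by
      ext i j; exact inv27 b _ _ i.2 j.2
    rw [this, Matrix.mul_zero, add_zero]

/-- The level of a weight. -/
def lev27 (n : ℕ) : ℤ := (L27.lookup n).getD 0

theorem up27 {r : ℕ} {w : ℤ} (h : (r, w) ∈ [(44, 2), (33, 1), (40, 1)]) (u : F) :
    H9.AH.Up (fun c : {c // In27 c} => lev27 (enc chevE7 c.1)) (2 • w)
      (Op (rho27 F) univ (wt3 u) fun t => xg chevF4 F r (pt3 u t)) := by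
  have hx := (H7.isChev_xg (D := chevF4) (F := F)).toIsSt
  refine up_mon ((by decide : ∀ a ∈ [(44, (2 : ℤ)), (33, 1), (40, 1)], 0 < a.2) _ h) (wt3_lt u) fun i j => ?_
  obtain ⟨k, -, m, -, h1, h2⟩ := (by decide +kernel : ∀ a ∈ [(44, (2 : ℤ)), (33, 1), (40, 1)], ∀ i ∈ L27.map Prod.fst,
    ∀ j ∈ L27.map Prod.fst, ∃ k ∈ [(1 : ℕ), 2], ∃ m ∈ [(0 : ℤ), 1, -1], (m = 0 ∨ lev27 j + (k : ℤ) * a.2 ≤ lev27 i) ∧
      peq 0 (ent7 0 [(a.1, vr 0)] i j) [(if i = j then 1 else 0, []), (m, [k])] = true) _ h _ i.2 _ j.2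
  have e : ∀ t : F, rho27 F (xg chevF4 F r t) i j = (1 : Matrix {c // In27 c} {c // In27 c} F) i j + m * t ^ k := fun t => by
    have := pev_ent7 (p := 0) (by simp) (fun _ => t) [(r, vr 0)] i.1 j.1
    rw [peq_sound (by simp) _ h2] at this
    simp only [pev_cons, pev_nil, mev, evS_cons, evS_nil, mul_one, pev_vr, (enc_inj chevE7).eq_iff, add_zero] at this
    rw [one_apply]
    simp only [Subtype.ext_iff]
    refine this.symm.trans ?_
    split_ifs <;> simp
  refine ⟨k, m, m * (-1) ^ k, fun h3 => ?_, fun t _ => ⟨e _, by rw [← hx.neg, e, neg_pow, mul_assoc]⟩⟩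
  rcases h1 with rfl | h1
  · simp at h3
  · simpa using h1

/-- The corner entry on the `27`-dimensional module. -/
noncomputable def cs (g : chevF4.group F) : F :=
  ((th7 F g : GL chevE7.Idx F) : Matrix chevE7.Idx chevE7.Idx F) (Sum.inr ⟨63, by decide⟩) (Sum.inr ⟨125, by decide⟩)

/-- The corner entry on the adjoint module. -/
def cl (g : chevF4.group F) : F :=
  ((g : GL chevF4.Idx F) : Matrix chevF4.Idx chevF4.Idx F) (Sum.inr ⟨0, by decide⟩) (Sum.inr ⟨47, by decide⟩)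

theorem ext_short {u : F} (h0 : u ≠ 0) (h1 : u ≠ 1) {a b c : chevF4.group F} (h : CP a b c) (ha : cs a ≠ 0)
    (hb : cs b ≠ 0) : False := by
  have hx := (H7.isChev_xg (D := chevF4) (F := F)).toIsSt
  have l1 := (by decide : ∀ n ∈ L27.map Prod.fst, (n = 63 ∨ lev27 63 < lev27 n) ∧ (n = 125 ∨ lev27 n < lev27 125))
  refine ext_core (ρ := rho27 F) (lev := fun c : {c // In27 c} => lev27 (enc chevE7 c.1)) (h.trace (rho27 F))
    (lo := ⟨Sum.inr ⟨63, by decide⟩, by decide⟩) (hi := ⟨Sum.inr ⟨125, by decide⟩, by decide⟩)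
    (fun i hi => (l1 _ i.2).1.resolve_left fun e => hi (Subtype.ext (enc_inj chevE7 e)))
    (fun i hi => (l1 _ i.2).2.resolve_left fun e => hi (Subtype.ext (enc_inj chevE7 e))) (by decide)
    (((inA_op _ _ _).mul (inA_op _ _ _)).mul (inA_op _ _ _))
    ((((up27 (r := 40) (w := 1) (by simp) u).mul (up27 (r := 33) (w := 1) (by simp) u)).mul
      (up27 (r := 44) (w := 2) (by simp) u)).mono (by decide)) ?_ ha hb
  rw [Op_mul, Op_mul, Op_single]
  have e : ∀ s r t : F, ∀ g, g = xg chevF4 F 40 s * xg chevF4 F 33 r * xg chevF4 F 44 t →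
      rho27 F g ⟨Sum.inr ⟨125, by decide⟩, by decide⟩ ⟨Sum.inr ⟨63, by decide⟩, by decide⟩ *
      rho27 F g⁻¹ ⟨Sum.inr ⟨125, by decide⟩, by decide⟩ ⟨Sum.inr ⟨63, by decide⟩, by decide⟩ = (t ^ 2 - s * r * t) ^ 2 := by
    rintro s r t _ rfl
    let w : SW := [(40, vr 0), (33, vr 1), (44, vr 2)]
    let v : ℕ → F := fun i => [s, r, t].getD i 0
    have e1 := pev_ent7 (p := 0) (by simp) v w (Sum.inr ⟨125, by decide⟩) (Sum.inr ⟨63, by decide⟩)
    have e2 := pev_ent7 (p := 0) (by simp) v (winv 0 w []) (Sum.inr ⟨125, by decide⟩) (Sum.inr ⟨63, by decide⟩)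
    rw [peq_sound (p := 0) (by simp) v (Q := [(1, [0, 0, 2]), (-1, [1, 1, 1])]) (by decide +kernel)] at e1 e2
    rw [hx.evS_winv (by simp)] at e2
    simp only [w, v, evS_cons, evS_nil, mul_one, pev_vr, ← mul_assoc] at e1 e2
    rw [sq (_ - _)]
    congr 1
    · refine e1.symm.trans ?_; simp [mev]; ring
    · refine e2.symm.trans ?_; simp [mev]; ring
  simp only [sum_product, e _ _ _ _ rfl]
  have : ∑ a, ∑ b, ∑ c, wt3 u a * wt3 u b * wt3 u c * (pt3 u c ^ 2 - pt3 u a * pt3 u b * pt3 u c) ^ 2 =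
      (u * (u - 1)) ^ 3 := by
    simp [Fin.sum_univ_three, wt3, pt3]; ring
  rw [this]
  exact pow_ne_zero _ (mul_ne_zero h0 (sub_ne_zero.2 h1))

omit [Finite F] in
theorem ext_long {u : F} (h0 : u ≠ 0) (h1 : u ≠ 1) {a b c : chevF4.group F} (h : CP a b c) (ha : cl a ≠ 0)
    (hb : cl b ≠ 0) : False :=
  LA2.ext (D := chevF4) (θ := 47) (β := 24) (γ := 46) (by constructor <;> decide +kernel)
    (ρ := (Units.coeHom _).comp (chevF4.group F).subtype) h0 h1
    (fun r _ => ⟨⟨xg chevF4 F r 1, rfl⟩, xg chevF4 F r u, rfl⟩) (h.trace _) ha hb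

end Cfsg.Agent.H8.AF
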