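import Cfsg.Agent.H8.Cover

/-! Lifting through central extensions whose kernel has no `p`-torsion; projective representations. -/

set_option autoImplicit false
set_option linter.unusedSectionVars false

namespace Cfsg.Agent.H8

open Cfsg.Lie Matrix Cfsg.Agent.H7
open scoped commutatorElement MatrixGroups

variable {D : ChevalleyDatum} {K : Type*} [Field K] {G E : Type*} [Group G] [Group E] {x : ℕ → K → G} {π : E →* G}

theorem IsSt.pow_char (hx : IsSt D x) (p : ℕ) [CharP K p] (r : ℕ) (t : K) : x r t ^ p = 1 := by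
  have : ∀ n : ℕ, x r t ^ n = x r (n * t) := fun n => by
    induction n with
    | zero => simp [hx.zero]
    | succ n ih => rw [pow_succ, ih, ← hx.add]; congr 1; push_cast; ring
  rw [this, CharP.cast_eq_zero, zero_mul, hx.zero]

variable [hD : RootFacts D] [hN : NFacts D]

theorem lift_of_coprime (p : ℕ) [hp : Fact p.Prime] [CharP K p] (hπ : Function.Surjective π)
    (hc : π.ker ≤ Subgroup.center E) (hx : IsSt D x) (hF : Faithful D x) (h1 : ∀ z, π z = 1 → z ^ p = 1 → z = 1)
    (h2 : ∀ z, π z = 1 → IsOfFinOrder z) : ∃ y' : ℕ → K → E, IsSt D y' ∧ ∀ k t, π (y' k t) = x k t := by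
  have h3 : ∀ r t, ∃ y, π y = x r t ∧ y ^ p = 1 := by
    intro r t
    obtain ⟨e, he⟩ := hπ (x r t)
    have h4 : π (e ^ p) = 1 := by rw [map_pow, he, hx.pow_char]
    have h5 : p.Coprime (orderOf (e ^ p)) := by
      rw [Nat.Prime.coprime_iff_not_dvd hp.out]
      rintro ⟨m, hm⟩
      have h6 := h1 ((e ^ p) ^ m) (by rw [map_pow, h4, one_pow]) (by rw [← pow_mul _ m, mul_comm, ← hm, pow_orderOf_eq_one])
      have h7 := Nat.le_of_dvd (Nat.pos_of_ne_zero (by
        rintro rfl
        exact (h2 _ h4).orderOf_pos.ne' hm)) (orderOf_dvd_of_pow_eq_one h6)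
      have h8 := (h2 _ h4).orderOf_pos
      have := hp.out.two_le
      rw [hm] at h7 h8
      have : 0 < m := Nat.pos_of_mul_pos_left h8
      nlinarith
    obtain ⟨m, hm⟩ := exists_pow_eq_self_of_coprime h5
    refine ⟨e * ((e ^ p) ^ m)⁻¹, by rw [map_mul, map_inv, map_pow, h4, he]; simp, ?_⟩
    rw [(((Commute.refl e).pow_right p).pow_right m).inv_right.mul_pow, inv_pow, ← pow_mul _ m, mul_comm m, pow_mul, hm,
      mul_inv_cancel]
  choose y hy hy' using h3
  have hL : ∀ r, LC π x r r := fun r => LC_of_lcf hπ hc fun t u =>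
    h1 _ (by rw [map_lcf, commutatorElement_eq_one_iff_commute]; exact hx.commute_self r t u)
      ((biAdd_lcf hπ hc hx (hx.commute_self r)).pow_char p t u)
  refine lift_isSt hx hF hc (fun k _ => hy k) (fun k _ t u => ?_) fun r s hr hs h4 h5 hb =>
    R2_of_defect fun t u => h1 _ (map_defect hx (fun k _ => hy k) hr hs h4 h5 t u) (hb.pow_char p t u)
  rw [← mul_inv_eq_one]
  refine h1 _ (by simp [hy, hx.add]) ?_
  have c1 := hL k _ _ _ _ (hy k t) (hy k u)
  rw [((hL k _ _ _ _ (hy k (t + u)) (hy k t)).mul_right (hL k _ _ _ _ (hy k (t + u)) (hy k u))).inv_right.mul_pow,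
    inv_pow, c1.mul_pow, hy', hy', hy']
  simp

omit hD hN in
theorem center_GL_facts {L : Type*} [Field L] {n : ℕ} (p : ℕ) [hp : Fact p.Prime] [CharP L p] {e : GL (Fin n) L}
    (he : e ∈ Subgroup.center (GL (Fin n) L)) : (e ^ p = 1 → e = 1) ∧ (GeneralLinearGroup.det e = 1 → IsOfFinOrder e) := by
  rcases Nat.eq_zero_or_pos n with rfl | hn
  · have : e = 1 := Subsingleton.elim _ _
    exact ⟨fun _ => this, fun _ => this ▸ IsOfFinOrder.one⟩
  obtain ⟨c, hc⟩ := GeneralLinearGroup.mem_center_iff_val_mem_range_scalar.1 he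
  refine ⟨fun h => ?_, fun h => isOfFinOrder_iff_pow_eq_one.2 ⟨n, hn, Units.ext ?_⟩⟩
  · have h1 := congrArg Units.val h
    rw [Units.val_pow_eq_pow_val, ← hc, ← map_pow] at h1
    have h2 := congrFun (congrFun h1 ⟨0, hn⟩) ⟨0, hn⟩
    simp only [scalar_apply, diagonal_apply_eq, Units.val_one, one_apply_eq] at h2
    have h3 : (c - 1) ^ p = 0 := by rw [sub_pow_char, h2, one_pow, sub_self]
    have h4 : c = 1 := sub_eq_zero.1 (pow_eq_zero_iff hp.out.ne_zero |>.1 h3)
    exact Units.ext (by rw [← hc, h4, map_one]; rfl)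
  · have h1 := congrArg Units.val h
    rw [GeneralLinearGroup.val_det_apply, ← hc] at h1
    simp only [scalar_apply, det_diagonal, Finset.prod_const, Finset.card_univ, Fintype.card_fin, Units.val_one] at h1
    rw [Units.val_pow_eq_pow_val, ← hc, ← map_pow, h1, map_one]; rfl

theorem exists_proj_lift (p : ℕ) [hp : Fact p.Prime] [CharP K p] {L : Type*} [Field L] [CharP L p] {n : ℕ}
    (hx : IsSt D x) (hF : Faithful D x) (hG : commutator G = ⊤)
    (φ : G →* GL (Fin n) L ⧸ Subgroup.center (GL (Fin n) L)) : ∃ y : ℕ → K → GL (Fin n) L, IsSt D y ∧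
      ∀ k t, QuotientGroup.mk' (Subgroup.center (GL (Fin n) L)) (y k t) = φ (x k t) := by
  let P : Subgroup (GL (Fin n) L × G) := ((QuotientGroup.mk' (Subgroup.center (GL (Fin n) L))).comp
    (MonoidHom.fst _ _)).eqLocus (φ.comp (MonoidHom.snd _ _)) ⊓ (GeneralLinearGroup.det.comp (MonoidHom.fst _ _)).ker
  have hk : ∀ z : P, z.1.2 = 1 → z.1.1 ∈ Subgroup.center (GL (Fin n) L) := fun z hz => by
    have h3 : QuotientGroup.mk' _ z.1.1 = φ z.1.2 := z.2.1
    rw [hz, map_one] at h3
    exact (QuotientGroup.eq_one_iff _).1 h3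
  obtain ⟨y, hy, h1⟩ := lift_of_coprime (π := (MonoidHom.snd _ _).comp P.subtype) p (by
      rw [← MonoidHom.range_eq_top, eq_top_iff, ← hG, commutator_def, Subgroup.commutator_le]
      intro a _ b _
      obtain ⟨a', ha⟩ := QuotientGroup.mk'_surjective _ (φ a)
      obtain ⟨b', hb⟩ := QuotientGroup.mk'_surjective _ (φ b)
      refine ⟨⟨⁅(a', a), (b', b)⁆, ?_, ?_⟩, rfl⟩
      · change _ = _
        rw [map_commutatorElement, map_commutatorElement]; simp only [MonoidHom.comp_apply, MonoidHom.coe_fst, MonoidHom.coe_snd, ha, hb]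
      · change _ = _
        rw [map_commutatorElement, commutatorElement_eq_one_iff_mul_comm, mul_comm])
    (fun z hz => Subgroup.mem_center_iff.2 fun g => by
      have h2 : z.1.2 = 1 := hz
      refine Subtype.ext (Prod.ext ?_ ?_)
      · exact Subgroup.mem_center_iff.1 (hk z h2) _
      · simp [h2]) hx hF
    (fun z hz h => Subtype.ext (Prod.ext ((center_GL_facts p (hk z hz)).1
      (congrArg (fun z : P => z.1.1) h)) hz))
    (fun z hz => by
      obtain ⟨m, hm, h⟩ := isOfFinOrder_iff_pow_eq_one.1 ((center_GL_facts p (hk z hz)).2 z.2.2)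
      have h2 : z.1.2 = 1 := hz
      exact isOfFinOrder_iff_pow_eq_one.2 ⟨m, hm, Subtype.ext (Prod.ext h (by simp [h2]))⟩)
  refine ⟨_, hy.map ((MonoidHom.fst _ _).comp P.subtype), fun k t => ?_⟩
  rw [← h1]; exact (y k t).2.1

end Cfsg.Agent.H8
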