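import Cfsg.Agent.H8.AF3
import Cfsg.Agent.H8.LiftP

/-! The two domestic classes of `F4`, and products of two classes in `F4(q)`, `q ≥ 3`. -/

set_option autoImplicit false
set_option linter.unusedSectionVars false

namespace Cfsg.Agent.H8.AF

open Cfsg.Lie Matrix Finset Cfsg.Agent.H7 Cfsg.Agent.H9.AH

variable {F : Type*} [Field F]

theorem one_of_cols (v : ℕ → F) {w : SW}
    (h : ∀ j < 52, isNil (vins 0 j [(-1, [])] (vw fastF4 0 w [(j, [(1, [])])])) = true) : evS (xg chevF4 F) v w = 1 := by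
  refine Subtype.ext (Units.ext (mat_ext fun j hj => ?_))
  have := evV_vins (D := chevF4) (p := 0) (by simp) v j [(-1, [])] (vw fastF4 0 w [(j, [(1, [])])])
  rw [isNil_iff.1 (h j hj), evV_vw (by simp) agrF4, ← evS_xg] at this
  simp only [evV_nil, evV_cons, pev_cons, pev_nil, mev, Int.cast_neg, Int.cast_one, mul_one, add_zero, neg_smul,
    one_smul] at this
  rw [OneMemClass.coe_one, Units.val_one, one_mulVec, eq_comm, ← neg_add_eq_zero, ← this]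

theorem comm_of_cols {w : SW} {r : ℕ} (t : F) (h : ∀ j < 52, isNil (vins 0 j [(-1, [])]
    (vw fastF4 0 (w ++ [(r, vr 0)] ++ winv 0 w [(r, [(-1, [1])])]) [(j, [(1, [])])])) = true) :
    evS (xg chevF4 F) (fun _ => t) w * xg chevF4 F r t * (evS (xg chevF4 F) (fun _ => t) w)⁻¹ = xg chevF4 F r t := by
  have hx := (H7.isChev_xg (D := chevF4) (F := F)).toIsSt
  have := one_of_cols (fun _ => t) h
  rw [evS_app, evS_app, hx.evS_winv (by simp)] at this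
  rw [← mul_inv_eq_one, ← hx.neg, ← this]; simp [mev, mul_assoc]

theorem refl_val {r s k : ℕ} (h : s < 48 ∧ k < 48 ∧ wt chevF4 s - A chevF4 r s • wt chevF4 r = wt chevF4 k) :
    refl chevF4 r s = k := wt_inj (W_lt (refl_mem r) h.1) h.2.1 (by rw [wt_refl, h.2.2])

/-- The conjugating word of a test. -/
def tw (t : List ℕ × ℕ × ℤ × Pol) : SW := nws (fl chevF4 t.1) ++ [(t.2.1, [(t.2.2.1, [])])]

/-- A coordinate of the image of a symbolic vector, computed with a row of the matrix. -/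
noncomputable def dot (T : Fast) (w V : SW) (i : ℕ) : Pol :=
  List.rec [] (fun b _ ih => padd 0 (pmul 0 (ent T 0 w i b.1) b.2) ih) V

theorem pev_dot {D : ChevalleyDatum} [RootFacts D] [MatFacts D] {T : Fast} (hT : Agree D T) (v : ℕ → F) (w w' : SW)
    (i j : D.Idx) : pev v (dot T w (vw T 0 w' [(enc D j, [(1, [])])]) (enc D i)) =
      ((evS (xu D F) v w * evS (xu D F) v w' : GL D.Idx F) : Matrix D.Idx D.Idx F) i j := by
  have : ∀ V, pev v (dot T w V (enc D i)) = (((evS (xu D F) v w : GL D.Idx F) : Matrix D.Idx D.Idx F) *ᵥ evV D v V) i := by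
    intro V
    induction V with
    | nil => simp [dot]
    | cons b V ih =>
      have : dot T w (b :: V) (enc D i) = padd 0 (pmul 0 (ent T 0 w (enc D i) b.1) b.2) (dot T w V (enc D i)) := rfl
      rw [this, pev_padd (by simp), pev_pmul (by simp), ih, ent, pev_vco (by simp), evV_vw (by simp) hT]
      simp [mev, mulVec_add, mulVec_smul, mul_comm]
  rw [this, evV_vw (by simp) hT, mulVec_mulVec]
  simp [mev, mulVec_bas]

theorem tests {f : chevF4.group F → F} {e : SW → SW → Pol}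
    (he : ∀ v w w', pev v (e w w') = f (evS (xg chevF4 F) v w * evS (xg chevF4 F) v w')) {w w' : SW}
    {T : List (List ℕ × ℕ × ℤ × Pol)} (h : ∀ t ∈ T, peq 0 (e (tw t ++ w) (w' ++ winv 0 (tw t) [])) t.2.2.2 = true)
    {v : ℕ → F} {a : chevF4.group F} (k : IsConj a (evS (xg chevF4 F) v w * evS (xg chevF4 F) v w'))
    (h0 : ∀ a', IsConj a a' → f a' = 0) : ∀ t ∈ T, pev v t.2.2.2 = 0 := fun t ht => by
  rw [← peq_sound (by simp) v (h t ht), he, evS_app, evS_app,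
    (H7.isChev_xg (D := chevF4) (F := F)).toIsSt.evS_winv (by simp), evS_nil, mul_one, ← mul_assoc, mul_assoc _ _ (evS _ v w')]
  exact h0 _ (k.trans (cj _ _))

/-- The corner entry of a product on the adjoint module. -/
noncomputable def e4 (w w' : SW) : Pol := dot fastF4 w (vw fastF4 0 w' [(47, [(1, [])])]) 0

/-- The corner entry of a product on the `27`-dimensional module. -/
noncomputable def e7 (w w' : SW) : Pol :=
  dot fastE7 (wfold 0 (mkY fold7) w) (vw fastE7 0 (wfold 0 (mkY fold7) w') [(125, [(1, [])])]) 63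

theorem pev_e4 (v : ℕ → F) (w w' : SW) : pev v (e4 w w') = cl (evS (xg chevF4 F) v w * evS (xg chevF4 F) v w') := by
  have := pev_dot agrF4 v w w' (Sum.inr ⟨0, by decide⟩) (Sum.inr ⟨47, by decide⟩)
  rwa [← evS_xg, ← evS_xg] at this

theorem pev_e7 [Finite F] (v : ℕ → F) (w w' : SW) :
    pev v (e7 w w') = cs (evS (xg chevF4 F) v w * evS (xg chevF4 F) v w') := by
  have := pev_dot agrE7 v (wfold 0 (mkY fold7) w) (wfold 0 (mkY fold7) w') (Sum.inr ⟨63, by decide⟩) (Sum.inr ⟨125, by decide⟩)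
  rwa [evS_wfold (by simp) (exists_th7 (F := F)).choose_spec, evS_wfold (by simp) (exists_th7 (F := F)).choose_spec,
    ← map_mul] at this

theorem up_form {l L : List ℕ} (h : L.Nodup ∧ (∀ r ∈ L, r < 48) ∧ ∀ r < 48, r ∈ L ↔ chevF4.IsPosRoot r ∧
    chevF4.IsPosRoot (actW chevF4 (fl chevF4 l) r)) {y : chevF4.group F}
    (hy : y ∈ H8.Up chevF4 (xg chevF4 F) (wordW chevF4 (fl chevF4 l))) : ∃ f, y = oprod (xg chevF4 F) L f :=
  (H7.isChev_xg (D := chevF4) (F := F)).toIsSt.exists_oprod (isClosed_pos.inter (isClosed_pos.preimage (wordW_mem _)))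
    (one_mem _) (fun _ h => h.1) (fun r => ⟨fun e => by simpa [wordW_apply] using (h.2.2 r (h.2.1 r e)).1 e,
      fun e => (h.2.2 r e.1.1).2 (by simpa [wordW_apply] using e)⟩) h.1 hy

/-- The unipotent radical for the short roots. -/
def wS : SW := [(24, vr 0), (26, vr 1), (29, vr 2), (31, vr 3), (32, vr 4), (36, vr 5), (38, vr 6), (39, vr 7), (40, vr 8), (42, vr 9),
    (43, vr 10), (44, vr 11), (45, vr 12), (46, vr 13), (47, vr 14)]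

/-- The tests for the short roots. -/
def testS : List (List ℕ × ℕ × ℤ × Pol) :=
  [([0, 1, 2, 3, 1, 2, 0, 1, 2, 3, 0, 1, 2, 1, 0], 42, 1, [(1, [0, 0, 0, 0, 0, 0, 0, 0, 0, 0, 0, 0, 0, 1])]),
  ([0, 1, 2, 3, 1, 2, 0, 1, 2, 3, 0, 1, 2, 1, 0], 43, -1, [(1, [0, 0, 0, 0, 0, 0, 0, 0, 0, 0, 0, 0, 1])]),
  ([0, 1, 2, 3, 1, 2, 0, 1, 2, 3, 0, 1, 2, 1, 0], 45, -1, [(1, [0, 0, 0, 0, 0, 0, 0, 0, 0, 0, 1])]),
  ([0, 1, 2, 3, 1, 2, 0, 1, 2, 3, 0, 1, 2, 1, 0], 46, 1, [(1, [0, 0, 0, 0, 0, 0, 0, 0, 0, 1])]),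
  ([0, 1, 2, 3, 1, 2, 0, 1, 2, 3, 0, 1, 2, 1], 45, 1, [(1, [0, 0, 0, 0, 1])]),
  ([0, 1, 2, 3, 1, 2, 0, 1, 2, 3, 0, 1, 2, 1], 46, -1, [(1, [0, 0, 0, 1])]),
  ([0, 1, 2, 3, 1, 2, 0, 1, 2, 3, 0, 1, 2], 46, 1, [(1, [0, 1])]),
  ([0, 1, 2, 3, 1, 2, 0, 1, 2, 3, 0, 1], 45, -1, [(1, [1])]),
  ([0, 1, 2, 3, 1, 2, 0, 1, 2, 3, 0, 1, 2], 47, -1, [(1, [0, 0, 0, 0, 0, 0, 0, 2]), (1, [0, 0, 0, 0, 1, 0, 0, 0, 0, 0, 1]),
    (1, [0, 1, 0, 0, 0, 0, 0, 0, 0, 0, 0, 0, 0, 1])]),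
  ([0, 1, 2, 3, 1, 2, 0, 1, 2, 3], 47, -1, [(1, [0, 0, 2]), (1, [0, 1, 0, 1]), (1, [1, 0, 0, 0, 1])]),
  ([0, 1, 2, 3, 1, 2, 0, 1, 2, 3, 0, 1, 2, 1, 0], 47, -1, [(1, [0, 0, 0, 0, 0, 0, 0, 0, 0, 0, 0, 2]), (-1, [0, 0, 0, 0, 0,
    0, 0, 0, 0, 0, 1, 0, 1]), (1, [0, 0, 0, 0, 0, 0, 0, 0, 0, 1, 0, 0, 0, 1])]),
  ([0, 1, 2, 3, 1, 2, 0, 1, 2, 3, 0, 1, 2, 1], 47, -1, [(1, [0, 0, 0, 0, 0, 0, 0, 0, 2]), (1, [0, 0, 0, 0, 1, 0, 0, 0, 0, 0,
    0, 0, 1]), (-1, [0, 0, 0, 1, 0, 0, 0, 0, 0, 0, 0, 0, 0, 1])]),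
  ([0, 1, 2, 3, 1, 2, 0, 1, 2, 3, 0, 1], 47, -1, [(1, [0, 0, 0, 0, 0, 0, 2]), (1, [0, 0, 0, 1, 0, 0, 0, 0, 0, 1]), (-1, [1,
    0, 0, 0, 0, 0, 0, 0, 0, 0, 0, 0, 1])]),
  ([0, 1, 2, 3, 1, 2, 0, 1, 2, 3, 0], 47, 1, [(-1, [0, 0, 0, 0, 0, 2]), (1, [0, 1, 0, 0, 0, 0, 0, 0, 0, 1]), (1, [1, 0, 0,
    0, 0, 0, 0, 0, 0, 0, 1])]),
  ([0, 1, 2, 3, 1, 2, 0, 1, 2, 3], 29, -1, [(-2, []), (-1, [0, 0, 0, 0, 0, 0, 0, 0, 0, 0, 0, 0, 0, 0, 1]), (2, [0, 0, 0, 0,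
    0, 0, 0, 0, 0, 0, 0, 1]), (1, [0, 0, 0, 0, 0, 0, 1, 1]), (-1, [0, 0, 0, 0, 0, 1, 0, 0, 1]), (-2, [0, 0, 1])])]

theorem chkS : ∀ t ∈ testS, peq 0 (e7 (tw t ++ nw 47 47 1) (wS ++ winv 0 (tw t) [])) t.2.2.2 = true := by
  unfold testS
  iterate 15 refine List.forall_mem_cons.2 ⟨by decide +kernel, ?_⟩
  simp

/-- The unipotent radical for the long roots. -/
def wP : SW := [(33, vr 0), (34, vr 1), (35, vr 2), (36, vr 3), (37, vr 4), (38, vr 5), (39, vr 6), (40, vr 7), (41, vr 8), (42, vr 9),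
    (43, vr 10), (44, vr 11), (45, vr 12), (46, vr 13), (47, vr 14)]

/-- The word of the exceptional involution. -/
def nwP : SW := nw 47 44 1 ++ (nw 47 33 (-1) ++ nw 47 33 (-1))

/-- The tests for the long roots. -/
def testP : List (List ℕ × ℕ × ℤ × Pol) :=
  [([3, 2, 1, 2, 0, 1, 2, 3, 2, 1, 2, 0, 1, 2, 3], 36, -1, [(-1, [0, 0, 0, 0, 0, 0, 0, 2])]),
  ([3, 2, 1, 2, 0, 1, 2, 3, 2, 1, 2, 0, 1, 2, 3], 38, -1, [(-1, [0, 0, 0, 0, 0, 0, 2])]),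
  ([3, 2, 1, 2, 0, 1, 2, 3, 2, 1, 2, 0, 1, 2, 3], 39, -1, [(-1, [0, 0, 0, 0, 0, 2])]),
  ([3, 2, 1, 2, 0, 1, 2, 3, 2, 1, 2, 0, 1, 2, 3], 40, -1, [(-1, [0, 0, 0, 2])]),
  ([3, 2, 1, 2, 0, 1, 2, 3, 2, 1, 2, 0, 1, 2], 39, -1, [(-1, [0, 0, 0, 0, 2])]),
  ([3, 2, 1, 2, 0, 1, 2, 3, 2, 1, 2, 0, 1, 2], 40, -1, [(-1, [0, 0, 2])]),
  ([3, 2, 1, 2, 0, 1, 2, 3, 2, 1, 2, 0, 1], 40, -1, [(-1, [0, 2])]),
  ([3, 2, 1, 2, 0, 1, 2, 3, 2, 1, 2, 0], 39, -1, [(-1, [2])]),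
  ([3, 2, 1, 2, 0, 1, 2, 3, 2, 1, 2, 0, 1, 2, 3], 44, -1, [(-1, [0, 0, 0, 0, 0, 0, 0, 0, 0, 0, 0, 0, 0, 0, 2]), (2, [0, 0,
    0, 0, 0, 1, 1, 0, 0, 0, 0, 0, 0, 0, 1]), (-1, [0, 0, 0, 0, 0, 2, 2]), (-2, [0, 0, 0, 1, 0, 0, 0, 1, 0, 0, 0, 0, 0, 0,
    1]), (2, [0, 0, 0, 1, 0, 1, 1, 1]), (-1, [0, 0, 0, 2, 0, 0, 0, 2])]),
  ([3, 2, 1, 2, 0, 1, 2, 3, 2, 1, 2, 0, 1, 2], 44, -1, [(-1, [0, 0, 0, 0, 0, 0, 0, 0, 0, 0, 0, 0, 0, 2]), (2, [0, 0, 0, 0,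
    1, 0, 1, 0, 0, 0, 0, 0, 0, 1]), (-1, [0, 0, 0, 0, 2, 0, 2]), (-2, [0, 0, 1, 0, 0, 0, 0, 1, 0, 0, 0, 0, 0, 1]), (2, [0,
    0, 1, 0, 1, 0, 1, 1]), (-1, [0, 0, 2, 0, 0, 0, 0, 2])]),
  ([3, 2, 1, 2, 0, 1, 2, 3, 2, 1, 2, 0, 1], 44, -1, [(-1, [0, 0, 0, 0, 0, 0, 0, 0, 0, 0, 0, 0, 2]), (2, [0, 0, 0, 0, 1, 1,
    0, 0, 0, 0, 0, 0, 1]), (-1, [0, 0, 0, 0, 2, 2]), (-2, [0, 1, 0, 0, 0, 0, 0, 1, 0, 0, 0, 0, 1]), (2, [0, 1, 0, 0, 1, 1,
    0, 1]), (-1, [0, 2, 0, 0, 0, 0, 0, 2])]),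
  ([3, 2, 1, 2, 0, 1, 2, 3, 2, 1, 2, 0], 44, -1, [(-1, [0, 0, 0, 0, 0, 0, 0, 0, 0, 0, 2]), (2, [0, 0, 1, 1, 0, 0, 0, 0, 0,
    0, 1]), (-1, [0, 0, 2, 2]), (-2, [1, 0, 0, 0, 0, 0, 1, 0, 0, 0, 1]), (2, [1, 0, 1, 1, 0, 0, 1]), (-1, [2, 0, 0, 0, 0, 0,
    2])]),
  ([3, 2, 1, 2, 0, 1, 2, 3, 2, 1, 0], 44, -1, [(-1, [0, 0, 0, 0, 0, 0, 0, 0, 0, 2]), (2, [0, 1, 0, 1, 0, 0, 0, 0, 0, 1]),
    (-1, [0, 2, 0, 2]), (-2, [1, 0, 0, 0, 0, 1, 0, 0, 0, 1]), (2, [1, 1, 0, 1, 0, 1]), (-1, [2, 0, 0, 0, 0, 2])]),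
  ([3, 2, 1, 2, 3, 0, 1, 2, 1, 0], 44, -1, [(-1, [0, 0, 0, 0, 0, 0, 0, 0, 2]), (2, [0, 1, 1, 0, 0, 0, 0, 0, 1]), (-1, [0, 2,
    2]), (-2, [1, 0, 0, 0, 1, 0, 0, 0, 1]), (2, [1, 1, 1, 0, 1]), (-1, [2, 0, 0, 0, 2])]),
  ([3, 2, 1, 2, 3, 0, 1, 2, 1, 0], 41, -1, [(-1, [0, 0, 0, 0, 0, 0, 0, 0, 0, 0, 0, 2]), (1, [0, 0, 0, 0, 0, 0, 0, 0, 0, 0,
    1, 0, 1]), (-1, [0, 0, 0, 0, 0, 0, 0, 0, 0, 1, 0, 0, 0, 1]), (-2, [0, 0, 0, 1, 1, 0, 0, 0, 0, 0, 0, 1]), (-1, [0, 0, 0,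
    2, 2])])]

theorem chkP : ∀ t ∈ testP, peq 0 (e4 (tw t ++ nwP) (wP ++ winv 0 (tw t) [])) t.2.2.2 = true := by
  unfold testP
  iterate 15 refine List.forall_mem_cons.2 ⟨by decide +kernel, ?_⟩
  simp

variable (F) in
/-- The exceptional involution. -/
noncomputable def nP : chevF4.group F := nE chevF4 (xg chevF4 F) 44 1 * hE chevF4 (xg chevF4 F) 33 (-1)

theorem evS_nwP (v : ℕ → F) : evS (xg chevF4 F) v nwP = nP F := by
  rw [nwP, evS_app, evS_app, evS_nw v (by decide) (Or.inl rfl), evS_nw v (by decide) (Or.inr rfl)]; simp [nP, hE]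

theorem nP_comm {r : ℕ} (hr : r ∈ [27, 25, 24]) (t : F) : nP F * xg chevF4 F r t * (nP F)⁻¹ = xg chevF4 F r t :=
  evS_nwP (fun _ => t) ▸ comm_of_cols t ((by decide +kernel : ∀ r ∈ [27, 25, 24], ∀ j < 52, isNil (vins 0 j [(-1, [])]
    (vw fastF4 0 (nwP ++ [(r, vr 0)] ++ winv 0 nwP [(r, [(-1, [1])])]) [(j, [(1, [])])])) = true) r hr)

theorem nP_sq : nP F * nP F = 1 := by
  rw [← evS_nwP (fun _ => 0), ← evS_app]; exact one_of_cols _ (by decide +kernel)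

variable [Finite F]

theorem cs_nP : cs (nP F) ≠ 0 := by
  have := pev_ent7 (p := 0) (by simp) (fun _ => (0 : F)) nwP (Sum.inr ⟨63, by decide⟩) (Sum.inr ⟨125, by decide⟩)
  rw [peq_sound (p := 0) (by simp) _ (Q := [(-1, [])]) (by decide +kernel), evS_nwP] at this
  rw [cs, ← this]; simp [mev]

/-- A non-trivial element is opposite on the `27`-dimensional module, or a long root element. -/
theorem domS {a : chevF4.group F} (ha : a ≠ 1) : (∃ a', IsConj a a' ∧ cs a' ≠ 0) ∨ IsConj a (xg chevF4 F 0 (-1)) := by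
  have hx := H7.isChev_xg (D := chevF4) (F := F)
  refine or_iff_not_imp_left.2 fun h0 => ?_
  obtain ⟨w, h, e⟩ := (short_cases ha).resolve_right h0
  obtain rfl : w = refl chevF4 47 := quad_inj h.mem_W (refl_mem _) (by
    rw [e, quad, refl_val (k := 33) (by decide +kernel), refl_val (k := 27) (by decide +kernel),
      refl_val (k := 25) (by decide +kernel), refl_val (k := 1) (by decide +kernel)])
  simp only [quad, Prod.mk.injEq] at e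
  obtain ⟨y, hy, k⟩ := h.dom hx H7.GG_xg (k := ⟨3, by decide⟩) (fun i hi => by
      fin_cases i
      exacts [e.1, e.2.1, e.2.2.1, (hi rfl).elim])
    (by rw [show chevF4.simple _ = 24 from rfl, e.2.2.2]; decide +kernel)
    (wordW_mem_WJ (l := fl chevF4 [0, 1, 0, 2, 1, 0, 2, 1, 2]) (by decide +kernel))
    (NRep.nE hx.toIsSt (by decide) one_ne_zero) fun i hi => by
      have := comm_of_cols (1 : F) ((by decide +kernel : ∀ i : Fin chevF4.rank, i ≠ ⟨3, by decide⟩ → ∀ j < 52,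
        isNil (vins 0 j [(-1, [])] (vw fastF4 0 (nw 47 47 1 ++ [(chevF4.simple i, vr 0)] ++
          winv 0 (nw 47 47 1) [(chevF4.simple i, [(-1, [1])])]) [(j, [(1, [])])])) = true) i hi)
      rwa [evS_nw _ (by decide) (Or.inl rfl), Int.cast_one] at this
  obtain ⟨f, rfl⟩ := up_form (L := wS.map Prod.fst) (by decide +kernel) hy
  have k1 := tests pev_e7 chkS (v := fun i => f ((wS.map Prod.fst).getD i 0)) (a := a)
    (by rw [evS_nw _ (by decide) (Or.inl rfl)]; simpa [wS] using k) fun a' l => by_contra fun n => h0 ⟨a', l, n⟩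
  simp [testS, wS, mev] at k1
  obtain ⟨h1, h2, h3, h4, h5, h6, h7, h8, k1⟩ := k1
  simp [h1, h2, h3, h4, h5, h6, h7, h8] at k1
  obtain ⟨l1, l2, l3, l4, l5, l6, l7⟩ := k1
  have l8 : f 47 = -1 + -1 := by simp [l1, l2, l3, l4, l5, l6] at l7; linear_combination -l7
  simp only [wS, List.map_cons, List.map_nil, oprod_cons, oprod_nil, h1, h2, h3, h4, h5, h6, h7, h8, l1, l2, l3, l4, l5, l6,
    l8, hx.toIsSt.zero, one_mul, mul_one] at k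
  refine k.trans (isConj_iff.2 ⟨(xg chevF4 F 47 1)⁻¹, ?_⟩)
  rw [nE, hx.add, hx.toIsSt.neg 47 1, inv_one, show chevF4.neg 47 = 0 from rfl]; group

/-- A non-trivial element is opposite on the adjoint module, or conjugate to the exceptional involution. -/
theorem domP {a : chevF4.group F} (ha : a ≠ 1) : (∃ a', IsConj a a' ∧ cl a' ≠ 0) ∨ IsConj a (nP F) := by
  have hx := H7.isChev_xg (D := chevF4) (F := F)
  refine or_iff_not_imp_left.2 fun h0 => ?_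
  obtain ⟨w, h, e⟩ := (long_cases ha).resolve_right h0
  obtain rfl : w = refl chevF4 44 := quad_inj h.mem_W (refl_mem _) (by
    rw [e, quad, refl_val (k := 7) (by decide +kernel), refl_val (k := 27) (by decide +kernel),
      refl_val (k := 25) (by decide +kernel), refl_val (k := 24) (by decide +kernel)])
  simp only [quad, Prod.mk.injEq] at e
  obtain ⟨y, hy, k⟩ := h.dom hx H7.GG_xg (k := ⟨0, by decide⟩) (fun i hi => by
      fin_cases i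
      exacts [(hi rfl).elim, e.2.1, e.2.2.1, e.2.2.2])
    (by rw [show chevF4.simple _ = 33 from rfl, e.1]; decide +kernel)
    (wordW_mem_WJ (l := fl chevF4 [1, 2, 1, 2, 3, 2, 1, 2, 3]) (by decide +kernel)) (m := nP F)
    ((NRep.nE hx.toIsSt (by decide) one_ne_zero).mul_HH hx.toIsSt (hE_mem_HH _ (by decide) (by simp)))
    fun i hi => nP_comm (by revert i; decide +kernel) 1
  obtain ⟨f, rfl⟩ := up_form (L := wP.map Prod.fst) (by decide +kernel) hy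
  have k1 := tests pev_e4 chkP (v := fun i => f ((wP.map Prod.fst).getD i 0)) (a := a)
    (by rw [evS_nwP]; simpa [wP] using k) fun a' l => by_contra fun n => h0 ⟨a', l, n⟩
  simp [testP, wP, mev] at k1
  obtain ⟨h1, h2, h3, h4, h5, h6, h7, h8, k1⟩ := k1
  simp [h1, h2, h3, h4, h5, h6, h7, h8] at k1
  obtain ⟨l1, l2, l3, l4, l5, l6, l7⟩ := k1
  simp [l1, l2, l3, l4, l5, l6] at l7
  simpa [wP, h1, h2, h3, h4, h5, h6, h7, h8, l1, l2, l3, l4, l5, l6, l7, hx.toIsSt.zero] using k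

/-- If `a` and `b` are not both opposite on either module, they are the exceptional involution and a long root element. -/
theorem good_pair (p : ℕ) [hp : Fact p.Prime] [CharP F p] {a b c : chevF4.group F} (h : CP a b c) (k : IsConj a (nP F))
    (l : IsConj b (xg chevF4 F 0 (-1))) : Concl p a b c := by
  have hx := (H7.isChev_xg (D := chevF4) (F := F)).toIsSt
  have h1 := hx.acts_nWd (fl chevF4 [3, 2, 1, 2, 0, 1, 2, 3]) 0 (-1)
  rw [wordW_apply, show actW chevF4 (fl chevF4 [3, 2, 1, 2, 0, 1, 2, 3]) 0 = 24 by decide +kernel] at h1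
  have l' := l.trans (isConj_iff.2 ⟨_, h1⟩)
  have h2 := mul_inv_eq_iff_eq_mul.1 (nP_comm (r := 24) (by simp)
    ((wSign chevF4 (fl chevF4 [3, 2, 1, 2, 0, 1, 2, 3]) 0 : F) * -1))
  by_cases e : p = 2
  · subst e
    have h3 : orderOf c ∣ 2 := by
      rw [← h.order k l', orderOf_dvd_iff_pow_eq_one, Commute.mul_pow h2, hx.pow_char, sq, nP_sq, one_mul]
    rw [← h.order k l, orderOf_dvd_iff_pow_eq_one, sq] at h3
    have h4 := pev_ent4 (fun _ => (-1 : F)) (nwP ++ [(0, vr 0)] ++ (nwP ++ [(0, vr 0)])) (Sum.inr ⟨15, by decide⟩)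
      (Sum.inr ⟨1, by decide⟩)
    rw [peq_sound (p := 0) (by simp) _ (Q := [(-1, [1])]) (by decide +kernel)] at h4
    simp only [evS_app, evS_nwP, evS_cons, evS_nil, pev_vr, mul_one, h3] at h4
    simp [mev] at h4
  · refine (h.symm.concl_comm l' k (Commute.symm h2) ((pel_of_pow (k := 1) (by rw [pow_one, hx.pow_char])).conj l.symm)
      fun d => e ((Nat.prime_dvd_prime_iff_eq hp.out Nat.prime_two).1 (d.trans ?_))).symm
    rw [conj_order k, orderOf_dvd_iff_pow_eq_one, sq, nP_sq]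

theorem good_F4 {F : Type*} [Field F] [Fintype F] (p : ℕ) [Fact p.Prime] [CharP F p] (hq : 3 ≤ Fintype.card F) :
    Good p (chevF4.group F) := by
  classical
  obtain ⟨u, h0, h1⟩ : ∃ u : F, u ≠ 0 ∧ u ≠ 1 := by
    by_contra! e
    have := card_le_card (s := (univ : Finset F)) (t := {0, 1}) fun u _ => by by_cases k : u = 0 <;> simp [k, e u]
    have := card_le_two (a := (0 : F)) (b := 1)
    rw [card_univ] at *; omega
  have key : ∀ a b c : chevF4.group F, CP a b c → IsConj a (nP F) → Concl p a b c := fun a b c h k =>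
    good_pair p h k ((domS h.hb).resolve_left fun ⟨b', l, e⟩ => ext_short h0 h1 (h.congr k l) cs_nP e)
  intro a b c h
  rcases domP h.ha with ⟨a', k, e⟩ | k
  · rcases domP h.hb with ⟨b', l, e'⟩ | l
    · exact (ext_long h0 h1 (h.congr k l) e e').elim
    · exact (key _ _ _ h.symm l).symm
  · exact key _ _ _ h k

end Cfsg.Agent.H8.AF
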