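import Cfsg.Agent.H3.AT9
import Cfsg.Agent.H9.AH6
import Cfsg.Agent.H8.LiftTabE6

/-! The data for `²E6(2)`. -/

set_option autoImplicit false
set_option linter.unusedSectionVars false

namespace Cfsg.Agent.H8.AY

open Cfsg.Lie Matrix Finset Cfsg.Agent.H7 Cfsg.Agent.H9.AH Cfsg.Agent.H3.AT

variable {K : Type*} [Field K] [Fintype K] [CharP K 2]

theorem reflE6 {r s k : ℕ} (h : s < 72 ∧ k < 72 ∧ wt chevE6 s - A chevE6 r s • wt chevE6 r = wt chevE6 k) :
    refl chevE6 r s = k := wt_inj (W_lt (refl_mem r) h.1) h.2.1 (by rw [wt_refl, h.2.2])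

variable {φ : K →+* K} {σ : chevE6.group K →* chevE6.group K} (hφ : ∀ t, φ t = t ^ 2)
  (h : TwD chevE6 (xg chevE6 K) σ rhoE6 pfE6 (twF H7.twE6 φ) (twS (xg chevE6 K) (e6Words K 2)) (fun i => {j | j ∈ oLE6 i})
    (fun _ => 2) (zE6 (xg chevE6 K) 2))

include hφ h in
theorem sit : Sit (twS (xg chevE6 K) (e6Words K 2)) σ rhoE6 71 70 where
  fix := h.sub.fix
  map r t := by
    rw [h.tw.map, twF, hφ]
    by_cases hr : r < 72
    · obtain ⟨h1, h2⟩ := (by decide +kernel : ∀ r < 72, (twT H7.twE6 r).2.1 = 1 ∧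
        ((twT H7.twE6 r).2.2 = 1 ∨ (twT H7.twE6 r).2.2 = -1)) r hr
      rcases h2 with h2 | h2 <;> simp [h1, h2, CharTwo.neg_eq]
    · simp [twT_ge (L := H7.twE6) (r := r) (not_lt.1 hr)]
  lt := h.tw.lt
  pos := h.tw.pos
  neg := h.tw.neg
  memU _ := h.sub.mem_of_UU h.tw h.faith
  memV _ := h.sub.mem_of_VV h.tw h.faith
  bru g hg := by
    obtain ⟨w, -, -, u, hu, n, hn, h1, u', hu', e⟩ := h.sub.bruhat h.tw h.faith hg
    exact ⟨w, u, hu, n, hn, h1, u', ⟨hu'.1, Um_le_UU _ _ hu'.2⟩, e⟩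
  hθ := by decide
  θfix := by decide +kernel
  lev := by decide +kernel
  dom r hr := (by decide +kernel : ∀ r < 72, chevE6.IsPosRoot r → 0 ≤ A chevE6 71 r) r hr.1 hr
  zero := by decide +kernel
  hα := by decide
  αlev := by decide +kernel
  αfix := by decide +kernel
  αdom r hr := (by decide +kernel : ∀ r < 72, chevE6.IsPosRoot r → A chevE6 71 r = 0 → 0 ≤ A chevE6 70 r) r hr.1 hr
  chain := by decide +kernel
  nb := ⟨53, by decide +kernel⟩

variable {S : Subgroup (chevE6.group K)} (hs : Sit S σ rhoE6 71 70) (hK : Fintype.card K = 2 ^ 2)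
include hs

theorem pair_mem {r : ℕ} (hr : r < 72) (e : A chevE6 r (rhoE6 r) = 0) {t : K} (ht : t ^ 4 = t) :
    xg chevE6 K r t * xg chevE6 K (rhoE6 r) (t ^ 2) ∈ S := by
  have h1 : σ (xg chevE6 K r t * xg chevE6 K (rhoE6 r) (t ^ 2)) = xg chevE6 K r t * xg chevE6 K (rhoE6 r) (t ^ 2) := by
    rw [map_mul, hs.map, hs.map, ← pow_mul, ht, (by decide +kernel : ∀ r < 72, rhoE6 (rhoE6 r) = r) r hr,
      (st.commute_of_A hr e.ge _ _).eq]
  rcases pos_or_neg (D := chevE6) hr with e | e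
  · exact hs.memU _ (mul_mem (x_mem_UU _ e _) (x_mem_UU _ ((hs.pos r).2 e) _)) h1
  · exact hs.memV _ (mul_mem (x_mem_VV _ e _) (x_mem_VV _ (negRoot_of_not_pos ((hs.lt r).2 hr)
      fun k => not_neg_of_pos ((hs.pos r).1 k) e) _)) h1

include hK in
theorem adInv : AdInv 71 S := fun η hη e v hv Y hY => by
  by_cases e1 : rhoE6 η = η
  · exact AdInv.aux hs.hθ hη e (hs.x_mem hη e1) hv hY
  have e2 := (by decide +kernel : ∀ r < 72, A chevE6 71 r = 0 → rhoE6 r ≠ r → A chevE6 r (rhoE6 r) = 0) η hη e e1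
  have hη' := (hs.lt η).2 hη
  have e3 := (hs.lev η hη).trans e
  have h4 : ∀ t : K, t ^ 4 = t := fun t => by have := FiniteField.pow_card t; rwa [hK] at this
  have key : ∀ t : K, t • ad chevE6 K η v + t ^ 2 • ad chevE6 K (rhoE6 η) v +
      t ^ 3 • ad chevE6 K η (ad chevE6 K (rhoE6 η) v) ∈ Y := fun t => by
    have h1 := hY _ ⟨pair_mem hs hη e2 (h4 t), mul_mem (x_LL hs.hθ hη e t) (x_LL hs.hθ hη' e3 _)⟩
    have h2 : ad chevE6 K (rhoE6 η) v ∈ Lv K (lv chevE6 71) 1 := by simpa [lv_wt, e3] using ad_Lv hη' hv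
    rw [ac_mul, x_eq hη', kap_Lv hv (e_Lv hη' e3) (by omega), mul_zero, zero_smul, add_zero, map_add, map_smul, x_eq hη,
      x_eq hη, kap_Lv hv (e_Lv hη e) (by omega), kap_Lv h2 (e_Lv hη e) (by omega)] at h1
    convert h1 using 1
    linear_combination (norm := module) -vadd v
  obtain ⟨u, h0, h1⟩ := exists_ne01 (K := K) (by omega)
  have h2 : u ^ 2 + u + 1 = 0 := by
    have : u * (u - 1) * (u ^ 2 + u + 1) = 0 := by linear_combination h4 u
    simpa [h0, sub_eq_zero, h1] using this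
  have h3 : (2 : K) = 0 := CharTwo.two_eq_zero
  convert add_mem (add_mem (key 1) (Y.smul_mem (u ^ 2) (key u))) (Y.smul_mem u (key (u ^ 2))) using 1
  have h5 : u ^ 3 = 1 := by linear_combination (u - 1) * h2
  have h6 : 1 + u ^ 2 * u + u * u ^ 2 = 1 := by linear_combination u ^ 3 * h3
  have h7 : 1 + u ^ 2 * u ^ 2 + u * (u ^ 2) ^ 2 = 0 := by linear_combination h2 + (u + u ^ 2) * h5
  have h8 : 1 + u ^ 2 * u ^ 3 + u * (u ^ 2) ^ 3 = 0 := by linear_combination h2 + (u ^ 2 + u ^ 4 + u) * h5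
  linear_combination (norm := module) -h6 • ad chevE6 K η v - h7 • ad chevE6 K (rhoE6 η) v -
    h8 • ad chevE6 K η (ad chevE6 K (rhoE6 η) v)

theorem nn_pair {r : ℕ} (hr : r < chevE6.nroots) (e : A chevE6 r (rhoE6 r) = 0) : nn chevE6 K r * nn chevE6 K (rhoE6 r) ∈ S := by
  have hr' := (hs.lt r).2 hr
  have h1 := pair_mem hs hr e (t := 1) (one_pow _)
  have h2 := pair_mem hs (neg_lt hr) (t := 1) (by rw [hs.neg r hr, A_neg_left hr, A_neg_right _ hr', e, neg_zero, neg_zero])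
    (one_pow _)
  rw [one_pow] at h1 h2
  rw [hs.neg r hr] at h2
  have c1 := (st (K := K)).commute_of_A hr e.ge 1 1
  have c2 := (st (K := K)).commute_of_A hr (s := chevE6.neg (rhoE6 r)) (by rw [A_neg_right _ hr', e, neg_zero]) 1 1
  have c3 := (st (K := K)).commute_of_A (neg_lt hr) (s := rhoE6 r) (by rw [A_neg_left hr, e, neg_zero]) 1 1
  have := mul_mem (mul_mem h1 h2) h1
  convert this using 1
  simp only [nn, mul_assoc]
  rw [c1.left_comm, c3.left_comm, c2.left_comm]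

theorem sec : Sec 71 S rhoE6 70 60 where
  lt := by decide
  fix := by decide +kernel
  lev := by decide +kernel
  one := by decide +kernel
  dom r hr := (by decide +kernel : ∀ r < 72, chevE6.IsPosRoot r → A chevE6 71 r = 0 → 0 ≤ A chevE6 60 r) r hr.1 hr
  move η hη e1 e2 e3 := by
    have key : ∀ μ k, μ < 72 ∧ A chevE6 μ (rhoE6 μ) = 0 ∧ A chevE6 71 μ = 0 ∧
        (60 < 72 ∧ k < 72 ∧ wt chevE6 60 - A chevE6 (rhoE6 μ) 60 • wt chevE6 (rhoE6 μ) = wt chevE6 k) ∧
        (k < 72 ∧ η < 72 ∧ wt chevE6 k - A chevE6 μ k • wt chevE6 μ = wt chevE6 η) →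
        ∃ k ∈ S ⊓ LL chevE6 K 71, ac chevE6 K k (bas chevE6 K 60) = bas chevE6 K η := fun μ k ⟨h1, h2, h3, h4, h5⟩ =>
      ⟨_, ⟨nn_pair hs h1 h2, mul_mem (nn_LL hs.hθ h1 h3) (nn_LL hs.hθ ((hs.lt μ).2 h1) ((hs.lev μ h1).trans h3))⟩, by
        rw [ac_mul, nn_e ((hs.lt μ).2 h1) h4.1, reflE6 h4, nn_e h1 h5.1, reflE6 h5]⟩
    rcases (by decide +kernel : ∀ η < 72, rhoE6 η = η → A chevE6 71 η = 0 → A chevE6 η 70 = 1 → η = 39 ∨ η = 44 ∨ η = 60)
      η hη e1 e2 e3 with rfl | rfl | rfl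
    · exact key 14 58 (by decide +kernel)
    · exact key 15 59 (by decide +kernel)
    · exact ⟨1, one_mem _, ac_one _⟩

omit hs in
theorem xd : XD chevE6 71 70 53 63 65 51 := by constructor <;> decide +kernel

theorem fam {r : ℕ} (hr : r ∈ [53, 63, 65, 51]) : Fam 71 S r := by
  obtain ⟨h1, h2, h3⟩ := (by decide +kernel : ∀ r ∈ [53, 63, 65, 51], r < chevE6.nroots ∧ A chevE6 71 r = 1 ∧ rhoE6 r = r) r hr
  exact Fam.of_mem h1 h2 (hs.x_mem h1 h3)

include hK in
theorem no_nf3 (l : chevE6.group K) : ¬ NF3 71 S 60 l :=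
  hs.not_nf3 (sec hs) (ζ := 67) (by decide) (by decide +kernel) (by decide +kernel) (by decide +kernel)
    (by decide +kernel) fun a h1 h2 => by
      have h3 : torChar a (wt chevE6 67 + wt chevE6 68 + wt chevE6 69 + wt chevE6 70 + wt chevE6 71) = 1 := by
        rw [show wt chevE6 67 + wt chevE6 68 + wt chevE6 69 + wt chevE6 70 + wt chevE6 71 =
          (3 : ℤ) • fun i => if i.1 = 2 then 1 else 0 by decide +kernel, torChar_smul]
        have := FiniteField.pow_card_sub_one_eq_one _ (torChar a fun i => if i.1 = 2 then 1 else 0).ne_zero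
        rw [hK] at this
        exact Units.ext (by simpa using this)
      rwa [torChar_add, torChar_add, torChar_add, torChar_add, h1, h2 68 (by decide) (by decide +kernel) (by decide +kernel),
        h2 69 (by decide) (by decide +kernel) (by decide +kernel), h2 70 (by decide) (by decide +kernel) (by decide +kernel),
        mul_one, mul_one, mul_one, mul_one] at h3

omit hs in
include h hK in
theorem opp' : Opp' 71 (twS (xg chevE6 K) (e6Words K 2)) := fun _ ha => by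
  obtain ⟨a', k, e⟩ := opp2E6 h (exists_pow_ne (K := K) (q := 2) one_lt_two (by omega)) ha
  exact ⟨a', k, by rwa [kap_mat la2E6.hθ]⟩

omit hs in
theorem noCP_2E6_two {K : Type*} [Field K] [Fintype K] (hK : Fintype.card K = 2 ^ 2) : NoCP (twistedE6 K 2) := by
  have : CharP K 2 := charP_of_card_eq_prime_pow hK
  obtain ⟨φ, σ, hφ, h⟩ := exists_twD_2E6 hK
  have hs := sit hφ h
  exact NoCP.congr (hs.noCP' (adInv hs hK) xd (fam hs (by simp)) (fam hs (by simp)) (fam hs (by simp)) (fam hs (by simp))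
    (opp' h hK) (sec hs) (no_nf3 hs hK)) (twEquiv (e6Words K 2)).symm

end Cfsg.Agent.H8.AY
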