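import Cfsg.Agent.H8.InvF4
import Cfsg.Agent.H8.InvG2

/-! Centralizers of involutions in types `F4` and `G2`, characteristic two. -/

set_option autoImplicit false
set_option linter.unusedSectionVars false

namespace Cfsg.Agent.H8

open Cfsg.Lie Matrix Cfsg.Agent.H7

variable {K : Type*} [Field K] {G : Type*} [Group G] {x : ℕ → K → G}

theorem XS_cons (a : ℕ) (L : List ℕ) : XS x {k | k ∈ a :: L} = XS x {a} ⊔ XS x {k | k ∈ L} := by
  rw [← XS_union]; congr 1; ext k; simp

theorem XS_nil : XS x {k | k ∈ ([] : List ℕ)} = ⊥ := by simp [XS]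

theorem px_single (r : ℕ) : px x [r] = x r 1 := by simp [px]

variable [Fintype K] [CharP K 2]

theorem centF4a (hx : IsFaith chevF4 x) :
    GG x ⊓ Subgroup.centralizer {px x [47]} = UU chevF4 x ⊔ XS x {k | k ∈ [14, 20, 22]} :=
  cent_central hx agrF4 (by decide +kernel) (by decide) (by decide +kernel) (by decide +kernel) posRootsF4
    (by decide +kernel) (by decide +kernel)

theorem centF4b (hx : IsFaith chevF4 x) :
    GG x ⊓ Subgroup.centralizer {px x [44]} = UU chevF4 x ⊔ XS x {k | k ∈ [20, 22, 23]} :=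
  cent_central hx agrF4 (by decide +kernel) (by decide) (by decide +kernel) (by decide +kernel) posRootsF4
    (by decide +kernel) (by decide +kernel)

theorem centF4c (hx : IsFaith chevF4 x) :
    GG x ⊓ Subgroup.centralizer {px x [47, 44]} = UU chevF4 x ⊔ XS x {k | k ∈ [20, 22]} :=
  cent_central hx agrF4 (by decide +kernel) (by decide) (by decide +kernel) (by decide +kernel) posRootsF4
    (by decide +kernel) (by decide +kernel)

theorem centG2a (hx : IsFaith chevG2 x) :
    GG x ⊓ Subgroup.centralizer {px x [11]} = UU chevG2 x ⊔ XS x {k | k ∈ [4]} :=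
  cent_central hx agrG2 (by decide +kernel) (by decide) (by decide +kernel) (by decide +kernel) posRootsG2
    (by decide +kernel) (by decide +kernel)

theorem centG2b (hx : IsFaith chevG2 x) :
    GG x ⊓ Subgroup.centralizer {px x [9]} = XS x {k | k ∈ [9, 10, 11, 6, 5]} := by
  have hx' := hx.toIsSt
  have h1 : XS x {k | k ∈ [9, 10, 11, 6, 5]} ≤ Subgroup.centralizer {px x [9]} :=
    XS_le.2 fun k hk => commute_px hx' agrG2 (by decide +kernel) hk
  refine le_antisymm (cent_le hx (R := {9}) (S := [9, 10, 11]) (J := {1}) (by decide +kernel) (by decide)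
    (commute_of_chk hx' agrG2 (by decide +kernel)) (by simp) (fun u hu => ?_) (fun w hw h r hr => ?_) (fun i hi => ?_)
    (fun j hj s => ?_) h1) (le_inf (XS_le_GG x _) h1)
  · obtain ⟨f, rfl⟩ := hx'.exists_oprod isClosed_pos (one_mem _) (fun _ h => h) (L := [6, 9, 10, 11] ++ [7, 8])
      (fun k => by rw [Set.mem_ofPred_eq, ← mem_posRoots, posRootsG2]; simp only [List.mem_append, List.mem_cons]; tauto)
      (by decide) hu
    have h2 := hx'.eq_of_weq agrG2 (CharP.cast_eq_zero K 2) (fun i => f (7 + i)) (key := fun k => k)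
      (w := winv 2 [(7, [(1, [1, 0])]), (8, [(1, [0, 1])])] (wapp (toSW [9]) [(7, [(1, [1, 0])]), (8, [(1, [0, 1])])]))
      (w' := [(9, [(1, [])]), (10, [(1, [1, 0])]), (11, [(1, [0, 1])])]) (by decide +kernel)
    rw [hx'.evS_winv (CharP.cast_eq_zero K 2), evS_wapp, evS_toSW, ← mul_assoc] at h2
    have h3 : (oprod x [7, 8] f)⁻¹ * px x [9] * oprod x [7, 8] f =
        oprod x [9, 10, 11] (fun k => if k = 9 then 1 else f (k - 3)) := by simpa [mev] using h2
    refine ⟨_, oprod_mem_XS (by simp) f, _, oprod_append _ _ _ _, _, h3, by simp, fun h4 => ?_⟩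
    have h5 := oprod_inj_pos hx (L := [9, 10, 11]) (by decide +kernel) (by decide)
      (f' := fun k => if k = 9 then 1 else 0) (h3.symm.trans (h4.trans (by simp [px, hx'.zero])))
    have h6 := h5 10 (by simp)
    have h7 := h5 11 (by simp)
    simp at h6 h7
    simp [h6, h7, hx'.zero]
  · obtain rfl : r = 9 := hr
    exact (by decide +kernel : ∀ a ∈ [9, 10, 11], nrm chevG2 a = nrm chevG2 9 → a = 9) _ (h 9 rfl) (nrm_W hw 9)
  · exact Submodule.subset_span ⟨9, rfl, (by decide +kernel : ∀ i : Fin chevG2.rank, i.1 ≠ 1 →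
      wt chevG2 9 = Pi.single i 1) i hi⟩
  · have := (by decide +kernel : ∀ j : Fin chevG2.rank, j.1 = 1 → chevG2.simple j ∈ [9, 10, 11, 6, 5] ∧
      chevG2.neg (chevG2.simple j) ∈ [9, 10, 11, 6, 5]) j hj
    exact ⟨x_mem_XS (S := {k | k ∈ [9, 10, 11, 6, 5]}) this.1 s, x_mem_XS (S := {k | k ∈ [9, 10, 11, 6, 5]}) this.2 s⟩

theorem centF4d (hx : IsFaith chevF4 x) : GG x ⊓ Subgroup.centralizer {px x [39, 45]} =
    XS x {k | k ∈ [14, 23, 24, 28, 29, 30, 31, 32, 33, 35, 36, 37, 38, 39, 40, 41, 42, 43, 44, 45, 46, 47]} := by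
  have hx' := hx.toIsSt
  set N := [14, 23, 24, 28, 29, 30, 31, 32, 33, 35, 36, 37, 38, 39, 40, 41, 42, 43, 44, 45, 46, 47] with hN
  have h1 : XS x {k | k ∈ N} ≤ Subgroup.centralizer {px x [39, 45]} :=
    XS_le.2 fun k hk => commute_px hx' agrF4 (by decide +kernel) hk
  refine le_antisymm (cent_le hx (R := {39, 45}) (S := [39, 40, 44, 45, 46, 47]) (J := {0, 3}) (by decide +kernel)
    (by decide) (commute_of_chk hx' agrF4 (by decide +kernel)) (by simp) (fun u hu => ?_) (fun w hw h r hr => ?_)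
    (fun i hi => ?_) (fun j hj s => ?_) h1) (le_inf (XS_le_GG x _) h1)
  · obtain ⟨f, rfl⟩ := hx'.exists_oprod isClosed_pos (one_mem _) (fun _ h => h)
      (L := [24, 28, 29, 30, 31, 32, 33, 35, 36, 37, 38, 39, 40, 41, 42, 43, 44, 45, 46, 47] ++ [25, 26, 27, 34])
      (fun k => by
        rw [Set.mem_ofPred_eq, ← mem_posRoots, posRootsF4]; exact List.Perm.mem_iff (by decide)) (by decide) hu
    have h2 := hx'.eq_of_weq agrF4 (CharP.cast_eq_zero K 2) (fun i => f ([25, 26, 27, 34].getD i 0)) (key := fun k => k)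
      (w := winv 2 [(25, [(1, [1, 0, 0, 0])]), (26, [(1, [0, 1, 0, 0])]), (27, [(1, [0, 0, 1, 0])]),
        (34, [(1, [0, 0, 0, 1])])] (wapp (toSW [39, 45]) [(25, [(1, [1, 0, 0, 0])]), (26, [(1, [0, 1, 0, 0])]),
          (27, [(1, [0, 0, 1, 0])]), (34, [(1, [0, 0, 0, 1])])]))
      (w' := [(39, [(1, [])]), (40, [(1, [0, 0, 1, 0])]), (44, [(1, [0, 0, 0, 1])]), (45, [(1, [])]),
        (46, [(1, [1, 0, 0, 0])]), (47, [(1, [0, 1, 0, 0])])]) (by decide +kernel)
    rw [hx'.evS_winv (CharP.cast_eq_zero K 2), evS_wapp, evS_toSW, ← mul_assoc] at h2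
    have h3 : (oprod x [25, 26, 27, 34] f)⁻¹ * px x [39, 45] * oprod x [25, 26, 27, 34] f =
        oprod x [39, 40, 44, 45, 46, 47] (fun k => if k = 40 then f 27 else if k = 44 then f 34 else
          if k = 46 then f 25 else if k = 47 then f 26 else 1) := by simpa [mev] using h2
    refine ⟨_, oprod_mem_XS (by decide) f, _, oprod_append _ _ _ _, _, h3, by simp, fun h4 => ?_⟩
    have h5 := oprod_inj_pos hx (L := [39, 40, 44, 45, 46, 47]) (by decide +kernel) (by decide)
      (f' := fun k => if k = 39 ∨ k = 45 then 1 else 0) (h3.symm.trans (h4.trans (by simp [px, hx'.zero])))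
    have h6 := h5 40 (by simp)
    have h7 := h5 44 (by simp)
    have h8 := h5 46 (by simp)
    have h9 := h5 47 (by simp)
    simp at h6 h7 h8 h9
    simp [h6, h7, h8, h9, hx'.zero]
  · have := (by decide +kernel : ∀ a ∈ [39, 40, 44, 45, 46, 47], ∀ b ∈ [39, 40, 44, 45, 46, 47],
      nrm chevF4 a = nrm chevF4 39 → nrm chevF4 b = nrm chevF4 45 → A chevF4 a b = A chevF4 39 45 → a = 39 ∧ b = 45)
      _ (h 39 (by simp)) _ (h 45 (by simp)) (nrm_W hw _) (nrm_W hw _) (A_W hw _ _)
    rcases hr with rfl | rfl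
    exacts [this.1, this.2]
  · have h2 : wt chevF4 39 ∈ Submodule.span ℤ (wt chevF4 '' {39, 45}) := Submodule.subset_span ⟨39, by simp, rfl⟩
    have h3 : wt chevF4 45 ∈ Submodule.span ℤ (wt chevF4 '' {39, 45}) := Submodule.subset_span ⟨45, by simp, rfl⟩
    rcases (by decide +kernel : ∀ i : Fin chevF4.rank, ¬ (i.1 = 0 ∨ i.1 = 3) →
      Pi.single i 1 = wt chevF4 39 + wt chevF4 45 ∨ Pi.single i 1 = wt chevF4 39 + (wt chevF4 39 + wt chevF4 45)) i hi
      with h | h <;> rw [h]
    exacts [add_mem h2 h3, add_mem h2 (add_mem h2 h3)]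
  · have := (by decide +kernel : ∀ j : Fin chevF4.rank, (j.1 = 0 ∨ j.1 = 3) → chevF4.simple j ∈ N ∧
      chevF4.neg (chevF4.simple j) ∈ N) j hj
    exact ⟨x_mem_XS (S := {k | k ∈ N}) this.1 s, x_mem_XS (S := {k | k ∈ N}) this.2 s⟩

end Cfsg.Agent.H8
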