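import Cfsg.Agent.H8.WF4

/-! The prime graph of `F₄(q)`. -/

set_option autoImplicit false
set_option linter.unusedSectionVars false

namespace Cfsg.Agent.H8

open Cfsg.Lie Matrix Cfsg.Agent.H7 Finset

theorem zmod_three : ∀ y : ZMod 3, y ^ 4 + 1 = y ^ 2 → ¬ y ^ 4 = 1 := by decide

section nt

variable {s : ℕ} [hs : Fact s.Prime] (h2 : s ≠ 2) {x : ZMod s}

theorem dvd_cases {e N : ℕ} (L : List ℕ) (h : e ∣ N) (hN : 0 < N := by decide)
    (hL : ∀ d ≤ N, d ∣ N → d ∈ L := by decide) : e ∈ L := hL e (Nat.le_of_dvd hN h) h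

include h2 in
theorem pow_eq_neg_iff (k : ℕ) : x ^ k = -1 ↔ orderOf x ∣ k * 2 ∧ ¬ orderOf x ∣ k := by
  simp only [orderOf_dvd_iff_pow_eq_one, pow_mul, sq_eq_one_iff]
  refine ⟨fun h => ⟨Or.inr h, fun h' => h2 ((Nat.prime_dvd_prime_iff_eq hs.out Nat.prime_two).1
    ((ZMod.natCast_eq_zero_iff 2 s).1 ?_))⟩, fun h => h.1.resolve_left h.2⟩
  linear_combination h - h'

theorem ntA : x ^ 4 + x ^ 3 = x + 1 ↔ orderOf x ∈ [1, 2, 3] := by
  rw [show orderOf x ∈ [1, 2, 3] ↔ orderOf x ∣ 2 ∨ orderOf x ∣ 3 from ⟨by generalize orderOf x = e; revert e; decide, by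
    rintro (h | h)
    · have := dvd_cases [1, 2] h; grind
    · have := dvd_cases [1, 3] h; grind⟩]
  simp only [orderOf_dvd_iff_pow_eq_one]
  refine ⟨fun h => (mul_eq_zero.1 (show (x + 1) * (x ^ 3 - 1) = 0 by linear_combination h)).imp (fun h => ?_) sub_eq_zero.1, ?_⟩
  · linear_combination (x - 1) * h
  · rintro (h | h)
    · linear_combination (x ^ 2 + x + 1) * h
    · linear_combination (x + 1) * h

theorem ntB : x ^ 4 = 1 ↔ orderOf x ∈ [1, 2, 4] := by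
  rw [← orderOf_dvd_iff_pow_eq_one]
  exact ⟨fun h => dvd_cases _ h, by generalize orderOf x = e; revert e; decide⟩

include h2 in
theorem ntC : x ^ 4 + x = x ^ 3 + 1 ↔ orderOf x ∈ [1, 2, 6] := by
  rw [show x ^ 4 + x = x ^ 3 + 1 ↔ x = 1 ∨ x ^ 3 = -1 by
    rw [← sub_eq_zero (a := x), ← add_eq_zero_iff_eq_neg, ← mul_eq_zero]
    constructor <;> intro h <;> linear_combination h, pow_eq_neg_iff h2, ← orderOf_eq_one_iff]
  generalize orderOf x = e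
  refine ⟨?_, by revert e; decide⟩
  rintro (rfl | ⟨h, h'⟩)
  · simp
  · have := dvd_cases [1, 2, 3, 6] h; fin_cases this <;> simp at h' ⊢

include h2 in
theorem ntD : x ^ 4 + 1 = 0 ↔ orderOf x = 8 := by
  rw [add_eq_zero_iff_eq_neg, pow_eq_neg_iff h2]
  generalize orderOf x = e
  refine ⟨fun ⟨h, h'⟩ => ?_, by rintro rfl; decide⟩
  have := dvd_cases [1, 2, 4, 8] h; fin_cases this <;> simp at h' ⊢

include h2 in
theorem ntE : x ^ 4 + 1 = x ^ 2 ↔ orderOf x = 12 := by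
  rw [show x ^ 4 + 1 = x ^ 2 ↔ x ^ 6 = -1 ∧ ¬ x ^ 4 = 1 from ⟨fun h => ⟨by linear_combination (x ^ 2 + 1) * h, fun h' => by
      obtain rfl := (Nat.prime_dvd_prime_iff_eq hs.out Nat.prime_three).1 ((ZMod.natCast_eq_zero_iff 3 s).1 (by
        linear_combination (x ^ 2 + 2) * h - (x ^ 2 + 1) * h'))
      exact zmod_three x h h'⟩, fun h => by
      refine sub_eq_zero.1 ((mul_eq_zero.1 (show (x ^ 2 + 1) * _ = 0 by linear_combination h.1)).resolve_left fun h' => h.2 ?_)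
      linear_combination (x ^ 2 - 1) * h'⟩, pow_eq_neg_iff h2, ← orderOf_dvd_iff_pow_eq_one]
  generalize orderOf x = e
  refine ⟨fun ⟨⟨h, h'⟩, h''⟩ => ?_, by rintro rfl; decide⟩
  have := dvd_cases [1, 2, 3, 4, 6, 12] h; fin_cases this <;> simp at h' h'' ⊢

end nt

/-- The orders of `q` that occur together in a maximal torus. -/
def AdjF4 (k l : ℕ) : Prop := ∃ L ∈ [[1, 2, 3], [1, 2, 4], [1, 2, 6], [8], [12]], k ∈ L ∧ l ∈ L

variable {K : Type*} [Field K] {w : Equiv.Perm ℕ} {q : ℕ}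

theorem torF4 (hw : w ∈ W chevF4) {a : Fin chevF4.rank → Kˣ} (ha : a ^ q = mact (wM chevF4 w) a) :
    ∃ L ∈ [[1, 2, 3], [1, 2, 4], [1, 2, 6], [8], [12]], ((wM chevF4 w).det = -1 → 1 ∈ L) ∧
      ∀ s, s.Prime → s ≠ 2 → s ∣ orderOf a → orderOf (q : ZMod s) ∈ L := by
  obtain ⟨M, e, -, h⟩ := annF4 hw
  rw [e] at ha ⊢
  change Fin 4 → Kˣ at a
  change a ^ q = mact (l := 4) M a at ha
  change ∃ L ∈ _, (M.det = -1 → _) ∧ _
  have h0 : ∀ {A B s}, a ^ A = a ^ B → s ∣ orderOf a → (A : ZMod s) = B := fun h hs =>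
    (ZMod.natCast_eq_natCast_iff _ _ _).2 ((pow_eq_pow_iff_modEq.1 h).of_dvd hs)
  have h1 := fun k => (mact_pow_of ha k).symm
  have h2 := ha.symm
  rcases h with h | h | h | ⟨h3, h | h⟩ <;> replace h := congrArg (mact (l := 4) · a) h <;>
    simp only [mact_add, mact_one, mact_zero, h1, h2, ← pow_add, ← pow_succ] at h
  · exact ⟨_, by simp, by simp, fun s hs h2 h3 => have := Fact.mk hs; ntA.1 (by simpa using h0 h h3)⟩
  · exact ⟨_, by simp, by simp, fun s hs h2 h3 => have := Fact.mk hs; ntB.1 (by simpa using h0 (h.trans (pow_one a).symm) h3)⟩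
  · exact ⟨_, by simp, by simp, fun s hs h2 h3 => have := Fact.mk hs; (ntC h2).1 (by simpa using h0 h h3)⟩
  · exact ⟨[8], by simp, by simp [h3], fun s hs h2 h3 => have := Fact.mk hs;
      List.mem_singleton.2 ((ntD h2).1 (by simpa using h0 (h.trans (pow_zero a).symm) h3))⟩
  · exact ⟨[12], by simp, by simp [h3], fun s hs h2 h3 => have := Fact.mk hs;
      List.mem_singleton.2 ((ntE h2).1 (by simpa using h0 h h3))⟩

theorem exists_tor_of_dvd [IsAlgClosed K] {l : ℕ} (hq : (q : K) = 0) {M : Matrix (Fin l) (Fin l) ℤ} (hM : (M.det : K) ≠ 0)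
    {s : ℕ} (hs : s.Prime) (h : ((((q : ℤ) • (1 : Matrix (Fin l) (Fin l) ℤ) - M).det : ℤ) : ZMod s) = 0) :
    ∃ a : Fin l → Kˣ, orderOf a = s ∧ a ^ q = mact M a := by
  have := Fact.mk hs
  have : Finite (MonoidHom.eqLocus (powMonoidHom q) (mact (K := K) M)) := finite_tor hq hM
  obtain ⟨a, ha⟩ := exists_prime_orderOf_dvd_card' (G := MonoidHom.eqLocus (powMonoidHom q) (mact (K := K) M)) s
    ((card_tor hq hM).symm ▸ Int.natCast_dvd.1 ((ZMod.intCast_zmod_eq_zero_iff_dvd _ _).1 h))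
  exact ⟨a, by rwa [Subgroup.orderOf_coe], a.2⟩

theorem exists_wF4 (k c r : ℕ) (M : Matrix (Fin 4) (Fin 4) ℤ) (h : (of fun i j : Fin 4 =>
      (chevF4.coroot.getD (wdT fastF4 k c (chevF4.simple i)) #[]).getD j 0) = M)
    (h1 : wdT fastF4 k c 47 = r) : ∃ w ∈ W chevF4, wM chevF4 w = M ∧ w 47 = r := by
  obtain ⟨w, hw, e⟩ := exists_wdT (agree_of_check smallF4 chainF4 ltF4) k c
  exact ⟨w, hw, Matrix.ext fun i j => by simpa only [e] using! congrFun (congrFun h i) j, e 47 ▸ h1⟩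

theorem detF4 (z : ℤ) : (∃ w ∈ W chevF4, (z • (1 : Matrix _ _ ℤ) - wM chevF4 w).det = z ^ 4 + z ^ 3 - (z + 1)) ∧
    (∃ w ∈ W chevF4, (z • (1 : Matrix _ _ ℤ) - wM chevF4 w).det = z ^ 4 - 1 ∧ w 47 = 47) ∧
    (∃ w ∈ W chevF4, (z • (1 : Matrix _ _ ℤ) - wM chevF4 w).det = z ^ 4 + z - (z ^ 3 + 1) ∧ w 47 = 47) ∧
    (∃ w ∈ W chevF4, (z • (1 : Matrix _ _ ℤ) - wM chevF4 w).det = z ^ 4 + 1) ∧
    (∃ w ∈ W chevF4, (z • (1 : Matrix _ _ ℤ) - wM chevF4 w).det = z ^ 4 + 1 - z ^ 2) ∧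
    (∃ w ∈ W chevF4, (z • (1 : Matrix _ _ ℤ) - wM chevF4 w).det = (z - 1) * (z ^ 3 - 1) ∧ w 47 = 47) := by
  have key : ∀ M : Matrix (Fin 4) (Fin 4) ℤ, z • (1 : Matrix _ _ ℤ) - M = !![z - M 0 0, -M 0 1, -M 0 2, -M 0 3;
      -M 1 0, z - M 1 1, -M 1 2, -M 1 3; -M 2 0, -M 2 1, z - M 2 2, -M 2 3; -M 3 0, -M 3 1, -M 3 2, z - M 3 3] := fun M => by
    ext i j; rw [Matrix.sub_apply, Matrix.smul_apply]; fin_cases i <;> fin_cases j <;> simp
  obtain ⟨w1, h1, e1, -⟩ := exists_wF4 3 0xc8 46 !![-1, -1, 0, 0; 1, 0, 0, 0; 0, 1, 1, 1; 0, 0, 0, -1] (by decide +kernel) (by decide +kernel)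
  obtain ⟨w2, h2, e2, f2⟩ := exists_wF4 5 0x2288 47 !![-1, -2, -2, 0; 1, 1, 2, 0; 0, 0, -1, 0; 0, 1, 2, 1] (by decide +kernel) (by decide +kernel)
  obtain ⟨w3, h3, e3, f3⟩ := exists_wF4 3 0x88 47 !![-1, -1, -2, 0; 1, 0, 0, 0; 0, 1, 1, 0; 0, 0, 1, 1] (by decide +kernel) (by decide +kernel)
  obtain ⟨w4, h4, e4, -⟩ := exists_wF4 6 0x1a288 46 !![-1, -2, -2, -2; 1, 1, 2, 2; 0, 0, -1, -1; 0, 1, 2, 1] (by decide +kernel) (by decide +kernel)
  obtain ⟨w5, h5, e5, -⟩ := exists_wF4 4 0x688 46 !![-1, -1, -2, -2; 1, 0, 0, 0; 0, 1, 1, 1; 0, 0, 1, 0] (by decide +kernel) (by decide +kernel)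
  obtain ⟨w6, h6, e6, f6⟩ := exists_wF4 2 0x8 47 !![-1, -1, 0, 0; 1, 0, 0, 0; 0, 1, 1, 0; 0, 0, 0, 1] (by decide +kernel) (by decide +kernel)
  refine ⟨⟨w1, h1, ?_⟩, ⟨w2, h2, ?_, f2⟩, ⟨w3, h3, ?_, f3⟩, ⟨w4, h4, ?_⟩, ⟨w5, h5, ?_⟩, w6, h6, ?_, f6⟩
  all_goals
    simp only [e1, e2, e3, e4, e5, e6]
    refine (congrArg (det (n := Fin 4)) (key _)).trans ?_
    simp [det_succ_row_zero, Fin.sum_univ_succ, Fin.succAbove]
    ring

variable {F : Type*} [Field F] [Fintype F] [CharP F 2]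

theorem adjF4_odd {r s : ℕ} (hr : r.Prime) (hs : s.Prime) (hr2 : r ≠ 2) (hs2 : s ≠ 2) {y : chevF4.group F}
    (h1 : r ∣ orderOf y) (h2 : s ∣ orderOf y) : AdjF4 (orderOf (Fintype.card F : ZMod r)) (orderOf (Fintype.card F : ZMod s)) := by
  obtain ⟨φ, j, h, -, h3⟩ := exists_umodel (K := AlgebraicClosure F) unimodF4 F 2
  obtain ⟨w, hw, a, ha, u, hu, k, h4, h5⟩ := h3 y
  obtain ⟨L, hL, -, h6⟩ := torF4 hw ha
  have key : ∀ {r}, r.Prime → r ≠ 2 → r ∣ orderOf y → r ∣ orderOf a := fun hr hr2 h =>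
    (((Nat.coprime_primes hr Nat.prime_two).2 hr2).pow_right k).dvd_of_dvd_mul_right (h5 ▸ h)
  exact ⟨L, hL, h6 r hr hr2 (key hr hr2 h1), h6 s hs hs2 (key hs hs2 h2)⟩

theorem adjF4_two {s : ℕ} (hs : s.Prime) (hs2 : s ≠ 2) {y : chevF4.group F} (h1 : orderOf y = 2 * s) :
    orderOf (Fintype.card F : ZMod s) ∈ [1, 2, 3, 4, 6] := by
  have := charP_of_injective_algebraMap (algebraMap F (AlgebraicClosure F)).injective 2
  obtain ⟨φ, j, h, -, h3⟩ := exists_umodel (K := AlgebraicClosure F) unimodF4 F 2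
  obtain ⟨w, hw, a, ha, u, hu, k, h4, h5⟩ := h3 y
  have h6 : s ∣ orderOf a := (((Nat.coprime_primes hs Nat.prime_two).2 hs2).pow_right k).dvd_of_dvd_mul_right
    (h5 ▸ h1 ▸ dvd_mul_left s 2)
  obtain ⟨r, hr, h7⟩ : ∃ r < chevF4.nroots, r ∈ RT chevF4 a := by
    by_contra h7
    rw [Subgroup.mem_bot.1 (XS_le.2 (fun r hr => absurd ⟨r, hr.1.1, hr.2⟩ h7) hu), orderOf_one] at h4
    rw [← h4, mul_one, h1] at h5
    exact not_dvd_orderOf_tor 2 (orderOf_pos_iff.1 (h5 ▸ Nat.mul_pos two_pos hs.pos)) (h5 ▸ dvd_mul_right 2 s)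
  have key : ∀ w ∈ W chevF4, a ^ Fintype.card F = mact (wM chevF4 w) a → (wM chevF4 w).det = -1 →
      orderOf (Fintype.card F : ZMod s) ∈ [1, 2, 3, 4, 6] := fun w hw ha h8 => by
    obtain ⟨L, hL, h9, h10⟩ := torF4 hw ha
    have h11 := h10 s hs hs2 h6
    have h12 := h9 h8
    fin_cases hL <;> simp at h11 h12 ⊢ <;> tauto
  obtain ⟨M, e, h8 | h8, -⟩ := annF4 hw
  · refine key _ (mul_mem hw (refl_mem r)) (by rwa [mact_wM_mul hw, mact_refl h7]) ?_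
    rw [wM_mul hw, det_mul, det_wM_refl hr, show (wM chevF4 w).det = 1 from e ▸ h8, mul_one]
  · exact key w hw ha (e ▸ h8)

theorem existsF4_odd {r s : ℕ} (hr : r.Prime) (hs : s.Prime) (hr2 : r ≠ 2) (hs2 : s ≠ 2) (hrs : r ≠ s)
    (h1 : AdjF4 (orderOf (Fintype.card F : ZMod r)) (orderOf (Fintype.card F : ZMod s))) :
    ∃ y : chevF4.group F, orderOf y = r * s := by
  obtain ⟨φ, j, h, -⟩ := exists_umodel (K := AlgebraicClosure F) unimodF4 F 2
  have h0 : (Fintype.card F : AlgebraicClosure F) = 0 := by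
    rw [← map_natCast (algebraMap F _), FiniteField.cast_card_eq_zero, map_zero]
  have key : ∀ w ∈ W chevF4, ∀ z : ℤ, ((Fintype.card F : ℤ) • (1 : Matrix _ _ ℤ) - wM chevF4 w).det = z → (z : ZMod r) = 0 →
      (z : ZMod s) = 0 → ∃ y : chevF4.group F, orderOf y = r * s := fun w hw z e h2 h3 => by
    obtain ⟨a, rfl, ha⟩ := exists_tor_of_dvd h0 (det_wM_ne hw) hr (e ▸ h2)
    obtain ⟨b, rfl, hb⟩ := exists_tor_of_dvd h0 (det_wM_ne hw) hs (e ▸ h3)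
    rw [← (Commute.all a b).orderOf_mul_eq_mul_orderOf_of_coprime ((Nat.coprime_primes hr hs).2 hrs)]
    exact h.exists_orderOf_tor hw (by rw [mul_one, mul_pow, map_mul, ha, hb])
  obtain ⟨L, hL, h6, h7⟩ := h1
  obtain ⟨⟨w1, h1, e1⟩, ⟨w2, h2, e2, -⟩, ⟨w3, h3, e3, -⟩, ⟨w4, h4, e4⟩, ⟨w5, h5, e5⟩, -⟩ := detF4 (Fintype.card F)
  have := Fact.mk hr
  have := Fact.mk hs
  fin_cases hL
  · exact key _ h1 _ e1 (by simpa [sub_eq_zero] using ntA.2 h6) (by simpa [sub_eq_zero] using ntA.2 h7)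
  · exact key _ h2 _ e2 (by simpa [sub_eq_zero] using ntB.2 h6) (by simpa [sub_eq_zero] using ntB.2 h7)
  · exact key _ h3 _ e3 (by simpa [sub_eq_zero] using (ntC hr2).2 h6) (by simpa [sub_eq_zero] using (ntC hs2).2 h7)
  · exact key _ h4 _ e4 (by simpa using (ntD hr2).2 (by simpa using h6)) (by simpa using (ntD hs2).2 (by simpa using h7))
  · exact key _ h5 _ e5 (by simpa [sub_eq_zero] using (ntE hr2).2 (by simpa using h6))
      (by simpa [sub_eq_zero] using (ntE hs2).2 (by simpa using h7))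

theorem existsF4_two {s : ℕ} (hs : s.Prime) (hs2 : s ≠ 2) (h1 : orderOf (Fintype.card F : ZMod s) ∈ [1, 2, 3, 4, 6]) :
    ∃ y : chevF4.group F, orderOf y = 2 * s := by
  have := charP_of_injective_algebraMap (algebraMap F (AlgebraicClosure F)).injective 2
  obtain ⟨φ, j, h, h2, -⟩ := exists_umodel (K := AlgebraicClosure F) unimodF4 F 2
  have h0 : (Fintype.card F : AlgebraicClosure F) = 0 := by
    rw [← map_natCast (algebraMap F _), FiniteField.cast_card_eq_zero, map_zero]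
  have := Fact.mk hs
  by_cases h3 : orderOf (Fintype.card F : ZMod s) = 1
  · obtain ⟨a, rfl, h4, h5⟩ := exists_tor (K := AlgebraicClosure F) (N := s) (q := Fintype.card F) (M := wM chevF4 1)
      (m := vz _ [1]) (i := ⟨0, by decide⟩) (by
        rw [Ne, CharP.cast_eq_zero_iff _ 2, Nat.prime_dvd_prime_iff_eq Nat.prime_two hs]; exact hs2.symm) (fun i => by
        rw [wM_one, vecMul_one, ← sub_one_mul]
        exact Dvd.dvd.mul_right ((ZMod.intCast_zmod_eq_zero_iff_dvd _ _).1 (by simp [orderOf_eq_one_iff.1 h3])) _) rfl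
    exact mul_comm 2 _ ▸ h.exists_orderOf_mul 2 h0 (one_mem _) h4 (r := 47) (by decide)
      (h5 _ (by rw [show vz _ [1] ⬝ᵥ wt chevF4 47 = 0 by decide +kernel]; simp)) rfl (h2 _)
  have key : ∀ w ∈ W chevF4, ∀ z : ℤ, ((Fintype.card F : ℤ) • (1 : Matrix _ _ ℤ) - wM chevF4 w).det = z → w 47 = 47 →
      (z : ZMod s) = 0 → ∃ y : chevF4.group F, orderOf y = 2 * s := fun w hw z e h4 h5 => by
    obtain ⟨a, rfl, ha⟩ := exists_tor_of_dvd h0 (det_wM_ne hw) hs (e ▸ h5)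
    refine mul_comm 2 _ ▸ h.exists_orderOf_mul 2 h0 hw ha (by decide) ?_ h4 (h2 _)
    have h6 := torChar_wM hw a 47
    rw [← ha, torChar_npow, Equiv.Perm.inv_eq_iff_eq.2 h4.symm] at h6
    have h7 : torChar a (wt chevF4 47) ^ orderOf a = 1 := by rw [← torChar_npow, pow_orderOf_eq_one, torChar_one]
    by_contra h8
    have h9 := (pow_eq_pow_iff_modEq.1 (h6.trans (pow_one _).symm))
    rw [orderOf_eq_prime h7 h8] at h9
    exact h3 (orderOf_eq_one_iff.2 (by simpa using (ZMod.natCast_eq_natCast_iff _ _ _).2 h9))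
  obtain ⟨-, ⟨w2, h4, e2, f2⟩, ⟨w3, h5, e3, f3⟩, -, -, w6, h6, e6, f6⟩ := detF4 (Fintype.card F)
  by_cases h7 : orderOf (Fintype.card F : ZMod s) = 3
  · exact key _ h6 _ e6 f6 (by simp [← h7, pow_orderOf_eq_one])
  by_cases h8 : orderOf (Fintype.card F : ZMod s) = 6
  · exact key _ h5 _ e3 f3 (by simpa [sub_eq_zero] using (ntC hs2).2 (by simp [h8]))
  · exact key _ h4 _ e2 f2 (by simpa [sub_eq_zero] using ntB.2 (by simp at h1 ⊢; tauto))

end Cfsg.Agent.H8
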