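import Cfsg.Agent.H3.NA

/-! The final Sylow step for groups of type `J₃`. -/

set_option autoImplicit false

namespace Cfsg.Agent.H8.J3

open Cfsg Cfsg.Agent.H1 Cfsg.Agent.H3.NQ Subgroup
open scoped ComplexConjugate

variable {G : Type*} [Group G] [Finite G]

/-- the conclusion for one Sylow subgroup -/
def Concl (X : Subgroup G) (e : ℕ) : Prop :=
  centralizer (X : Set G) = X ∧ ∃ _ : (X.subgroupOf (normalizer (X : Set G))).Normal,
    IsCyclic (↥(normalizer (X : Set G)) ⧸ X.subgroupOf _) ∧
      Nat.card (↥(normalizer (X : Set G)) ⧸ X.subgroupOf _) = e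

theorem cent_zpowers (x : G) : centralizer (zpowers x : Set G) = centralizer {x} := by
  ext g
  simp only [mem_centralizer_iff, SetLike.mem_coe, Set.mem_singleton_iff, forall_eq]
  exact ⟨fun h => h x (mem_zpowers x), by
    rintro h _ ⟨k, rfl⟩
    exact (Commute.zpow_left (show Commute x g from h) k).eq⟩

theorem syl_data [IsSimpleGroup G] {p : ℕ} [hp : Fact p.Prime] (X : Sylow p G)
    (hX : Nat.card X = p) (hne : Nat.card G ≠ p) :
    ∃ (x : G) (c e : ℕ), orderOf x = p ∧ (X : Subgroup G) = zpowers x ∧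
      Nat.card (centralizer ({x} : Set G)) = p * c ∧
      Nat.card (normalizer ((X : Subgroup G) : Set G)) = p * c * e ∧ e ∣ p - 1 ∧ e ≠ 1 ∧
      (∃ g : G, e ∣ orderOf g) ∧ p * c * e ∣ Nat.card G ∧ Nat.card G / (p * c * e) % p = 1 ∧
      (c = 1 → Concl (X : Subgroup G) e) := by
  have hcy : IsCyclic (X : Subgroup G) := isCyclic_of_prime_card hX
  obtain ⟨⟨x, hx⟩, hg⟩ := hcy.exists_generator
  have hXx : (X : Subgroup G) = zpowers x := le_antisymm (fun y hy => by
    obtain ⟨k, e⟩ := hg ⟨y, hy⟩
    exact ⟨k, congrArg Subtype.val e⟩) (by simpa using hx)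
  have ox : orderOf x = p := by rw [← Nat.card_zpowers, ← hXx]; exact hX
  have hC : centralizer ((X : Subgroup G) : Set G) = centralizer {x} := by rw [hXx, cent_zpowers]
  have hle : (X : Subgroup G) ≤ centralizer {x} := by
    rw [hXx, zpowers_le, mem_centralizer_singleton_iff]
  obtain ⟨c, hc⟩ := card_dvd_of_le hle
  rw [show Nat.card (X : Subgroup G) = p from hX] at hc
  set N := normalizer ((X : Subgroup G) : Set G) with hN
  set φ := (X : Subgroup G).normalizerMonoidHom
  have hk : φ.ker = (centralizer ((X : Subgroup G) : Set G)).subgroupOf N := normalizerMonoidHom_ker _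
  have hCN : centralizer ((X : Subgroup G) : Set G) ≤ N := centralizer_le_normalizer _
  have k1 : Nat.card φ.ker = p * c := by
    rw [hk, Nat.card_congr (subgroupOfEquivOfLe hCN).toEquiv, hC, hc]
  have hNc : Nat.card N = p * c * Nat.card φ.range := by
    rw [← k1, ← index_ker, card_mul_index]
  have : Fact (Nat.card (X : Subgroup G)).Prime := ⟨by rw [show Nat.card (X : Subgroup G) = p from hX]; exact hp.out⟩
  have hA : IsCyclic (MulAut (X : Subgroup G)) :=
    (IsCyclic.mulAutMulEquiv (X : Subgroup G)).isCyclic.2 inferInstance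
  refine ⟨x, c, Nat.card φ.range, ox, hXx, hc, hNc, ?_, fun e1 => ?_, ?_, hNc ▸ N.card_subgroup_dvd_card,
    ?_, fun c1 => ?_⟩
  · have := φ.range.card_subgroup_dvd_card
    rwa [IsCyclic.card_mulAut, show Nat.card (X : Subgroup G) = p from hX, Nat.totient_prime hp.out] at this
  · have hNC : N ≤ centralizer ((X : Subgroup G) : Set G) := by
      rw [← index_ker, index_eq_one, hk] at e1
      exact subgroupOf_eq_top.1 e1
    have hcomp := MonoidHom.ker_transferSylow_isComplement' X hNC
    rcases (MonoidHom.normal_ker (MonoidHom.transferSylow X hNC)).eq_bot_or_eq_top with e | e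
    · have := hcomp.card_mul_card
      rw [e, card_bot, one_mul] at this
      exact hne (this.symm.trans hX)
    · have := hcomp.card_mul_card
      rw [e, card_top, show Nat.card (X : Subgroup G) = p from hX] at this
      exact hp.out.one_lt.ne' (Nat.eq_of_mul_eq_mul_left Nat.card_pos (this.trans (mul_one _).symm))
  · obtain ⟨⟨_, g, rfl⟩, hg⟩ := IsCyclic.exists_ofOrder_eq_natCard (α := φ.range)
    refine ⟨g, ?_⟩
    rw [← hg, ← orderOf_coe, orderOf_coe g]
    exact orderOf_map_dvd φ g
  · have h1 := card_sylow_modEq_one p G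
    rw [X.card_eq_index_normalizer] at h1
    have h2 := N.card_mul_index
    rw [hNc] at h2
    rw [← h2, Nat.mul_div_cancel_left _ (by rw [← hNc]; exact Nat.card_pos)]
    exact Eq.trans h1 (Nat.mod_eq_of_lt hp.out.one_lt)
  · have hCX : centralizer ((X : Subgroup G) : Set G) = X := by
      rw [hC]
      exact (eq_of_le_of_card_ge hle (by rw [hc, c1, mul_one]; exact hX.ge)).symm
    rw [hCX] at hk
    let E := (QuotientGroup.quotientMulEquivOfEq hk.symm).trans (QuotientGroup.quotientKerEquivRange φ)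
    exact ⟨hCX, inferInstance, E.isCyclic.2 inferInstance, Nat.card_congr E.toEquiv⟩

theorem avg {χ : G → ℂ} (h : IsCharacter G χ) {g a b : G} (ha : a ∈ zpowers g) (hb : b ∈ zpowers g)
    {p : ℕ} (hp : p ≠ 0) (h1 : a ^ p = 1) :
    IsIntegral ℤ ((∑ i ∈ Finset.range p, χ (a ^ i * b)) / p) := by
  obtain ⟨s, hs⟩ := IsCharacter.exists_multiset_hom h g
  have e : ∀ i : ℕ, χ (a ^ i * b) = (s.map fun l => l ⟨a, ha⟩ ^ i * l ⟨b, hb⟩).sum := fun i => by
    simpa only [map_mul, map_pow] using! hs (⟨a, ha⟩ ^ i * ⟨b, hb⟩)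
  simp only [e]
  clear e hs
  induction s using Multiset.induction_on with
  | empty => simpa using isIntegral_zero
  | cons l s ih =>
    simp only [Multiset.map_cons, Multiset.sum_cons, Finset.sum_add_distrib, add_div]
    refine IsIntegral.add ?_ ih
    rw [← Finset.sum_mul]
    by_cases e : l ⟨a, ha⟩ = 1
    · have : (p : ℂ) ≠ 0 := by exact_mod_cast hp
      simp only [e, one_pow, Finset.sum_const, Finset.card_range, nsmul_eq_mul, mul_one,
        mul_div_cancel_left₀ _ this]
      exact IsCharacter.isIntegral (isCharacter_hom l) _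
    · rw [geom_sum_eq e, ← map_pow, show (⟨a, ha⟩ : zpowers g) ^ p = 1 from Subtype.ext h1]
      simpa using isIntegral_zero

theorem norm_sq_le {χ : G → ℂ} (h : IsIrrCharacter G χ) (g : G) :
    ‖χ g‖ ^ 2 ≤ Nat.card (centralizer ({g} : Set G)) := by
  classical
  have := Fintype.ofFinite G
  have e := sum_irr_mul_conj g g
  rw [if_pos (IsConj.refl g)] at e
  simp only [Complex.mul_conj, Complex.normSq_eq_norm_sq] at e
  have e' : ∑ ψ : IrrCharacter G, ‖(ψ : G → ℂ) g‖ ^ 2 = Nat.card (centralizer ({g} : Set G)) := by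
    exact_mod_cast e
  rw [← e']
  exact Finset.single_le_sum (f := fun ψ : IrrCharacter G => ‖(ψ : G → ℂ) g‖ ^ 2)
    (fun _ _ => by positivity) (Finset.mem_univ ⟨χ, h⟩)

theorem van {χ : G → ℂ} (h : IsIrrCharacter G χ) {g : G} {c : ℕ} (hi : IsIntegral ℤ (χ g / c))
    (hn : ∀ k, k.Coprime (orderOf g) → Nat.card (centralizer ({g ^ k} : Set G)) < c ^ 2) :
    χ g = 0 := by
  have hc : 0 < c := by
    have := hn 1 (by simp)
    rcases c with _ | c <;> simp_all
  refine vanish (IsIrrCharacter.isCharacter h) g hc hi fun k hk => ?_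
  have h1 := norm_sq_le h (g ^ k)
  have h2 : (Nat.card (centralizer ({g ^ k} : Set G)) : ℝ) < (c : ℝ) ^ 2 := by exact_mod_cast hn k hk
  exact lt_of_pow_lt_pow_left₀ 2 (by positivity) (h1.trans_lt h2)

theorem ex_of_dvd (H : Subgroup G) {r : ℕ} (hr : r.Prime) (h : r ∣ Nat.card H) :
    ∃ u ∈ H, orderOf u = r := by
  have := Fact.mk hr
  obtain ⟨u, hu⟩ := exists_prime_orderOf_dvd_card' r h
  exact ⟨u, u.2, by rw [orderOf_coe, hu]⟩

theorem ord_dvd_cent {x u : G} (h : u ∈ centralizer ({x} : Set G)) :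
    orderOf x ∣ Nat.card (centralizer ({u} : Set G)) := by
  simpa using orderOf_dvd_natCard (⟨x, mem_centralizer_singleton_iff.2
    (mem_centralizer_singleton_iff.1 h).symm⟩ : centralizer ({u} : Set G))

/-- a Sylow subgroup inside `H` is normalised by `H` when the Sylow count forces it -/
theorem le_norm {p : ℕ} [Fact p.Prime] (X : Sylow p G) (H : Subgroup G) (hX : (X : Subgroup G) ≤ H)
    {K : Subgroup G} (hK : K ≤ normalizer ((X : Subgroup G) : Set G)) (hKH : K ≤ H)
    (h : ∀ n, n * Nat.card K ∣ Nat.card H → n % p = 1 % p → n = 1) :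
    H ≤ normalizer ((X : Subgroup G) : Set G) := by
  have h1 := card_sylow_modEq_one p H
  rw [(X.subtype hX).card_eq_index_normalizer] at h1
  have hl : K.subgroupOf H ≤ normalizer (((X.subtype hX : Sylow p H) : Subgroup H) : Set H) := by
    rw [X.coe_subtype]
    exact (comap_mono hK).trans (le_normalizer_comap _)
  have h2 := h _ (by
    rw [← Nat.card_congr (subgroupOfEquivOfLe hKH).toEquiv, ← index_mul_card
      (normalizer (((X.subtype hX : Sylow p H) : Subgroup H) : Set H))]
    exact Nat.mul_dvd_mul_left _ (card_dvd_of_le hl)) h1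
  have h3 : (((X.subtype hX : Sylow p H) : Subgroup H)).Normal :=
    normalizer_eq_top_iff.1 (index_eq_one.1 h2)
  rw [X.coe_subtype] at h3
  exact (normal_subgroupOf_iff_le_normalizer hX).1 h3

theorem n19 : ∀ c ∈ Nat.divisors (243 * 17), ∀ e ∈ Nat.divisors 18, e ≠ 1 →
    19 * c * e ∣ 50232960 → 50232960 / (19 * c * e) % 19 = 1 →
    (c = 1 ∧ e = 9) ∨ (c = 3 ∧ e = 3) ∨ (17 ∣ c ∧ (19 * c * e) % 2 = 1) := by decide +kernel

theorem n17 : ∀ c ∈ Nat.divisors (243 * 19), ∀ e ∈ Nat.divisors 16, e ≠ 1 →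
    17 * c * e ∣ 50232960 → 50232960 / (17 * c * e) % 17 = 1 →
    (c = 1 ∧ e = 8) ∨ e = 16 ∨ (19 ∣ c ∧ 2 ∣ e) := by decide +kernel

theorem fin' [IsSimpleGroup G] (hc : Nat.card G = 50232960)
    (h2 : ∀ u : G, orderOf u = 2 → Nat.card (centralizer ({u} : Set G)) = 1920)
    (h16 : ∀ g : G, orderOf g ≠ 16)
    (h5 : ∀ w : G, orderOf w = 5 → Nat.card (centralizer ({w} : Set G)) = 30)
    (h3 : ∀ z : G, orderOf z = 3 → (2 ∣ Nat.card (centralizer ({z} : Set G)) ∨
      5 ∣ Nat.card (centralizer ({z} : Set G))) → Nat.card (centralizer ({z} : Set G)) = 1080)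
    (χ : G → ℂ) (hχ : IsIrrCharacter G χ) (hd : χ 1 = 323) :
    (∀ X : Sylow 19 G, Concl (X : Subgroup G) 9) ∧ ∀ Y : Sylow 17 G, Concl (Y : Subgroup G) 8 := by
  have f19 : Fact (Nat.Prime 19) := ⟨by norm_num⟩
  have f17 : Fact (Nat.Prime 17) := ⟨by norm_num⟩
  have c19 : ∀ X : Sylow 19 G, Nat.card X = 19 := fun X => by
    rw [X.card_eq_multiplicity, hc]; decide +kernel
  have c17 : ∀ X : Sylow 17 G, Nat.card X = 17 := fun X => by
    rw [X.card_eq_multiplicity, hc]; decide +kernel
  have cop : ∀ x : G, (orderOf x = 17 ∨ orderOf x = 19) →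
      Nat.card (centralizer ({x} : Set G)) ∣ 243 * 17 * 19 := fun x hx => by
    refine Nat.Coprime.dvd_of_dvd_mul_left (m := 640) ?_
      (hc ▸ (centralizer ({x} : Set G)).card_subgroup_dvd_card :)
    rw [show 640 = 2 ^ 7 * 5 by norm_num]
    refine Nat.Coprime.mul_right (Nat.Coprime.pow_right _ ?_) ?_ <;>
      refine ((Nat.Prime.coprime_iff_not_dvd (by norm_num)).2 fun h => ?_).symm
    · obtain ⟨u, hu, ou⟩ := ex_of_dvd _ Nat.prime_two h
      have := ord_dvd_cent hu
      rw [h2 u ou] at this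
      rcases hx with e | e <;> rw [e] at this <;> norm_num at this
    · obtain ⟨u, hu, ou⟩ := ex_of_dvd _ Nat.prime_five h
      have := ord_dvd_cent hu
      rw [h5 u ou] at this
      rcases hx with e | e <;> rw [e] at this <;> norm_num at this
  have d19 : ∀ X : Sylow 19 G, ∃ (x : G) (c e : ℕ), orderOf x = 19 ∧ (X : Subgroup G) = zpowers x ∧
      Nat.card (centralizer ({x} : Set G)) = 19 * c ∧
      Nat.card (normalizer ((X : Subgroup G) : Set G)) = 19 * c * e ∧
      ((c = 1 ∧ e = 9) ∨ (c = 3 ∧ e = 3) ∨ (17 ∣ c ∧ (19 * c * e) % 2 = 1)) ∧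
      (c = 1 → Concl (X : Subgroup G) e) := fun X => by
    obtain ⟨x, c, e, ox, hX, k1, k2, k3, k4, -, k5, k6, k7⟩ := syl_data X (c19 X) (by omega)
    have := cop x (.inr ox)
    rw [k1, mul_comm 19] at this
    rw [hc] at k5 k6
    exact ⟨x, c, e, ox, hX, k1, k2, n19 c (Nat.mem_divisors.2 ⟨Nat.dvd_of_mul_dvd_mul_right
      (by norm_num) this, by norm_num⟩) e (Nat.mem_divisors.2 ⟨k3, by norm_num⟩) k4 k5 k6, k7⟩
  have syl : ∀ {p : ℕ} [Fact p.Prime], (∀ X : Sylow p G, Nat.card X = p) → ∀ u : G, orderOf u = p →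
      ∃ X : Sylow p G, (X : Subgroup G) = zpowers u := fun {p} _ h u ou => by
    obtain ⟨X, hX⟩ := (IsPGroup.of_card (n := 1) (by rw [Nat.card_zpowers, ou, pow_one]) :
      IsPGroup p (zpowers u)).exists_le_sylow
    exact ⟨X, (eq_of_le_of_card_ge hX (by rw [Nat.card_zpowers, ou]; exact (h X).le)).symm⟩
  have r17 : ∀ Y : Sylow 17 G, Concl (Y : Subgroup G) 8 := fun Y => by
    obtain ⟨y, c, e, oy, hY, k1, k2, k3, k4, ⟨g, k8⟩, k5, k6, k7⟩ := syl_data Y (c17 Y) (by omega)
    have hdv := cop y (.inl oy)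
    rw [hc] at k5 k6
    have hdv' := hdv
    rw [k1, mul_comm 17, mul_right_comm] at hdv'
    rcases n17 c (Nat.mem_divisors.2 ⟨Nat.dvd_of_mul_dvd_mul_right (by norm_num) hdv', by norm_num⟩)
      e (Nat.mem_divisors.2 ⟨k3, by norm_num⟩) k4 k5 k6 with ⟨e1, rfl⟩ | rfl | ⟨e1, e2⟩
    · exact k7 e1
    · exact absurd (orderOf_pow_orderOf_div (orderOf_pos g).ne' k8) (h16 _)
    · exfalso
      obtain ⟨u, hu, ou⟩ := ex_of_dvd (centralizer ({y} : Set G)) f19.out (k1 ▸ e1.mul_left _)
      obtain ⟨X, hX⟩ := syl c19 u ou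
      obtain ⟨t, ht, ot⟩ := ex_of_dvd _ Nat.prime_two (k2 ▸ e2.mul_left _)
      have hn : centralizer ({y} : Set G) ≤ normalizer ((X : Subgroup G) : Set G) := by
        refine le_norm X _ (by rwa [hX, zpowers_le]) (K := zpowers (y * u)) ?_ ?_ fun n hn e => ?_
        · rw [zpowers_le]
          refine mul_mem (centralizer_le_normalizer _ ?_) (le_normalizer (hX ▸ mem_zpowers u))
          rw [hX, cent_zpowers]
          exact mem_centralizer_singleton_iff.2 (mem_centralizer_singleton_iff.1 hu).symm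
        · rw [zpowers_le]
          exact mul_mem (mem_centralizer_singleton_iff.2 rfl) hu
        · rw [Nat.card_zpowers, Commute.orderOf_mul_eq_mul_orderOf_of_coprime
            (mem_centralizer_singleton_iff.1 hu).symm (by rw [oy, ou]; norm_num), oy, ou] at hn
          have : n ∈ Nat.divisors 243 := Nat.mem_divisors.2 ⟨Nat.dvd_of_mul_dvd_mul_right
            (by norm_num) (hn.trans (by rwa [mul_assoc] at hdv)), by norm_num⟩
          clear hn; revert n; exact fun n e h => by revert e; revert h n; decide +kernel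
      -- `t` normalises `X`
      have ht' : t ∈ normalizer ((X : Subgroup G) : Set G) := by
        have hu' : t * u * t⁻¹ ∈ centralizer ({y} : Set G) := by
          rw [← cent_zpowers, ← hY] at hu ⊢
          refine mem_centralizer_iff.2 fun w hw => ?_
          have := mem_centralizer_iff.1 hu _ ((mem_normalizer_iff''.1 ht w).1 hw)
          calc _ = t * (t⁻¹ * w * t * u) * t⁻¹ := by group
            _ = _ := by rw [this]; group
        have hp : IsPGroup 19 (zpowers (t * u * t⁻¹)) := IsPGroup.of_card (n := 1) (by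
          rw [Nat.card_zpowers, ← ou]; simpa using (MulAut.conj t).orderOf_eq u)
        have h1 : t * u * t⁻¹ ∈ (X : Subgroup G) :=
          ((hp.inf_normalizer_sylow X).le ⟨mem_zpowers _, hn hu'⟩).2
        refine mem_normalizer_fintype fun w hw => ?_
        obtain ⟨k, rfl⟩ : w ∈ zpowers u := hX ▸ hw
        simpa [conj_zpow] using! zpow_mem h1 k
      obtain ⟨x, c', e', -, -, -, j2, j3, -⟩ := d19 X
      have := orderOf_dvd_natCard (⟨t, ht'⟩ : normalizer ((X : Subgroup G) : Set G))
      rw [orderOf_mk, ot, j2] at this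
      rcases j3 with ⟨rfl, rfl⟩ | ⟨rfl, rfl⟩ | ⟨-, j⟩ <;> omega
  have n17' : ∀ u v : G, orderOf u = 17 → v ∈ centralizer ({u} : Set G) → orderOf v ∣ 17 :=
    fun u v ou hv => by
      obtain ⟨Y, hY⟩ := syl c17 u ou
      rw [← cent_zpowers, ← hY, (r17 Y).1, hY] at hv
      exact ou ▸ orderOf_dvd_of_mem_zpowers hv
  refine ⟨fun X => ?_, r17⟩
  obtain ⟨x, c, e, ox, hX, k1, k2, ⟨e1, rfl⟩ | ⟨rfl, rfl⟩ | ⟨e1, -⟩, k7⟩ := d19 X
  · exact k7 e1
  · exfalso
    obtain ⟨y, hy, oy⟩ := ex_of_dvd (centralizer ({x} : Set G)) Nat.prime_three (by rw [k1]; norm_num)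
    have cm : Commute x y := (mem_centralizer_singleton_iff.1 hy).symm
    have hch := IsIrrCharacter.isCharacter hχ
    -- centralisers of the generators of `⟨y⟩`
    have cy : ∀ y : G, orderOf y = 3 → Commute x y → Nat.card (centralizer ({y} : Set G)) ≤ 171 :=
      fun y oy cm => by
      have hx : x ∈ centralizer ({y} : Set G) := mem_centralizer_singleton_iff.2 cm
      have d1 := ord_dvd_cent (mem_centralizer_singleton_iff.2 cm.symm)
      rw [ox] at d1
      have d2 : Nat.card (centralizer ({y} : Set G)) ∣ 243 * 19 := by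
        refine Nat.Coprime.dvd_of_dvd_mul_left (m := 2 ^ 7 * 5 * 17) ?_
          (hc ▸ (centralizer ({y} : Set G)).card_subgroup_dvd_card :)
        refine Nat.Coprime.mul_right (Nat.Coprime.mul_right (Nat.Coprime.pow_right _ ?_) ?_) ?_ <;>
          refine ((Nat.Prime.coprime_iff_not_dvd (by norm_num)).2 fun h => ?_).symm
        · rw [h3 y oy (.inl h)] at d1; norm_num at d1
        · rw [h3 y oy (.inr h)] at d1; norm_num at d1
        · obtain ⟨u, hu, ou⟩ := ex_of_dvd _ f17.out h
          have := n17' u y ou (mem_centralizer_singleton_iff.2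
            (mem_centralizer_singleton_iff.1 hu).symm)
          rw [oy] at this
          norm_num at this
      have := le_norm X (centralizer ({y} : Set G)) (by rwa [hX, zpowers_le]) (K := X) le_normalizer
        (by rwa [hX, zpowers_le]) fun n hn e => by
          rw [show Nat.card (X : Subgroup G) = 19 from c19 X] at hn
          have : n ∈ Nat.divisors 243 := Nat.mem_divisors.2 ⟨Nat.dvd_of_mul_dvd_mul_right
            (by norm_num) (hn.trans d2), by norm_num⟩
          clear hn; revert n; exact fun n e h => by revert e; revert h n; decide +kernel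
      exact (card_le_of_le this).trans k2.le
    -- `χ` vanishes on elements of order divisible by `19` in `⟨x, y⟩`
    have v1 : ∀ g : G, 19 ∣ orderOf g → (∀ k, k.Coprime (orderOf g) →
        centralizer ({g ^ k} : Set G) ≤ centralizer {x}) → χ g = 0 := fun g og hk => by
      refine van hχ (c := 19) (int_div (m := (centralizer ({g} : Set G)).index) (d := 17)
        (IsCharacter.isIntegral hch g) (by norm_num) (by norm_num) ?_ ?_) fun k h =>
          ((card_le_of_le (hk k h)).trans k1.le).trans_lt (by norm_num)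
      · refine ((Nat.Prime.coprime_iff_not_dvd f19.out).2 fun h => ?_).symm
        have := Nat.mul_dvd_mul (og.trans (ord_dvd_cent (mem_centralizer_singleton_iff.2 rfl))) h
        rw [card_mul_index, hc] at this
        norm_num at this
      · have := Fintype.ofFinite G
        have := isIntegral_centralChar hχ g
        rw [centralChar, hd] at this
        simpa using this
    have v2 : ∀ y : G, orderOf y = 3 → Commute x y → χ y = 0 := fun y oy cm => by
      have y3 : y ^ 3 = 1 := oy ▸ pow_orderOf_eq_one y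
      have x19 : x ^ 19 = 1 := ox ▸ pow_orderOf_eq_one x
      have hz : ∀ i ∈ Finset.range 18, χ (x ^ (i + 1) * y) = 0 := fun i hi => by
        have oi : orderOf (x ^ (i + 1)) = 19 := by
          rw [orderOf_pow, ox]
          revert i; decide
        have o : orderOf (x ^ (i + 1) * y) = 57 := by
          rw [(cm.pow_left _).orderOf_mul_eq_mul_orderOf_of_coprime (by rw [oi, oy]; norm_num), oi, oy]
        refine v1 _ (by rw [o]; norm_num) fun k hk g hg => ?_
        have h1 : Commute g ((x ^ ((i + 1) * k * 3))) := by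
          have := (show Commute g _ from mem_centralizer_singleton_iff.1 hg).pow_right 3
          rwa [← pow_mul, (cm.pow_left _).mul_pow, mul_comm k, pow_mul y, y3, one_pow, mul_one,
            ← pow_mul, mul_comm 3, ← mul_assoc] at this
        have h4 : ((i + 1) * k * 3).Coprime (orderOf x) := by
          rw [ox]
          rw [o] at hk
          refine Nat.Coprime.mul_left (Nat.Coprime.mul_left ?_ (hk.coprime_dvd_right (by norm_num)))
            (by norm_num)
          clear h1 hk o oi hg; revert i; decide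
        obtain ⟨m, hm⟩ := exists_pow_eq_self_of_coprime h4
        exact mem_centralizer_singleton_iff.2 (hm ▸ h1.pow_right m)
      have hxy : x ∈ zpowers (x * y) ∧ y ∈ zpowers (x * y) := by
        refine ⟨⟨(39 : ℕ), ?_⟩, ⟨(19 : ℕ), ?_⟩⟩ <;> simp only [zpow_natCast, cm.mul_pow]
        · rw [show 39 = 19 * 2 + 1 from rfl, pow_succ x, pow_mul, x19, show 19 * 2 + 1 = 3 * 13 from rfl,
            pow_mul, y3]; simp
        · rw [x19, show 19 = 3 * 6 + 1 from rfl, pow_succ, pow_mul, y3]; simp
      have := avg hch hxy.1 hxy.2 (by norm_num) x19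
      rw [Finset.sum_range_succ', Finset.sum_eq_zero hz] at this
      refine van hχ (c := 19) (by simpa using this) fun k hk =>
        (cy _ (by rw [orderOf_pow, oy]; rw [oy] at hk; rw [hk.symm]) (cm.pow_right k)).trans_lt
          (by norm_num)
    have := avg hch (mem_zpowers y) (one_mem _) (p := 3) (by norm_num) (oy ▸ pow_orderOf_eq_one y)
    simp only [Finset.sum_range_succ, Finset.range_zero, Finset.sum_empty, pow_zero, mul_one, pow_one,
      hd, v2 y oy cm, v2 (y ^ 2) (by rw [orderOf_pow, oy]; rfl) (cm.pow_right 2), zero_add,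
      add_zero] at this
    have h := H2.dvd_of_isIntegral (a := 323) (k := 3) (by norm_num) (by simpa using this)
    norm_num at h
  · obtain ⟨u, hu, ou⟩ := ex_of_dvd (centralizer ({x} : Set G)) f17.out (k1 ▸ e1.mul_left _)
    have := n17' u x ou (mem_centralizer_singleton_iff.2 (mem_centralizer_singleton_iff.1 hu).symm)
    rw [ox] at this
    norm_num at this

theorem fin [IsSimpleGroup G] (hc : Nat.card G = 50232960)
    (h2 : ∀ u : G, orderOf u = 2 → Nat.card (centralizer ({u} : Set G)) = 1920)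
    (h16 : ∀ g : G, orderOf g ≠ 16)
    (h5 : ∀ w : G, orderOf w = 5 → Nat.card (centralizer ({w} : Set G)) = 30)
    (h3 : ∀ z : G, orderOf z = 3 → (2 ∣ Nat.card (centralizer ({z} : Set G)) ∨
      5 ∣ Nat.card (centralizer ({z} : Set G))) → Nat.card (centralizer ({z} : Set G)) = 1080)
    (χ : G → ℂ) (hχ : IsIrrCharacter G χ) (hd : χ 1 = 323) :
    (∀ X : Sylow 19 G, Subgroup.centralizer ((X : Subgroup G) : Set G) = X ∧
        ∃ h : ((X : Subgroup G).subgroupOf (Subgroup.normalizer ((X : Subgroup G) : Set G))).Normal,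
          IsCyclic (↥(Subgroup.normalizer ((X : Subgroup G) : Set G)) ⧸ (X : Subgroup G).subgroupOf _) ∧
          Nat.card (↥(Subgroup.normalizer ((X : Subgroup G) : Set G)) ⧸ (X : Subgroup G).subgroupOf _) = 9) ∧
    (∀ Y : Sylow 17 G, Subgroup.centralizer ((Y : Subgroup G) : Set G) = Y ∧
        ∃ h : ((Y : Subgroup G).subgroupOf (Subgroup.normalizer ((Y : Subgroup G) : Set G))).Normal,
          IsCyclic (↥(Subgroup.normalizer ((Y : Subgroup G) : Set G)) ⧸ (Y : Subgroup G).subgroupOf _) ∧
          Nat.card (↥(Subgroup.normalizer ((Y : Subgroup G) : Set G)) ⧸ (Y : Subgroup G).subgroupOf _) = 8) :=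
  fin' hc h2 h16 h5 h3 χ hχ hd

end Cfsg.Agent.H8.J3
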