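import Cfsg.Agent.H8.J3M1
import Cfsg.Prelude.Def_Transfer

/-! Coordinates on `2^{1+4}:A₅`. -/

set_option autoImplicit false

namespace Cfsg.Agent.H8.J3

open Subgroup
open scoped commutatorElement

variable {H : Type*} [Group H]

/-- Clifford generators -/
structure Cl (z : H) (e : ℕ → H) : Prop where
  z1 : z ≠ 1
  zz : z * z = 1
  zc : ∀ g, Commute z g
  sq : ∀ i < 5, e i * e i = 1
  ac : ∀ i < 5, ∀ j < i, e i * e j = e j * e i * z
  pr : e 0 * e 1 * e 2 * e 3 * e 4 = 1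

/-- `g` if bit `i` of `c` is set -/
def bg (c i : ℕ) (g : H) : H := if c / 2 ^ i % 2 = 1 then g else 1

def evQ (z : H) (e : ℕ → H) (c : ℕ) : H :=
  bg c 0 z * bg c 1 (e 0) * bg c 2 (e 1) * bg c 3 (e 2) * bg c 4 (e 3)

namespace Cl

variable {z : H} {e : ℕ → H} (h : Cl z e)
include h

theorem ac' {i j : ℕ} (hi : i < 5) (hj : j < i) (r : H) : e i * (e j * r) = z * (e j * (e i * r)) := by
  rw [← mul_assoc, h.ac i hi j hj, ← (h.zc _).eq]; simp only [mul_assoc]

theorem rm : ∀ g ∈ [1, 2, 4, 8, 16], ∀ a < 32, evQ z e (mq a g) = evQ z e a * evQ z e g := by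
  have a1 : ∀ {i j : ℕ} (hi : i < 5) (hj : j < i), e i * e j = z * (e j * e i) := fun hi hj => by
    simpa using h.ac' hi hj 1
  have s1 : ∀ {i : ℕ} (hi : i < 5) (r : H), e i * (e i * r) = r := fun hi r => by
    rw [← mul_assoc, h.sq _ hi, one_mul]
  have z2 : ∀ r, z * (z * r) = r := fun r => by rw [← mul_assoc, h.zz, one_mul]
  have z3 : ∀ i r, e i * (z * r) = z * (e i * r) := fun i r => by
    rw [← mul_assoc, ← (h.zc _).eq, mul_assoc]
  have z4 : ∀ i, e i * z = z * e i := fun i => (h.zc _).eq.symm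
  intro g hg a ha
  simp only [List.mem_cons, List.not_mem_nil, or_false] at hg
  rcases hg with rfl | rfl | rfl | rfl | rfl <;> interval_cases a <;>
    simp [evQ, bg, mq, TQ, mul_assoc, z2, z3, z4, h.zz, s1, h.sq, h.ac' (i := 1) (j := 0),
      h.ac' (i := 2) (j := 0), h.ac' (i := 2) (j := 1), h.ac' (i := 3) (j := 0),
      h.ac' (i := 3) (j := 1), h.ac' (i := 3) (j := 2), a1 (i := 1) (j := 0), a1 (i := 2) (j := 0),
      a1 (i := 2) (j := 1), a1 (i := 3) (j := 0), a1 (i := 3) (j := 1), a1 (i := 3) (j := 2)]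

omit h in
theorem ev0 : evQ z e 0 = 1 := by simp [evQ, bg]
omit h in
theorem ev1 : evQ z e 1 = z := by simp [evQ, bg]

omit h in
theorem ev_bt (c i g : ℕ) : evQ z e (bt c i g) = bg c i (evQ z e g) := by
  unfold bt bg; split_ifs <;> simp [ev0]

theorem rm' {a : ℕ} (ha : a < 32) (b i : ℕ) {g : ℕ} (hg : g ∈ [1, 2, 4, 8, 16]) :
    evQ z e (mq a (bt b i g)) = evQ z e a * bg b i (evQ z e g) := by
  unfold bt bg; split_ifs
  · exact h.rm g hg a ha
  · rw [mq_zero a ha, mul_one]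

theorem mul {a b : ℕ} (ha : a < 32) (hb : b < 32) : evQ z e (mq a b) = evQ z e a * evQ z e b := by
  rw [mq_bits a ha b hb, h.rm' (mq_lt _ _) _ _ (by simp), h.rm' (mq_lt _ _) _ _ (by simp),
    h.rm' (mq_lt _ _) _ _ (by simp), h.rm' (mq_lt _ _) _ _ (by simp), h.rm' ha _ _ (by simp)]
  simp [evQ, bg, mul_assoc]

omit h in
theorem gen_lt : ∀ i < 5, gen i < 32 := by decide

theorem ev_gen : ∀ i < 5, evQ z e (gen i) = e i := fun i hi => by
  interval_cases i
  iterate 4 simp [evQ, bg, gen]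
  have h1 := h.mul (a := 30) (b := 30) (by norm_num) (by norm_num)
  rw [show mq 30 30 = 0 by decide +kernel, ev0] at h1
  have h2 : evQ z e 30 * e 4 = 1 := by simpa [evQ, bg] using h.pr
  exact mul_left_cancel (h1.symm.trans h2.symm)

theorem inj {a b : ℕ} (ha : a < 32) (hb : b < 32) (hab : evQ z e a = evQ z e b) : a = b := by
  refine (q_inj a ha b hb).2 ?_
  have h1 : evQ z e (mq a (mq b (mq b b))) = 1 := by
    rw [h.mul ha (mq_lt _ _), hab, ← h.mul hb (mq_lt _ _), (q_inj a ha b hb).1, ev0]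
  rcases q_one _ (mq_lt a (mq b (mq b b))) with h2 | h2 | ⟨i, hi, h2⟩
  · exact h2
  · rw [h2, ev1] at h1; exact absurd h1 h.z1
  · have := congrArg (evQ z e) h2
    rw [h.mul (mq_lt _ _) (gen_lt i (by omega)), h.mul (mq_lt _ _) (by norm_num),
      h.mul (gen_lt i (by omega)) (mq_lt _ _), h1, ev1] at this
    exact absurd (by simpa using this) h.z1

theorem conj {s : H} {p : ℕ} (hp : p < 60) (hs : ∀ i < 5, s * e i * s⁻¹ = e (pf p i)) {c : ℕ}
    (hc : c < 32) : s * evQ z e c * s⁻¹ = evQ z e (act p c) := by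
  have b1 : ∀ i j, j < 5 → bt c i (gen (pf p j)) < 32 := fun i j hj => by
    have := gen_lt _ (pf_lt p hp j hj)
    unfold bt; split_ifs <;> omega
  have b2 : bt c 0 1 < 32 := by unfold bt; split_ifs <;> omega
  have b3 : ∀ i g, s * bg c i g * s⁻¹ = bg c i (s * g * s⁻¹) := fun i g => by
    unfold bg; split_ifs <;> simp
  rw [act_bits p hp c hc, h.mul (mq_lt _ _) (b1 _ _ (by norm_num)),
    h.mul (mq_lt _ _) (b1 _ _ (by norm_num)), h.mul (mq_lt _ _) (b1 _ _ (by norm_num)),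
    h.mul b2 (b1 _ _ (by norm_num))]
  have hg : ∀ j < 5, evQ z e (gen (pf p j)) = s * e j * s⁻¹ := fun j hj => by
    rw [h.ev_gen _ (pf_lt p hp j hj), hs j hj]
  simp only [ev_bt, ev1, hg 0 (by norm_num), hg 1 (by norm_num), hg 2 (by norm_num),
    hg 3 (by norm_num), ← b3]
  rw [show bg c 0 z = s * bg c 0 z * s⁻¹ by rw [b3, ← (h.zc s).eq]; simp]
  simp [evQ, mul_assoc]

end Cl

/-- the situation of the centraliser -/
structure St (z : H) (E A : Subgroup H) : Prop where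
  z1 : z ≠ 1
  zz : z * z = 1
  zc : ∀ g, Commute z g
  nm : E.Normal
  ex : IsExtraspecial 2 E
  c32 : Nat.card E = 32
  cp : E.IsComplement' A
  a5 : Nonempty (A ≃* alternatingGroup (Fin 5))

namespace St

variable [Finite H] {z : H} {E A : Subgroup H} (h : St z E A)
include h

theorem c60 : Nat.card A = 60 := by
  obtain ⟨e⟩ := h.a5
  have := two_mul_nat_card_alternatingGroup (α := Fin 5)
  rw [Nat.card_perm, Nat.card_fin, show Nat.factorial 5 = 120 from rfl] at this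
  rw [Nat.card_congr e.toEquiv]; omega

theorem nrm (N : Subgroup H) (hN : ∀ a ∈ A, ∀ n ∈ A, n ∈ N → a * n * a⁻¹ ∈ N) :
    (∀ a ∈ A, a ∈ N → a = 1) ∨ A ≤ N := by
  obtain ⟨e⟩ := h.a5
  have := alternatingGroup.isSimpleGroup (α := Fin 5) (by simp)
  have := e.isSimpleGroup
  have hn : (N.subgroupOf A).Normal := ⟨fun n hn a => hN a a.2 n n.2 hn⟩
  rcases hn.eq_bot_or_eq_top with e | e
  · refine .inl fun a ha h => ?_
    have h1 : (⟨a, ha⟩ : A) ∈ N.subgroupOf A := h
    rw [e, mem_bot] at h1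
    exact congrArg Subtype.val h1
  · exact .inr (subgroupOf_eq_top.1 e)

theorem dec (g : H) : ∃ x ∈ E, ∃ a ∈ A, g = x * a := by
  obtain ⟨⟨x, a⟩, e⟩ := h.cp.2 g
  exact ⟨x, x.2, a, a.2, e.symm⟩

theorem disj {g : H} (h1 : g ∈ E) (h2 : g ∈ A) : g = 1 :=
  disjoint_def.1 h.cp.disjoint h1 h2

theorem zE : z ∈ E := by
  obtain ⟨x, hx, a, ha, e⟩ := h.dec z
  have hc : ∀ b ∈ A, b * a = a * b := fun b hb => by
    have h1 : b * a * b⁻¹ * a⁻¹ = (b * x⁻¹ * b⁻¹) * x := by
      have : a = x⁻¹ * z := by rw [e]; simp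
      rw [this]
      calc _ = b * x⁻¹ * (z * b⁻¹) * z⁻¹ * x := by group
        _ = _ := by rw [(h.zc b⁻¹).eq]; group
    have := h.disj (h1 ▸ mul_mem (h.nm.conj_mem _ (inv_mem hx) b) hx)
      (mul_mem (mul_mem (mul_mem hb ha) (inv_mem hb)) (inv_mem ha))
    rw [mul_inv_eq_one, mul_inv_eq_iff_eq_mul] at this
    exact this
  rcases h.nrm (centralizer (A : Set H)) (fun b hb n hn h => by
    rw [mem_centralizer_iff.1 h b hb]; simpa using h) with k | k
  · rw [e, k a ha hc, mul_one]; exact hx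
  · obtain ⟨f⟩ := h.a5
    have : ∃ s t : alternatingGroup (Fin 5), s * t ≠ t * s := by decide +kernel
    obtain ⟨s, t, hst⟩ := this
    refine absurd (f.symm.injective ?_) hst
    rw [map_mul, map_mul]
    exact Subtype.ext (k (f.symm t).2 _ (f.symm s).2)

theorem cen {x : H} (hx : x ∈ E) (hc : ∀ y ∈ E, Commute x y) : x = 1 ∨ x = z := by
  obtain ⟨u, -, hu⟩ := (Nat.card_eq_two_iff' (1 : center E)).1 h.ex.2
  by_contra! hh
  have h1 := hu ⟨⟨x, hx⟩, mem_center_iff.2 fun y => Subtype.ext (hc y y.2).eq.symm⟩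
    fun e => hh.1 (congrArg (fun t : center E => (t.1 : H)) e)
  have h2 := hu ⟨⟨z, h.zE⟩, mem_center_iff.2 fun y => Subtype.ext (h.zc y).eq.symm⟩
    fun e => h.z1 (congrArg (fun t : center E => (t.1 : H)) e)
  exact hh.2 (congrArg (fun t : center E => (t.1 : H)) (h1.trans h2.symm))

theorem cm {x y : H} (hx : x ∈ E) (hy : y ∈ E) : x * y = y * x ∨ x * y = y * x * z := by
  have h1 : ⁅(⟨x⁻¹, inv_mem hx⟩ : E), (⟨y⁻¹, inv_mem hy⟩ : E)⁆ ∈ center E :=
    h.ex.1.2.2 ▸ commutator_mem_commutator (mem_top _) (mem_top _)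
  rcases h.cen (x := x⁻¹ * y⁻¹ * x * y) (mul_mem (mul_mem (mul_mem (inv_mem hx) (inv_mem hy)) hx) hy)
    fun u hu => by
      simpa [commutatorElement_def] using!
        (congrArg Subtype.val (mem_center_iff.1 h1 ⟨u, hu⟩)).symm with e | e
  · left; rw [← mul_one (y * x), ← e]; group
  · right; rw [← e]; group

theorem sqE {x : H} (hx : x ∈ E) : x * x = 1 ∨ x * x = z := by
  refine h.cen (mul_mem hx hx) fun y hy => ?_
  rcases h.cm hx hy with e | e
  · exact (show Commute x y from e).mul_left e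
  · show x * x * y = y * (x * x)
    rw [mul_assoc, e, ← mul_assoc, ← mul_assoc, e, mul_assoc (y * x), (h.zc x).eq]
    simp only [mul_assoc, h.zz, mul_one]

theorem ncomm : ∃ x ∈ E, ∃ y ∈ E, ¬ Commute x y := by
  by_contra! hh
  have : center E = ⊤ := eq_top_iff.2 fun x _ => mem_center_iff.2 fun y =>
    Subtype.ext (hh y y.2 x x.2)
  have h1 := h.ex.2
  rw [this, card_top, h.c32] at h1
  omega

theorem ex4 : ∃ x ∈ E, x * x = z := by
  by_contra! hh
  have h1 : ∀ x ∈ E, x * x = 1 := fun x hx => (h.sqE hx).resolve_right (hh x hx)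
  obtain ⟨x, hx, y, hy, hn⟩ := h.ncomm
  refine hn ?_
  have := h1 _ (mul_mem hx hy)
  show x * y = y * x
  calc x * y = x * (x * y * (x * y)) * y := by rw [this, mul_one]
    _ = (x * x) * y * x * (y * y) := by simp only [mul_assoc]
    _ = _ := by rw [h1 x hx, h1 y hy]; simp

theorem sq_of_cent (hc : ∀ a ∈ A, ∀ x ∈ E, Commute a x) (y : H) (hy : y ^ 4 = 1) :
    y * y = 1 ∨ y * y = z := by
  obtain ⟨x, hx, a, ha, rfl⟩ := h.dec y
  have c := (hc a ha x hx).symm
  have x4 : x ^ 4 = 1 := by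
    rw [show 4 = 2 * 2 from rfl, pow_mul, pow_two, pow_two]
    rcases h.sqE hx with e | e <;> simp [e, h.zz]
  rw [c.mul_pow, x4, one_mul] at hy
  obtain ⟨f⟩ := h.a5
  have : ∀ s : alternatingGroup (Fin 5), s * s * (s * s) = 1 → s * s = 1 := by decide +kernel
  have a2 : a * a = 1 := by
    have h2 := this (f ⟨a, ha⟩) (by
      rw [← map_mul, ← map_mul, ← map_one f]; congr 1; apply Subtype.ext
      simpa [pow_succ, mul_assoc] using hy)
    rw [← map_mul, ← map_one f] at h2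
    exact congrArg Subtype.val (f.injective h2)
  rw [← pow_two, c.mul_pow, pow_two a, a2, mul_one, pow_two]
  exact h.sqE hx

end St

end Cfsg.Agent.H8.J3
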