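import Cfsg.Agent.H8.J3M2

/-! The explicit model of `2^{1+4}:A₅`. -/

set_option autoImplicit false

namespace Cfsg.Agent.H8.J3

open Subgroup

variable {H : Type*} [Group H]

theorem fix_odd {z w x : H} (zz : z * z = 1) (zc : ∀ g, Commute z g) {n : ℕ} (hn : Odd n)
    (hw : w ^ n = 1) (h : w * x * w⁻¹ = x ∨ w * x * w⁻¹ = x * z) : w * x * w⁻¹ = x := by
  refine h.elim id fun h => ?_
  have h1 : ∀ k : ℕ, w ^ k * x * (w ^ k)⁻¹ = x * z ^ k := fun k => by
    induction k with
    | zero => simp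
    | succ k ih =>
      calc _ = w * (w ^ k * x * (w ^ k)⁻¹) * w⁻¹ := by rw [pow_succ']; group
        _ = (w * x * w⁻¹) * (w * z ^ k * w⁻¹) := by rw [ih]; group
        _ = _ := by rw [h, ← ((zc w).pow_left k).eq, pow_succ']; group
  have h2 := h1 n
  obtain ⟨k, rfl⟩ := hn
  rw [hw, pow_succ, pow_mul, pow_two, zz] at h2
  rw [h]; simpa using h2.symm

namespace St

variable [Finite H] {z : H} {E A : Subgroup H} (h : St z E A)
include h

theorem fpf (hn : ¬ ∀ a ∈ A, ∀ x ∈ E, Commute a x) {w : H} (hw : w ∈ A) (ow : orderOf w = 5)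
    (U : Subgroup H) (hU : U ≤ E) (hz : z ∈ U) (hi : ∀ u ∈ U, w * u * w⁻¹ ∈ U) :
    (∀ u ∈ U, u = 1 ∨ u = z) ∨ E ≤ U := by
  classical
  have f5 : Fact (Nat.Prime 5) := ⟨by norm_num⟩
  have md : ∀ U : Subgroup H, (∀ u ∈ U, w * u * w⁻¹ ∈ U) →
      Nat.card U ≡ Nat.card ↥(U ⊓ centralizer {w}) [MOD 5] := fun U hi => by
    have := Fintype.ofFinite U
    let f : Function.End U := fun u => ⟨_, hi u u.2⟩
    have hf : ∀ (k : ℕ) (u : U), ((f ^ k) u : H) = w ^ k * u * (w ^ k)⁻¹ := fun k u => by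
      induction k with
      | zero => simp; rfl
      | succ k ih =>
        rw [pow_succ', pow_succ']
        show w * ((f ^ k) u : H) * w⁻¹ = _
        rw [ih]; group
    have h1 := Equiv.Perm.card_fixedPoints_modEq (f := f) (p := 5) (n := 1) (funext fun u =>
      Subtype.ext (by rw [hf, pow_one, ← ow, pow_orderOf_eq_one]; simp; rfl))
    rw [← Nat.card_eq_fintype_card, ← Nat.card_eq_fintype_card] at h1
    refine h1.trans (congrArg (· % 5) (Nat.card_congr ⟨fun u => ⟨u.1.1, u.1.2, ?_⟩,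
      fun u => ⟨⟨u.1, u.2.1⟩, Subtype.ext ?_⟩, fun _ => rfl, fun _ => rfl⟩))
    · exact mem_centralizer_singleton_iff.2
        (mul_inv_eq_iff_eq_mul.1 (congrArg Subtype.val u.2 : w * _ * w⁻¹ = _)).symm
    · exact mul_inv_eq_iff_eq_mul.2 (mem_centralizer_singleton_iff.1 u.2.2).symm
  have two : ∀ U : Subgroup H, U ≤ E → z ∈ U → Nat.card U % 5 = 2 →
      (∀ u ∈ U, u = 1 ∨ u = z) ∨ E ≤ U := fun U hU hz h2 => by
    have h3 : Nat.card U ∈ Nat.divisors 32 :=
      Nat.mem_divisors.2 ⟨h.c32 ▸ card_dvd_of_le hU, by norm_num⟩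
    have : ∀ n ∈ Nat.divisors 32, n % 5 = 2 → n = 2 ∨ n = 32 := by decide
    rcases this _ h3 h2 with e | e
    · obtain ⟨u, -, hu⟩ := (Nat.card_eq_two_iff' (1 : U)).1 e
      refine .inl fun x hx => or_iff_not_imp_left.2 fun x1 => ?_
      exact congrArg Subtype.val ((hu ⟨x, hx⟩ fun e => x1 (congrArg Subtype.val e)).trans
        (hu ⟨z, hz⟩ fun e => h.z1 (congrArg Subtype.val e)).symm)
    · exact .inr (eq_of_le_of_card_ge hU (by rw [e, h.c32])).ge
  have zw : z ∈ centralizer ({w} : Set H) := mem_centralizer_singleton_iff.2 (h.zc w)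
  have c1 : ∀ u ∈ E ⊓ centralizer {w}, u = 1 ∨ u = z := by
    refine (two _ inf_le_left ⟨h.zE, zw⟩ ?_).resolve_right fun k => ?_
    · have := md E fun u hu => h.nm.conj_mem u hu w
      rw [h.c32] at this
      exact this.symm
    · rcases h.nrm (centralizer (E : Set H)) (fun a _ n _ hn => mem_centralizer_iff.2 fun x hx => by
        have := mem_centralizer_iff.1 hn _ (h.nm.conj_mem x hx a⁻¹)
        calc _ = a * (a⁻¹ * x * a⁻¹⁻¹ * n) * a⁻¹ := by group
          _ = _ := by rw [this]; group) with k' | k'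
      · have := k' w hw (mem_centralizer_iff.2 fun x hx => mem_centralizer_singleton_iff.1 (k hx).2)
        rw [this, orderOf_one] at ow
        omega
      · exact hn fun a ha x hx => (mem_centralizer_iff.1 (k' ha) x hx).symm
  refine two U hU hz (Eq.trans (md U hi) ?_)
  have : U ⊓ centralizer {w} = zpowers z := le_antisymm (fun u hu => by
    rcases c1 u ⟨hU hu.1, hu.2⟩ with rfl | rfl <;> simp) (by simpa using ⟨hz, zw⟩)
  rw [this, Nat.card_zpowers, orderOf_eq_prime (p := 2) (by rw [pow_two, h.zz]) h.z1]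

end St

/-- the conjugates of `x` under `w` -/
def cj (w x : H) (i : ℕ) : H := w ^ i * x * (w ^ i)⁻¹

theorem cj_succ (w x : H) (i : ℕ) : w * cj w x i * w⁻¹ = cj w x (i + 1) := by
  simp only [cj, pow_succ']; group

theorem cj_add (w x : H) (i j : ℕ) : w ^ j * cj w x i * (w ^ j)⁻¹ = cj w x (j + i) := by
  simp only [cj, pow_add]; group

namespace St

variable [Finite H] {z : H} {E A : Subgroup H} (h : St z E A)
  (hn : ¬ ∀ a ∈ A, ∀ x ∈ E, Commute a x) {w : H} (hw : w ∈ A) (ow : orderOf w = 5)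
include h hn hw ow

theorem fx {x : H} (hx : x ∈ E) (hf : w * x * w⁻¹ = x ∨ w * x * w⁻¹ = x * z) : x = 1 ∨ x = z := by
  have h1 := fix_odd h.zz h.zc (n := 5) (by decide) (ow ▸ pow_orderOf_eq_one w) hf
  rcases h.fpf hn hw ow (E ⊓ centralizer {w}) inf_le_left
    ⟨h.zE, mem_centralizer_singleton_iff.2 (h.zc w)⟩ (fun u hu => by
      rw [← mem_centralizer_singleton_iff.1 hu.2]; simpa using hu) with k | k
  · exact k x ⟨hx, mem_centralizer_singleton_iff.2 (mul_inv_eq_iff_eq_mul.1 h1).symm⟩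
  · rcases h.nrm (centralizer (E : Set H)) (fun a _ n _ hn => mem_centralizer_iff.2 fun x hx => by
      have := mem_centralizer_iff.1 hn _ (h.nm.conj_mem x hx a⁻¹)
      calc _ = a * (a⁻¹ * x * a⁻¹⁻¹ * n) * a⁻¹ := by group
        _ = _ := by rw [this]; group) with k' | k'
    · have := k' w hw (mem_centralizer_iff.2 fun x hx => mem_centralizer_singleton_iff.1 (k hx).2)
      rw [this, orderOf_one] at ow
      omega
    · exact absurd (fun a ha x hx => (mem_centralizer_iff.1 (k' ha) x hx).symm) hn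

omit hn hw ow in
theorem cjE {x : H} (hx : x ∈ E) (i : ℕ) : cj w x i ∈ E := h.nm.conj_mem x hx _

omit h hn hw in
theorem cj5 (x : H) (i : ℕ) : cj w x (i + 5) = cj w x i := by
  simp [cj, pow_add, show w ^ 5 = 1 from ow ▸ pow_orderOf_eq_one w]

/-- relations among the five conjugates, by the two differences -/
theorem rel {x : H} (hx : x ∈ E) : ∃ a b : H, (a = 1 ∨ a = z) ∧ (b = 1 ∨ b = z) ∧
    (∀ i, cj w x (i + 1) * cj w x i = cj w x i * cj w x (i + 1) * a) ∧
    (∀ i, cj w x (i + 2) * cj w x i = cj w x i * cj w x (i + 2) * b) ∧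
    (∀ i, cj w x (i + 3) * cj w x i = cj w x i * cj w x (i + 3) * b) ∧
    (∀ i, cj w x (i + 4) * cj w x i = cj w x i * cj w x (i + 4) * a) := by
  have k : ∀ d, ∃ a, (a = 1 ∨ a = z) ∧ ∀ i, cj w x (i + d) * cj w x i = cj w x i * cj w x (i + d) * a :=
    fun d => by
    have t : ∀ a, (∀ g, Commute a g) → cj w x d * cj w x 0 = cj w x 0 * cj w x d * a →
        ∀ i, cj w x (i + d) * cj w x i = cj w x i * cj w x (i + d) * a := fun a ha e i => by
      rw [← cj_add, ← add_zero i, ← cj_add, add_zero]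
      calc _ = w ^ i * (cj w x d * cj w x 0) * (w ^ i)⁻¹ := by group
        _ = _ := by rw [e, mul_assoc (w ^ i), mul_assoc _ a, (ha _).eq]; group
    rcases h.cm (h.cjE (w := w) hx d) (h.cjE (w := w) hx 0) with e | e
    · exact ⟨1, .inl rfl, t 1 Commute.one_left (by rw [e, mul_one])⟩
    · exact ⟨z, .inr rfl, t z h.zc e⟩
  obtain ⟨a, ha, h1⟩ := k 1
  obtain ⟨b, hb, h2⟩ := k 2
  have sw : ∀ a u v : H, (a = 1 ∨ a = z) → u * v = v * u * a → v * u = u * v * a := by
    rintro a u v (rfl | rfl) e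
    · simpa using e.symm
    · rw [e, mul_assoc (v * u), h.zz, mul_one]
  refine ⟨a, b, ha, hb, h1, h2, fun i => ?_, fun i => ?_⟩
  · have := h2 (i + 3)
    rw [add_assoc, cj5 ow] at this
    exact sw b _ _ hb this
  · have := h1 (i + 4)
    rw [add_assoc, cj5 ow] at this
    exact sw a _ _ ha this

theorem ncm {x : H} (hx : x ∈ E) (x1 : x ≠ 1) (xz : x ≠ z) : ¬ ∀ i, Commute x (cj w x i) := by
  intro hc
  rcases h.fpf hn hw ow (E ⊓ centralizer (Set.range (cj w x))) inf_le_left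
    ⟨h.zE, mem_centralizer_iff.2 fun y _ => (h.zc y).eq.symm⟩ (fun u hu => ⟨h.nm.conj_mem u hu.1 w,
      mem_centralizer_iff.2 (by
        rintro _ ⟨i, rfl⟩
        have := mem_centralizer_iff.1 hu.2 _ ⟨i + 4, rfl⟩
        rw [← cj5 ow, ← cj_succ w x (i + 4)]
        calc _ = w * (cj w x (i + 4) * u) * w⁻¹ := by group
          _ = _ := by rw [this]; group)⟩) with k | k
  · rcases k x ⟨hx, mem_centralizer_iff.2 (by rintro _ ⟨i, rfl⟩; exact (hc i).eq.symm)⟩ with e | e
    exacts [x1 e, xz e]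
  · rcases h.cen hx (fun y hy => by
      simpa [cj] using! mem_centralizer_iff.1 (k hy).2 _ ⟨0, rfl⟩) with e | e
    exacts [x1 e, xz e]

theorem prodZ {x : H} (hx : x ∈ E) :
    cj w x 0 * cj w x 1 * cj w x 2 * cj w x 3 * cj w x 4 = 1 ∨
      cj w x 0 * cj w x 1 * cj w x 2 * cj w x 3 * cj w x 4 = z := by
  have e := fun i => h.cjE (w := w) hx i
  have hP := mul_mem (mul_mem (mul_mem (mul_mem (e 0) (e 1)) (e 2)) (e 3)) (e 4)
  refine h.fx hn hw ow hP ?_
  set P := cj w x 0 * cj w x 1 * cj w x 2 * cj w x 3 * cj w x 4 with hP'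
  have h1 : w * P * w⁻¹ = (cj w x 0)⁻¹ * (P * cj w x 0) := by
    calc _ = (w * cj w x 0 * w⁻¹) * (w * cj w x 1 * w⁻¹) * (w * cj w x 2 * w⁻¹) *
        (w * cj w x 3 * w⁻¹) * (w * cj w x 4 * w⁻¹) := by rw [hP']; group
      _ = _ := by
        simp only [cj_succ]
        rw [show 4 + 1 = 0 + 5 from rfl, cj5 ow, hP']; group
  rw [h1]
  rcases h.cm hP (e 0) with k | k <;> rw [k]
  · left; group
  · right; group

theorem cl_of {x : H} (hx : x ∈ E) (x1 : x ≠ 1) (xz : x ≠ z) (xx : x * x = 1) :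
    (∀ i, cj w x i * cj w x i = 1) ∧
      ∀ i < 5, ∀ j < i, cj w x i * cj w x j = cj w x j * cj w x i * z := by
  have sq : ∀ i, cj w x i * cj w x i = 1 := fun i => by
    calc _ = w ^ i * (x * x) * (w ^ i)⁻¹ := by simp only [cj]; group
      _ = 1 := by rw [xx]; group
  refine ⟨sq, ?_⟩
  obtain ⟨a, b, ha, hb, h1, h2, h3, h4⟩ := h.rel hn hw ow hx
  have hab : a = b := by
    have z2 : ∀ r, z * (z * r) = r := fun r => by rw [← mul_assoc, h.zz, one_mul]
    have hq : (cj w x 0 * cj w x 1 * cj w x 2 * cj w x 3) * (cj w x 0 * cj w x 1 * cj w x 2 *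
        cj w x 3) = 1 := by
      rcases h.prodZ hn hw ow hx with e | e <;> rw [eq_mul_inv_of_mul_eq e]
      · simp [← mul_inv_rev, sq]
      · rw [mul_assoc, ← mul_assoc _ z, ← (h.zc _).eq, mul_assoc, z2, ← mul_inv_rev, sq, inv_one]
    have t : ∀ {u v c : H}, (c = 1 ∨ c = z) → u * v = v * u * c → ∀ r, u * (v * r) = c * (v * (u * r)) := by
      rintro u v c (rfl | rfl) e r
      · rw [← mul_assoc, e]; group
      · rw [← mul_assoc, e, ← (h.zc _).eq]; group
    have z3 : ∀ {c : H}, (c = 1 ∨ c = z) → ∀ i r, cj w x i * (c * r) = c * (cj w x i * r) := by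
      rintro c (rfl | rfl) i r
      · simp
      · rw [← mul_assoc, ← (h.zc _).eq, mul_assoc]
    have s1 : ∀ i r, cj w x i * (cj w x i * r) = r := fun i r => by rw [← mul_assoc, sq, one_mul]
    simp only [mul_assoc, t ha (h1 0), t ha (h1 1), t ha (h1 2), t hb (h2 0), t hb (h2 1), t hb (h3 0),
      z3 ha, z3 hb, s1, sq, mul_one] at hq
    rcases ha with rfl | rfl <;> rcases hb with rfl | rfl <;> simp_all [h.zz]
  subst hab
  rcases ha with rfl | rfl
  · refine absurd (fun i => ?_) (h.ncm hn hw ow hx x1 xz)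
    have : ∀ i < 5, Commute (cj w x 0) (cj w x i) := fun i hi => by
      interval_cases i
      · rfl
      · simpa using! (h1 0).symm
      · simpa using! (h2 0).symm
      · simpa using! (h3 0).symm
      · simpa using! (h4 0).symm
    have e : cj w x i = cj w x (i % 5) := by simp only [cj, ← ow, pow_mod_orderOf]
    rw [e]
    simpa [cj] using! this _ (Nat.mod_lt i (by norm_num))
  · intro i hi j hj
    interval_cases i <;> interval_cases j
    exacts [h1 0, h2 0, h1 1, h3 0, h2 1, h1 2, h4 0, h3 1, h2 2, h1 3]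

theorem ex_inv : ∃ x ∈ E, x ≠ 1 ∧ x ≠ z ∧ x * x = 1 := by
  by_contra! hh
  obtain ⟨x, hx, xx⟩ := h.ex4
  have e := fun i => h.cjE (w := w) hx i
  have sq : ∀ i, cj w x i * cj w x i = z := fun i => by
    calc _ = w ^ i * (x * x) * (w ^ i)⁻¹ := by simp only [cj]; group
      _ = z := by rw [xx, ← (h.zc _).eq]; group
  have x1 : x ≠ 1 := by rintro rfl; exact h.z1 (by simpa using xx.symm)
  have xz : x ≠ z := by rintro rfl; exact h.z1 (xx.symm.trans h.zz)
  have cz : ∀ y ∈ E, y * y = 1 → ∀ g, Commute y g := fun y hy yy g => by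
    by_cases y1 : y = 1
    · simp [y1]
    · rw [show y = z from by_contra fun yz => hh y hy y1 yz yy]; exact h.zc g
  obtain ⟨a, b, ha, hb, h1, h2, h3, h4⟩ := h.rel hn hw ow hx
  have k : ∀ d, cj w x d * cj w x 0 = cj w x 0 * cj w x d * 1 → ∀ i, Commute x (cj w x i) →
      Commute x (cj w x (d + i)) := fun d hd i hi => by
    have c := cz _ (mul_mem (e 0) (e d)) (by
      rw [mul_assoc, ← mul_assoc (cj w x d), hd, mul_one, mul_assoc, sq, ← mul_assoc, sq, h.zz])
    have c1 := c (w ^ i)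
    have c2 : cj w x i * cj w x (i + d) = cj w x 0 * cj w x d := by
      rw [← cj_add, ← add_zero i, ← cj_add, add_zero]
      calc _ = w ^ i * (cj w x 0 * cj w x d) * (w ^ i)⁻¹ := by group
        _ = _ := by rw [← c1.eq]; group
    rw [add_comm, eq_inv_mul_of_mul_eq c2]
    exact hi.inv_right.mul_right (c x).symm
  have e5 : ∀ i, cj w x i = cj w x (i % 5) := fun i => by simp only [cj, ← ow, pow_mod_orderOf]
  have c0 : Commute x (cj w x 0) := by simp [cj]
  rcases ha with rfl | ha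
  · refine h.ncm hn hw ow hx x1 xz fun i => ?_
    induction i with
    | zero => exact c0
    | succ i ih => rw [add_comm]; exact k 1 (h1 0) i ih
  rcases hb with rfl | hb
  · refine h.ncm hn hw ow hx x1 xz fun i => ?_
    have : ∀ j, Commute x (cj w x (2 * j)) := fun j => by
      induction j with
      | zero => exact c0
      | succ j ih => rw [mul_add, add_comm]; exact k 2 (h2 0) _ ih
    rw [e5, show i % 5 = 2 * (3 * i) % 5 by omega, ← e5]
    exact this _
  subst ha hb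
  have t : ∀ {u v : H}, u * v = v * u * b → ∀ r, u * (v * r) = b * (v * (u * r)) := fun e r => by
    rw [← mul_assoc, e, ← (h.zc _).eq]; group
  have z3 : ∀ i r, cj w x i * (b * r) = b * (cj w x i * r) := fun i r => by
    rw [← mul_assoc, ← (h.zc _).eq, mul_assoc]
  have z2 : ∀ r, b * (b * r) = r := fun r => by rw [← mul_assoc, h.zz, one_mul]
  have s1 : ∀ i r, cj w x i * (cj w x i * r) = b * r := fun i r => by rw [← mul_assoc, sq]
  have c := cz _ (mul_mem (mul_mem (e 0) (e 1)) (e 2)) (by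
    simp only [mul_assoc, t (h1 0), t (h1 1), t (h2 0), z3, s1, sq, z2, h.zz]) (cj w x 3)
  have c' : cj w x 3 * (cj w x 0 * (cj w x 1 * (cj w x 2 * 1))) =
      b * (cj w x 0 * (cj w x 1 * (cj w x 2 * (cj w x 3 * 1)))) := by
    simp only [t (h3 0), t (h2 1), t (h1 2), z3, z2]
  have c'' := c.eq
  simp only [mul_one, mul_assoc] at c' c''
  rw [← c''] at c'
  exact h.z1 (by simpa using c'.symm)

theorem ex_cl : ∃ x ∈ E, Cl z (cj w x) := by
  obtain ⟨x, hx, x1, xz, xx⟩ := h.ex_inv hn hw ow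
  have k : ∀ x ∈ E, x ≠ 1 → x ≠ z → x * x = 1 →
      cj w x 0 * cj w x 1 * cj w x 2 * cj w x 3 * cj w x 4 = 1 → Cl z (cj w x) :=
    fun x hx x1 xz xx e => ⟨h.z1, h.zz, h.zc, fun i _ => (h.cl_of hn hw ow hx x1 xz xx).1 i,
      (h.cl_of hn hw ow hx x1 xz xx).2, e⟩
  rcases h.prodZ hn hw ow hx with e | e
  · exact ⟨x, hx, k x hx x1 xz xx e⟩
  · refine ⟨x * z, mul_mem hx h.zE, k _ (mul_mem hx h.zE) (fun e => xz ?_) (by simpa using x1) ?_ ?_⟩
    · rw [eq_inv_of_mul_eq_one_left e, inv_eq_of_mul_eq_one_left h.zz]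
    · rw [mul_assoc, ← mul_assoc z, (h.zc x).eq, mul_assoc, h.zz, mul_one, xx]
    · have : ∀ i, cj w (x * z) i = z * cj w x i := fun i => by
        simp only [cj]; rw [← (h.zc x).eq, ← mul_assoc, ← (h.zc _).eq]; group
      have z3 : ∀ i r, cj w x i * (z * r) = z * (cj w x i * r) := fun i r => by
        rw [← mul_assoc, ← (h.zc _).eq, mul_assoc]
      have z2 : ∀ r, z * (z * r) = r := fun r => by rw [← mul_assoc, h.zz, one_mul]
      simp only [mul_assoc] at e
      simp only [this, mul_assoc, z3, z2, e, h.zz]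

end St

end Cfsg.Agent.H8.J3
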