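import Cfsg.Agent.H8.J3M3

/-! The explicit model of `2^{1+4}:A₅`, concluded. -/

set_option autoImplicit false

namespace Cfsg.Agent.H8.J3

open Subgroup Equiv

variable {H : Type*} [Group H]

theorem stab_a5 : ∀ π : Perm (Fin 5), Perm.sign π = 1 → π 0 = 0 → ∃ σ : Perm (Fin 5),
    σ 0 = 0 ∧ σ * σ * σ = 1 ∧ Perm.sign σ = 1 ∧ (σ⁻¹ * π) * (σ⁻¹ * π) * (σ⁻¹ * π) = 1 := by
  decide +kernel

namespace St

variable [Finite H] {z : H} {E A : Subgroup H} (h : St z E A)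
include h

theorem surjQ {e : ℕ → H} (c : Cl z e) (he : ∀ i, e i ∈ E) {y : H} (hy : y ∈ E) :
    ∃ a < 32, evQ z e a = y := by
  have hb : ∀ a i g, g ∈ E → bg a i g ∈ E := fun a i g hg => by
    unfold bg; split_ifs; exacts [hg, one_mem _]
  let F : Fin 32 → E := fun a => ⟨evQ z e a, mul_mem (mul_mem (mul_mem (mul_mem (hb _ _ _ h.zE)
    (hb _ _ _ (he 0))) (hb _ _ _ (he 1))) (hb _ _ _ (he 2))) (hb _ _ _ (he 3))⟩
  obtain ⟨a, ha⟩ := ((Nat.bijective_iff_injective_and_card F).2 ⟨fun a b hab =>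
    Fin.ext (c.inj a.2 b.2 (congrArg Subtype.val hab)), by rw [h.c32]; simp⟩).2 ⟨y, hy⟩
  exact ⟨a, a.2, congrArg Subtype.val ha⟩

theorem model (hn : ¬ ∀ a ∈ A, ∀ x ∈ E, Commute a x) : ∃ ev : ℕ → H,
    (∀ a < 1920, ∀ b < 1920, ev (mul a b) = ev a * ev b) ∧ (∀ g, ∃ a < 1920, ev a = g) ∧
      Nat.card H = 1920 ∧ ev 1 = z := by
  have f5 : Fact (Nat.Prime 5) := ⟨by norm_num⟩
  obtain ⟨⟨w, hw⟩, ow⟩ := exists_prime_orderOf_dvd_card' (G := A) 5 (by rw [h.c60]; norm_num)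
  rw [orderOf_mk] at ow
  obtain ⟨x, hx, c⟩ := h.ex_cl hn hw ow
  set e := cj w x with he
  have eE : ∀ i, e i ∈ E := h.cjE hx
  have gz : ∀ j < 5, evQ z e (mq (gen j) 1) = e j * z := fun j hj => by
    rw [c.mul (Cl.gen_lt j hj) (by norm_num), c.ev_gen j hj, Cl.ev1]
  have uq : ∀ i < 5, ∀ j < 5, ∀ y, (y = e i ∨ y = e i * z) → (y = e j ∨ y = e j * z) → i = j := by
    intro i hi j hj y h1 h2
    refine q_ne i hi j hj ?_
    have l := Cl.gen_lt
    rcases h1 with rfl | rfl <;> rcases h2 with k | k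
    · exact .inl (c.inj (l i hi) (l j hj) (by rw [c.ev_gen i hi, c.ev_gen j hj, k]))
    · exact .inr (.inl (c.inj (l i hi) (mq_lt _ _) (by rw [c.ev_gen i hi, gz j hj, k])))
    · exact .inr (.inr (c.inj (mq_lt _ _) (l j hj) (by rw [c.ev_gen j hj, gz i hi, k])))
    · exact .inl (c.inj (l i hi) (l j hj) (by rw [c.ev_gen i hi, c.ev_gen j hj, mul_right_cancel k]))
  have pr : ∀ (g : H) (i : Fin 5), ∃ j : Fin 5, g * e i * g⁻¹ = e j ∨ g * e i * g⁻¹ = e j * z := by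
    intro g i
    obtain ⟨a, ha, k⟩ := h.surjQ c eE (h.nm.conj_mem _ (eE i) g)
    have n1 : ∀ y, (∀ g, Commute y g) → g * e i * g⁻¹ ≠ y := fun y hy k => by
      have k1 : e i = y := by rw [mul_inv_eq_iff_eq_mul, (hy g).eq] at k; exact mul_left_cancel k
      have : ∀ j < 5, ∃ l < 5, l < j ∨ j < l := by decide
      obtain ⟨l, hl, h1 | h1⟩ := this i i.2
      · have := c.ac i i.2 l h1
        rw [k1, (hy _).eq] at this; exact h.z1 (by simpa using this)
      · have := c.ac l hl i h1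
        rw [k1, (hy _).eq] at this; exact h.z1 (by simpa using this)
    rcases q_inv a ha (c.inj (mq_lt _ _) (by norm_num) (by
      rw [c.mul ha ha, k, Cl.ev0]
      calc _ = g * (e i * e i) * g⁻¹ := by group
        _ = 1 := by rw [c.sq i i.2]; group)) with rfl | rfl | ⟨j, hj, rfl | rfl⟩
    · exact absurd (k.symm.trans Cl.ev0) (n1 1 Commute.one_left)
    · exact absurd (k.symm.trans Cl.ev1) (n1 z h.zc)
    · exact ⟨⟨j, hj⟩, .inl (k.symm.trans (c.ev_gen j hj))⟩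
    · exact ⟨⟨j, hj⟩, .inr (k.symm.trans (gz j hj))⟩
  choose f hf using pr
  have fu : ∀ (g : H) (i j : Fin 5), (g * e i * g⁻¹ = e j ∨ g * e i * g⁻¹ = e j * z) → f g i = j :=
    fun g i j k => Fin.ext (uq _ (f g i).2 _ j.2 _ (hf g i) k)
  have cz : ∀ g y, g * (y * z) * g⁻¹ = g * y * g⁻¹ * z := fun g y => by
    rw [mul_assoc (g * y) g⁻¹, ← (h.zc g⁻¹).eq]; group
  let ρ : H →* Perm (Fin 5) := MonoidHom.toHomPerm
    { toFun := f
      map_one' := funext fun i => fu 1 i i (by simp)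
      map_mul' := fun a b => funext fun i => fu _ _ _ (by
        show _ = e (f a (f b i)) ∨ _ = e (f a (f b i)) * z
        rw [show a * b * e i * (a * b)⁻¹ = a * (b * e i * b⁻¹) * a⁻¹ by group]
        rcases hf b i with k | k <;> rcases hf a (f b i) with l | l <;> rw [k] <;>
          simp only [cz, l, mul_assoc, h.zz, mul_one, true_or, or_true]) }
  have hρ : ∀ g i, ρ g i = f g i := fun _ _ => rfl
  have w1 : ρ w ≠ 1 := fun k => by
    have := (hρ w 0).symm.trans (congrArg (· 0) k)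
    rw [fu w 0 1 (.inl (cj_succ w x 0))] at this
    simp at this
  have ker : ∀ a ∈ A, ρ a = 1 → a = 1 :=
    (h.nrm ρ.ker fun a _ n _ hn => ρ.normal_ker.conj_mem n hn a).resolve_right fun k => w1 (k hw)
  have sg' : A ≤ (Perm.sign.comp ρ).ker :=
    (h.nrm (Perm.sign.comp ρ).ker fun a _ n _ hn =>
      (Perm.sign.comp ρ).normal_ker.conj_mem n hn a).resolve_left fun k => by
      have h1 := k (w * w) (mul_mem hw hw) (by simp [MonoidHom.mem_ker])
      have := orderOf_dvd_of_pow_eq_one (x := w) (n := 2) (by rw [pow_two, h1])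
      rw [ow] at this
      norm_num at this
  have sg : ∀ a ∈ A, Perm.sign (ρ a) = 1 := fun a ha => sg' ha
  have rg : ∀ σ : Perm (Fin 5), Perm.sign σ = 1 → ∃ a ∈ A, ρ a = σ := fun σ hσ => by
    have hi : Function.Injective (ρ.comp A.subtype) :=
      (injective_iff_map_eq_one _).2 fun a k => Subtype.ext (ker a a.2 k)
    have := two_mul_nat_card_alternatingGroup (α := Fin 5)
    rw [Nat.card_perm, Nat.card_fin, show Nat.factorial 5 = 120 from rfl] at this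
    have hr : (ρ.comp A.subtype).range = alternatingGroup (Fin 5) := eq_of_le_of_card_ge
      (by rintro _ ⟨a, rfl⟩; exact sg a a.2)
      (by rw [← Nat.card_congr (MonoidHom.ofInjective hi).toEquiv, h.c60]; omega)
    obtain ⟨a, ha⟩ : σ ∈ (ρ.comp A.subtype).range := hr ▸ hσ
    exact ⟨a, a.2, ha⟩
  have st3 : ∀ a ∈ A, ρ a 0 = 0 → ρ a * ρ a * ρ a = 1 → a * e 0 * a⁻¹ = e 0 := fun a ha k1 k2 =>
    fix_odd h.zz h.zc (n := 3) (by decide) (ker _ (pow_mem ha 3) (by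
      rw [map_pow, pow_succ, pow_two, k2])) (by simpa only [← hρ, k1] using! hf a 0)
  have st : ∀ a ∈ A, ρ a 0 = 0 → a * e 0 * a⁻¹ = e 0 := fun a ha k => by
    obtain ⟨σ, s0, s3, s1, s4⟩ := stab_a5 _ (sg a ha) k
    obtain ⟨b, hb, rfl⟩ := rg σ s1
    have h1 := st3 b hb s0 s3
    have h2 := st3 (b⁻¹ * a) (mul_mem (inv_mem hb) ha) (by
      rw [map_mul, map_inv, Perm.mul_apply, k, Perm.inv_eq_iff_eq, s0]) (by rwa [map_mul, map_inv])
    calc _ = b * (b⁻¹ * a * e 0 * (b⁻¹ * a)⁻¹) * b⁻¹ := by group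
      _ = _ := by rw [h2, h1]
  have ex : ∀ a ∈ A, ∀ i : Fin 5, a * e i * a⁻¹ = e (ρ a i) := fun a ha i => by
    have e0 : ∀ j, e j = w ^ j * e 0 * (w ^ j)⁻¹ := fun j => (cj_add w x 0 j).symm
    have h1 : ((w ^ (ρ a i : ℕ))⁻¹ * a * w ^ (i : ℕ)) * e 0 * ((w ^ (ρ a i : ℕ))⁻¹ * a * w ^ (i : ℕ))⁻¹ =
        (w ^ (ρ a i : ℕ))⁻¹ * (a * e i * a⁻¹) * (w ^ (ρ a i : ℕ))⁻¹⁻¹ := by rw [e0 i]; group
    have h2 := st _ (mul_mem (mul_mem (inv_mem (pow_mem hw (ρ a i))) ha) (pow_mem hw i))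
      (fu _ 0 0 (by
        refine (hf a i).imp (fun k => h1.trans ?_) fun k => h1.trans ?_
        · rw [k, e0 (f a i), hρ]; simp [mul_assoc]
        · rw [k, cz, e0 (f a i), hρ]; simp [mul_assoc]))
    rw [h1] at h2
    rw [e0 (ρ a i), ← h2]; group
  have exp : ∀ a : A, ∃ p : Fin 60, ∀ i < 5, (a : H) * e i * (a : H)⁻¹ = e (pf p i) := fun a => by
    have l := fun i : Fin 5 => Cl.gen_lt _ (ρ a i).2
    obtain ⟨p, hp, k⟩ := pf_all _ (ρ a 0).2 _ (ρ a 1).2 _ (ρ a 2).2 _ (ρ a 3).2 _ (ρ a 4).2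
      (c.inj (mq_lt _ _) (by norm_num) (by
        rw [c.mul (mq_lt _ _) (l 4), c.mul (mq_lt _ _) (l 3), c.mul (mq_lt _ _) (l 2),
          c.mul (l 0) (l 1), Cl.ev0]
        simp only [c.ev_gen _ (ρ a _).2, ← ex a a.2]
        calc _ = a * (e 0 * e 1 * e 2 * e 3 * e 4) * (a : H)⁻¹ := by
              simp only [mul_assoc, inv_mul_cancel_left]; rfl
          _ = 1 := by rw [c.pr]; group))
      (by simp [Fin.val_inj])
    simp only [List.cons.injEq, and_true] at k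
    obtain ⟨k0, k1, k2, k3, k4⟩ := k
    refine ⟨⟨p, hp⟩, fun i hi => ?_⟩
    interval_cases i
    exacts [k0 ▸ ex a a.2 0, k1 ▸ ex a a.2 1, k2 ▸ ex a a.2 2, k3 ▸ ex a a.2 3, k4 ▸ ex a a.2 4]
  choose P hP using exp
  have inj : ∀ a b : A, (∀ i < 5, (a : H) * e i * (a : H)⁻¹ = b * e i * (b : H)⁻¹) → a = b :=
    fun a b k => Subtype.ext (inv_mul_eq_one.1 (ker _ (mul_mem (inv_mem a.2) b.2)
      (Perm.ext fun i => fu _ i i (.inl (by
        calc _ = (a : H)⁻¹ * (b * e i * (b : H)⁻¹) * a := by group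
          _ = _ := by rw [← k i i.2]; group)))))
  obtain ⟨σ, hσ⟩ := ((Nat.bijective_iff_injective_and_card P).2 ⟨fun a b k => inj a b fun i hi => by
    rw [hP a i hi, hP b i hi, k], by rw [h.c60]; simp⟩).2.hasRightInverse
  let s : ℕ → H := fun p => if hp : p < 60 then σ ⟨p, hp⟩ else 1
  have sA : ∀ p, s p ∈ A := fun p => by
    simp only [s]; split_ifs; exacts [(σ _).2, one_mem _]
  have hs : ∀ p < 60, ∀ i < 5, s p * e i * (s p)⁻¹ = e (pf p i) := fun p hp i hi => by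
    simp only [s, dif_pos hp, hP _ i hi, hσ ⟨p, hp⟩]
  have sm : ∀ p < 60, ∀ q < 60, s (pm p q) = s p * s q := fun p hp q hq =>
    congrArg Subtype.val (inj ⟨_, sA _⟩ ⟨_, mul_mem (sA p) (sA q)⟩ fun i hi => by
      rw [hs _ (pm_lt p hp q hq) i hi, pf_pm p hp q hq i hi, ← hs p hp _ (pf_lt q hq i hi),
        ← hs q hq i hi]
      group)
  refine ⟨fun a => evQ z e (a % 32) * s (a / 32), fun a ha b hb => ?_, fun g => ?_, ?_, ?_⟩
  · have h1 := mq_lt (a % 32) (act (a / 32) (b % 32))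
    simp only [mul, Nat.add_mul_mod_self_left, Nat.mod_eq_of_lt h1,
      Nat.add_mul_div_left _ _ (by norm_num : 0 < 32), Nat.div_eq_of_lt h1, zero_add]
    rw [c.mul (Nat.mod_lt _ (by norm_num)) (act_lt _ _), sm _ (by omega) _ (by omega),
      ← c.conj (by omega) (hs _ (by omega)) (Nat.mod_lt _ (by norm_num))]
    group
  · obtain ⟨y, hy, a, ha, rfl⟩ := h.dec g
    obtain ⟨b, hb, rfl⟩ := h.surjQ c eE hy
    have hp := (P ⟨a, ha⟩).2
    refine ⟨b + 32 * P ⟨a, ha⟩, by omega, ?_⟩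
    simp only [Nat.add_mul_mod_self_left, Nat.mod_eq_of_lt hb,
      Nat.add_mul_div_left _ _ (by norm_num : 0 < 32), Nat.div_eq_of_lt hb, zero_add]
    congr 1
    exact congrArg Subtype.val (inj ⟨_, sA _⟩ ⟨a, ha⟩ fun i hi => by
      rw [hs _ hp i hi, hP _ i hi])
  · rw [← h.cp.card_mul_card, h.c32, h.c60]
  · have := sm 0 (by norm_num) 0 (by norm_num)
    rw [show pm 0 0 = 0 by decide +kernel] at this
    simp [Cl.ev1, left_eq_mul.1 this]

end St

end Cfsg.Agent.H8.J3
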