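import Cfsg.Agent.H8.J3M4
import Cfsg.Agent.H4.J3B

/-! Local facts for groups of type `J₃` read off the model of the involution centraliser. -/

set_option autoImplicit false

namespace Cfsg.Agent.H8.J3

open Subgroup

variable {G : Type*} [Group G]

theorem cnt (n : ℕ) (p : ℕ → Bool) :
    ((Finset.range n).filter fun a => p a).card = ((List.range n).filter p).length := by
  simp [Finset.range, Finset.filter, Multiset.range]

/-- a numeral below `1920` -/
theorem n {a : ℕ} (h : a < 1920 := by norm_num) : a < 1920 := h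

/-- coordinates on the centraliser of `u` -/
structure Md (u : G) (ev : ℕ → G) : Prop where
  hm : ∀ a < 1920, ∀ b < 1920, ev (mul a b) = ev a * ev b
  sur : ∀ g, Commute g u → ∃ a < 1920, ev a = g
  cm : ∀ a, Commute (ev a) u
  inj : ∀ a < 1920, ∀ b < 1920, ev a = ev b → a = b
  one : ev 1 = u

namespace Md

variable {u : G} {ev : ℕ → G} (h : Md u ev)
include h

theorem conj (g : G) : Md (g * u * g⁻¹) fun a => g * ev a * g⁻¹ where
  hm a ha b hb := by rw [h.hm a ha b hb]; group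
  sur k hk := by
    obtain ⟨a, ha, e⟩ := h.sur (g⁻¹ * k * g) (by simpa [mul_assoc] using hk.map (MulAut.conj g⁻¹))
    exact ⟨a, ha, by rw [e]; group⟩
  cm a := by simpa using (h.cm a).map (MulAut.conj g)
  inj a ha b hb e := h.inj a ha b hb (by simpa using e)
  one := by rw [h.one]

theorem conj' {a : ℕ} : Md u fun b => ev a * ev b * (ev a)⁻¹ := by
  simpa [(h.cm a).eq] using h.conj (ev a)

theorem zero : ev 0 = 1 := by
  have := h.hm 0 (by norm_num) 0 (by norm_num)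
  rw [show mul 0 0 = 0 by decide +kernel] at this
  exact left_eq_mul.1 this

theorem pow {a : ℕ} (ha : a < 1920) : ∀ k, ev (pw a k) = ev a ^ k
  | 0 => by simp [pw, h.zero]
  | k + 1 => by rw [pw, h.hm _ (pw_lt ha k) _ ha, pow ha k, pow_succ]

theorem iff {a b : ℕ} (ha : a < 1920) (hb : b < 1920) : a = b ↔ ev a = ev b :=
  ⟨congrArg ev, h.inj a ha b hb⟩

theorem comm {a b : ℕ} (ha : a < 1920) (hb : b < 1920) :
    mul a b = mul b a ↔ Commute (ev a) (ev b) := by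
  rw [h.iff (mul_lt ha hb) (mul_lt hb ha), h.hm a ha b hb, h.hm b hb a ha, commute_iff_eq]

theorem inv {a : ℕ} (ha : a < 1920) : ev (iv a) = (ev a)⁻¹ := by
  rw [eq_comm, inv_eq_iff_mul_eq_one, ← h.hm a ha _ (t_iv a ha).1, (t_iv a ha).2.2, h.zero]

theorem cwe {a b : ℕ} (ha : a < 1920) (hb : b < 1920) (e : mul (cw a) b = mul a (cw a)) :
    ev (cw a) * ev b * (ev (cw a))⁻¹ = ev a := by
  rw [mul_inv_eq_iff_eq_mul, ← h.hm _ (t_iv a ha).2.1 _ hb, e, h.hm _ ha _ (t_iv a ha).2.1]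

theorem count (S : Set G) (hS : ∀ g ∈ S, Commute g u) (p : ℕ → Bool)
    (hp : ∀ a < 1920, ev a ∈ S ↔ p a) : Nat.card S = (List.range 1920).countP p := by
  have : Nat.card S = ((Finset.range 1920).filter fun a => p a).card := by
    rw [← Nat.card_eq_finsetCard]
    refine (Nat.card_congr (Equiv.ofBijective (fun a => ⟨ev a.1, (hp _ (by
      simpa using (Finset.mem_filter.1 a.2).1)).2 (Finset.mem_filter.1 a.2).2⟩) ⟨fun a b e =>
        Subtype.ext (h.inj _ (by simpa using (Finset.mem_filter.1 a.2).1) _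
          (by simpa using (Finset.mem_filter.1 b.2).1) (congrArg Subtype.val e)), fun g => ?_⟩)).symm
    obtain ⟨a, ha, e⟩ := h.sur g (hS g g.2)
    exact ⟨⟨a, Finset.mem_filter.2 ⟨by simpa using ha, (hp a ha).1 (e ▸ g.2)⟩⟩, Subtype.ext e⟩
  rw [this, List.countP_eq_length_filter]
  exact cnt _ p

theorem card : Nat.card (centralizer ({u} : Set G)) = 1920 :=
  (h.count _ (fun _ hg => mem_centralizer_singleton_iff.1 hg) (fun _ => true) fun a _ => by
    simpa using mem_centralizer_singleton_iff.2 (h.cm a).eq).trans (by simp)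

theorem ord {a n : ℕ} (ha : a < 1920) (hn : orderOf (ev a) = n) : pw a n = 0 :=
  h.inj _ (pw_lt ha n) _ (by norm_num) (by rw [h.pow ha, ← hn, pow_orderOf_eq_one, h.zero])

theorem five {w : G} (ow : orderOf w = 5) (c : Commute u w) :
    (∀ c, Commute c u → Commute c w → ∃ i : ℕ, c = w ^ i ∨ c = u * w ^ i) ∧
    (∃ s, s * s = 1 ∧ Commute s u ∧ s * w * s = w⁻¹) ∧ ∀ c, Commute c u → c * w * c⁻¹ ≠ w ^ 2 := by
  obtain ⟨a, ha, rfl⟩ := h.sur w c.symm
  obtain ⟨ev', k, hk, h', e⟩ : ∃ ev' k, k < 2 ∧ Md u ev' ∧ ev' (pw 512 (k + 1)) = ev a := by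
    rcases t_five a ha (h.ord ha ow) with rfl | e | e
    · rw [h.zero, orderOf_one] at ow; omega
    · exact ⟨_, 0, by norm_num, h.conj', h.cwe ha (by decide +kernel) e⟩
    · exact ⟨_, 1, by norm_num, h.conj', h.cwe ha (by decide +kernel) e⟩
  have l := pw_lt (a := 512) (by norm_num) (k + 1)
  obtain ⟨t1, t2⟩ := t_c5 k hk
  rw [← e]
  refine ⟨fun c c1 c2 => ?_, ⟨ev' 352, ?_, h'.cm _, ?_⟩, fun c c1 c2 => ?_⟩
  · obtain ⟨b, hb, rfl⟩ := h'.sur c c1
    obtain ⟨i, -, k | k⟩ := (t1 b hb).1 ((h'.comm hb l).2 c2)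
    · exact ⟨i, .inl (by rw [k, h'.pow l])⟩
    · exact ⟨i, .inr (by rw [k, h'.hm _ (by norm_num) _ (pw_lt l i), h'.pow l, h'.one])⟩
  · rw [← h'.hm _ (by norm_num) _ (by norm_num), show mul 352 352 = 0 by decide +kernel, h'.zero]
  · rw [eq_inv_iff_mul_eq_one, ← h'.hm _ (by norm_num) _ l, ← h'.hm _ (mul_lt (by norm_num) l) _
      (by norm_num), ← h'.hm _ (mul_lt (mul_lt (by norm_num) l) (by norm_num)) _ l, t2, h'.zero]
  · obtain ⟨b, hb, rfl⟩ := h'.sur c c1
    refine (t1 b hb).2 (h'.inj _ (mul_lt hb l) _ (mul_lt (pw_lt l 2) hb) ?_)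
    rw [h'.hm _ hb _ l, h'.hm _ (pw_lt l 2) _ hb, h'.pow l, ← c2]; group

theorem ev3 {a b c : ℕ} (ha : a < 1920) (hb : b < 1920) (hc : c < 1920) :
    ev (mul (mul a b) c) = ev a * ev b * ev c := by
  rw [h.hm _ (mul_lt ha hb) _ hc, h.hm _ ha _ hb]

theorem to3 {z : G} (oz : orderOf z = 3) (c : Commute u z) : ∃ a, ev a * ev 480 * (ev a)⁻¹ = z := by
  obtain ⟨a, ha, rfl⟩ := h.sur z c.symm
  rcases t_three a ha (h.ord ha oz) with rfl | e
  · rw [h.zero, orderOf_one] at oz; omega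
  · exact ⟨_, h.cwe ha (by norm_num) e⟩

theorem three {z : G} (oz : orderOf z = 3) (c : Commute u z) :
    (∃ r s, Commute r z ∧ Commute s z ∧ r * r = u ∧ s * s = 1 ∧ s * r * s = r⁻¹ ∧
      ∀ c, Commute c u → Commute c z → ∃ j i : ℕ, c = z ^ j * r ^ i ∨ c = z ^ j * (s * r ^ i)) ∧
    (∃ g, Commute g u ∧ g * z * g⁻¹ = z⁻¹) ∧ (∀ g, g * g = u → g * z * g⁻¹ ≠ z⁻¹) ∧
    ∀ y, orderOf y = 3 → Commute u y → IsConj z y := by
  obtain ⟨a, e⟩ := h.to3 oz c
  obtain ⟨ev', h', rfl⟩ : ∃ ev', Md u ev' ∧ ev' 480 = z := ⟨_, h.conj', e⟩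
  refine ⟨⟨ev' 14, ev' 16, (h'.comm n n).1 (by decide +kernel), (h'.comm n n).1 (by decide +kernel),
    ?_, ?_, ?_, fun c c1 c2 => ?_⟩, ⟨ev' 96, h'.cm _, ?_⟩, fun g g1 g2 => ?_, fun y oy cy => ?_⟩
  · rw [← h'.hm _ n _ n, show mul 14 14 = 1 by decide +kernel, h'.one]
  · rw [← h'.hm _ n _ n, show mul 16 16 = 0 by decide +kernel, h'.zero]
  · rw [← h'.ev3 n n n, ← h'.inv n]; exact congrArg ev' (by decide +kernel)
  · obtain ⟨b, hb, rfl⟩ := h'.sur c c1
    obtain ⟨j, -, i, -, k | k⟩ := (t_c3 b hb).1 ((h'.comm hb n).2 c2)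
    · exact ⟨j, i, .inl (by rw [k, h'.hm _ (pw_lt n j) _ (pw_lt n i), h'.pow n, h'.pow n])⟩
    · exact ⟨j, i, .inr (by rw [k, h'.hm _ (pw_lt n j) _ (mul_lt n (pw_lt n i)),
        h'.hm _ n _ (pw_lt n i), h'.pow n, h'.pow n])⟩
  · rw [← h'.inv n, ← h'.inv n, ← h'.ev3 n n (t_iv _ n).1]; exact congrArg ev' (by decide +kernel)
  · obtain ⟨b, hb, rfl⟩ := h'.sur g (g1 ▸ (Commute.refl g).mul_right (Commute.refl g))
    refine (t_c3 b hb).2 (h'.inj _ (mul_lt hb hb) _ n (by rw [h'.hm _ hb _ hb, g1, h'.one]))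
      (h'.inj _ (mul_lt (mul_lt n hb) n) _ hb ?_)
    rw [h'.ev3 n hb n, mul_assoc, eq_mul_of_mul_inv_eq g2]; group
  · obtain ⟨b, e⟩ := h'.to3 oy cy
    exact isConj_iff.2 ⟨_, e⟩

theorem exp {g : G} (c : Commute g u) : g ^ 120 = 1 := by
  obtain ⟨a, ha, rfl⟩ := h.sur g c
  rw [← h.zero, ← t_exp a ha, h.pow (pw_lt (pw_lt ha _) _), h.pow (pw_lt ha _), h.pow ha, ← pow_mul,
    ← pow_mul]

theorem e16 [Finite G] (ou : orderOf u = 2)
    (hone : ∀ x y : G, orderOf x = 2 → orderOf y = 2 → IsConj x y) :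
    ∃ (F : Subgroup G) (z : G), u ∈ F ∧ Nat.card F = 16 ∧
    (∀ f ∈ F, f * f = 1) ∧ centralizer (F : Set G) = F ∧
    (∀ v ∈ F, v ≠ 1 → ∃ m ∈ normalizer (F : Set G), m * v * m⁻¹ = u) ∧
    Nat.card ↥(normalizer (F : Set G) ⊓ centralizer ({u} : Set G)) = 192 ∧
    orderOf z = 3 ∧ z ∈ normalizer (F : Set G) ∧ Commute z u := by
  set v := ev 416
  set F : Subgroup G := centralizer {u} ⊓ centralizer {v} with hF
  have mF : ∀ g, g ∈ F ↔ Commute g u ∧ Commute g v := fun g => by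
    simp [hF, mem_centralizer_singleton_iff, commute_iff_eq]
  have c16 : Nat.card F = 16 := (h.count F (fun g hg => ((mF g).1 hg).1) _ fun a ha => by
    rw [SetLike.mem_coe, mF, decide_eq_true_iff, h.comm ha n, and_iff_right (h.cm a)]).trans t_16
  have f2 : ∀ f ∈ F, f * f = 1 := fun f hf => by
    obtain ⟨a, ha, rfl⟩ := h.sur f ((mF f).1 hf).1
    rw [← h.hm a ha a ha, t_v a ha ((h.comm ha n).2 ((mF _).1 hf).2), h.zero]
  have ab : ∀ K : Subgroup G, (∀ f ∈ K, f * f = 1) → ∀ a ∈ K, ∀ b ∈ K, Commute a b :=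
    fun K k a ha b hb => by
      show a * b = b * a
      rw [← inv_eq_of_mul_eq_one_left (k _ (mul_mem ha hb)), mul_inv_rev,
        inv_eq_of_mul_eq_one_left (k a ha), inv_eq_of_mul_eq_one_left (k b hb)]
  have uF : u ∈ F := (mF u).2 ⟨.refl u, (h.cm _).symm⟩
  have vF : v ∈ F := (mF v).2 ⟨h.cm _, .refl v⟩
  -- an element conjugating `F` into the centraliser of `u` and `v` normalises `F`
  have nF : ∀ m : G, (∀ f ∈ F, Commute (m * f * m⁻¹) u ∧ Commute (m * f * m⁻¹) v) →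
      m ∈ normalizer (F : Set G) := fun m hm => mem_normalizer_fintype fun f hf => (mF _).2 (hm f hf)
  have nF' : ∀ m : G, Commute m u → Commute (m * v * m⁻¹) v → m ∈ normalizer (F : Set G) :=
    fun m h1 h2 => by
      rw [← inv_mem_iff]
      refine nF _ fun f hf => ⟨(h1.inv_left.mul_left ((mF f).1 hf).1).mul_left h1.inv_left.inv_left, ?_⟩
      have := (ab F f2 f hf _ ((mF _).2 ⟨(h1.mul_left (h.cm _)).mul_left h1.inv_left, h2⟩)).map
        (MulAut.conj m⁻¹)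
      simpa [mul_assoc] using this
  refine ⟨F, ev 480, uF, c16, f2, le_antisymm (fun g hg => (mF g).2 ⟨(hg u uF).symm, (hg v vF).symm⟩)
    fun g hg f hf => (ab F f2 f hf g hg).eq, fun y hy y1 => ?_, ?_, ?_, nF' _ (h.cm _) ?_, h.cm _⟩
  · obtain ⟨g, hg⟩ := isConj_iff.1 (hone y u (orderOf_eq_prime (by rw [pow_two, f2 y hy]) y1) ou)
    have cu : ∀ f ∈ F, Commute (g * f * g⁻¹) u := fun f hf => by
      simpa [← hg] using (ab F f2 f hf y hy).map (MulAut.conj g)
    have s2 : ∀ f ∈ F, g * f * g⁻¹ * (g * f * g⁻¹) = 1 := fun f hf => by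
      rw [conj_mul, f2 f hf]; simp
    obtain ⟨f, hf, k, hk, e⟩ : ∃ f ∈ F, ∃ k, Commute k u ∧ k * v * k⁻¹ = g * f * g⁻¹ := by
      by_contra! hh
      have c12 := (h.count {x | ∃ a < 32, mul a a = 0 ∧ ev a = x} (by
        rintro _ ⟨a, -, -, rfl⟩; exact h.cm a) _ fun a ha => by
          rw [decide_eq_true_iff]
          exact ⟨fun ⟨b, hb, b2, e⟩ => h.inj _ (by omega) _ ha e ▸ ⟨hb, b2⟩,
            fun k => ⟨a, k.1, k.2, rfl⟩⟩).trans t_12
      have := Nat.card_le_card_of_injective (α := F) (β := {x | ∃ a < 32, mul a a = 0 ∧ ev a = x})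
        (fun f => ⟨g * f * g⁻¹, by
          obtain ⟨a, ha, e⟩ := h.sur _ (cu f f.2)
          have a2 : mul a a = 0 := h.inj _ (mul_lt ha ha) _ n (by
            rw [h.hm a ha a ha, e, s2 f f.2, h.zero])
          rcases t_two a ha a2 with k | k
          · exact ⟨a, k, a2, e⟩
          · exact absurd ((h.cwe ha n k).trans e) (hh f f.2 _ (h.cm _))⟩)
        fun a b e => by simpa using e
      omega
    refine ⟨k⁻¹ * g, nF _ fun f' hf' => ⟨?_, ?_⟩, ?_⟩
    · simpa [mul_assoc] using (hk.inv_left.mul_left (cu f' hf')).mul_left hk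
    · have := (ab F f2 f' hf' f hf).map (MulAut.conj (k⁻¹ * g))
      have e' : k⁻¹ * g * f * (k⁻¹ * g)⁻¹ = v := by
        calc _ = k⁻¹ * (g * f * g⁻¹) * k := by group
          _ = _ := by rw [← e]; group
      rwa [MulAut.conj_apply, MulAut.conj_apply, e'] at this
    · calc _ = k⁻¹ * (g * y * g⁻¹) * k := by group
        _ = _ := by rw [hg, mul_assoc, ← hk.eq]; group
  · refine (h.count _ (fun g hg => mem_centralizer_singleton_iff.1 hg.2) _ fun a ha => ?_).trans t_192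
    rw [decide_eq_true_iff, h.comm (mul_lt (mul_lt ha n) (t_iv a ha).1) n, h.ev3 ha n (t_iv a ha).1,
      h.inv ha]
    exact ⟨fun k => ((mF _).1 ((mem_normalizer_iff.1 k.1 v).1 vF)).2,
      fun k => ⟨nF' _ (h.cm a) k, mem_centralizer_singleton_iff.2 (h.cm a).eq⟩⟩
  · have : Fact (Nat.Prime 3) := ⟨by norm_num⟩
    refine orderOf_eq_prime ?_ fun e => ?_
    · rw [← h.pow n, show pw 480 3 = 0 by decide +kernel, h.zero]
    · exact absurd (h.inj _ n _ n (e.trans h.zero.symm)) (by norm_num)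
  · rw [← h.inv n, ← h.ev3 n n (t_iv _ n).1]
    exact (h.comm (mul_lt (mul_lt n n) (t_iv _ n).1) n).1 (by decide +kernel)

end Md

theorem ex_md [Finite G] (hone : ∀ x y : G, orderOf x = 2 → orderOf y = 2 → IsConj x y)
    (t : G) (ht : orderOf t = 2) (E A : Subgroup ↥(centralizer ({t} : Set G))) [E.Normal]
    (hE : Cfsg.IsExtraspecial 2 ↥E) (hE32 : Nat.card ↥E = 32) (hEA : E.IsComplement' A)
    (eA : ↥A ≃* ↥(alternatingGroup (Fin 5))) (u : G) (hu : orderOf u = 2) : ∃ ev, Md u ev := by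
  have t1 : t ≠ 1 := by rintro rfl; simp at ht
  have tt : t * t = 1 := by rw [← pow_two, ← ht, pow_orderOf_eq_one]
  let z : centralizer ({t} : Set G) := ⟨t, mem_centralizer_singleton_iff.2 rfl⟩
  have h : St z E A := ⟨fun e => t1 (congrArg Subtype.val e), Subtype.ext tt, fun g =>
    Subtype.ext (mem_centralizer_singleton_iff.1 g.2).symm, ‹_›, hE, hE32, hEA, ⟨eA⟩⟩
  obtain ⟨ev, h1, h2, h3, h4⟩ := h.model fun hc => by
    obtain ⟨⟨a, ha⟩, oa⟩ := exists_prime_orderOf_dvd_card' (G := A) 2 (by rw [h.c60]; norm_num)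
    rw [orderOf_mk, ← orderOf_coe] at oa
    obtain ⟨x, hx, xx⟩ := h.ex4
    obtain ⟨g, hg⟩ := isConj_iff.1 (hone a t oa ht)
    have xx' : (x : G) * x = t := congrArg Subtype.val xx
    have cy : g * x * g⁻¹ ∈ centralizer ({t} : Set G) := mem_centralizer_singleton_iff.2 (by
      have : Commute (g * x * g⁻¹) (g * a * g⁻¹) :=
        ((hc a ha x hx).symm.map (centralizer ({t} : Set G)).subtype).map (MulAut.conj g)
      rwa [hg] at this)
    have yy : g * x * g⁻¹ * (g * x * g⁻¹) = g * t * g⁻¹ := by rw [conj_mul, xx']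
    rcases h.sq_of_cent hc ⟨_, cy⟩ (Subtype.ext (by
      show (g * x * g⁻¹) ^ 4 = 1
      rw [show 4 = 2 * 2 from rfl, pow_mul, pow_two (g * _ * _), yy, pow_two, conj_mul, tt]
      simp)) with e | e
    · exact t1 (by simpa using yy.symm.trans (congrArg Subtype.val e))
    · have e1 : (a : G) = t := by
        simpa using hg.trans (yy.symm.trans (congrArg Subtype.val e)).symm
      exact h.z1 (h.disj h.zE (by rwa [show z = a from Subtype.ext e1.symm]))
  have hb := ((Nat.bijective_iff_surjective_and_card fun a : Fin 1920 => ev a).2 ⟨fun g => by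
    obtain ⟨a, ha, e⟩ := h2 g
    exact ⟨⟨a, ha⟩, e⟩, by rw [h3]; simp⟩).1
  have m : Md t fun a => ev a := ⟨fun a ha b hb => by rw [h1 a ha b hb]; rfl, fun g hg => by
    obtain ⟨a, ha, e⟩ := h2 ⟨g, mem_centralizer_singleton_iff.2 hg⟩
    exact ⟨a, ha, by rw [e]⟩, fun a => mem_centralizer_singleton_iff.1 (ev a).2,
    fun a ha b hb' e => congrArg Fin.val (@hb ⟨a, ha⟩ ⟨b, hb'⟩ (Subtype.ext e)), by rw [h4]⟩
  obtain ⟨g, rfl⟩ := isConj_iff.1 (hone t u ht hu)
  exact ⟨_, m.conj g⟩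

theorem model [Finite G] (hone : ∀ x y : G, orderOf x = 2 → orderOf y = 2 → IsConj x y)
    (t : G) (ht : orderOf t = 2) (E A : Subgroup ↥(centralizer ({t} : Set G))) [E.Normal]
    (hE : Cfsg.IsExtraspecial 2 ↥E) (hE32 : Nat.card ↥E = 32) (hEA : E.IsComplement' A)
    (eA : ↥A ≃* ↥(alternatingGroup (Fin 5))) : H4.J3.HF G := by
  choose ev hev using ex_md hone t ht E A hE hE32 hEA eA
  refine ⟨hone, fun u hu => (hev u hu).card, fun u w hu => (hev u hu).five,
    fun u w hu => (hev u hu).three, fun g hg => ?_, ?_⟩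
  · have o : orderOf (g ^ 8) = 2 := by rw [orderOf_pow, hg]; rfl
    have := orderOf_dvd_of_pow_eq_one ((hev _ o).exp (Commute.self_pow g 8))
    rw [hg] at this
    norm_num at this
  · obtain ⟨F, z, k⟩ := (hev t ht).e16 ht hone
    exact ⟨t, F, z, ht, k⟩

end Cfsg.Agent.H8.J3
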