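import Cfsg.Agent.H7.TT10

/-! Coprime action on orbits of a `p`-group, a pairing bound, and fixed points of a Sylow subgroup of prime order. -/

set_option autoImplicit false
set_option linter.unusedSectionVars false

namespace Cfsg.Agent.H8

open Finset MulAction Cfsg.Agent.H7
open scoped Classical commutatorElement

theorem fix_on {X : Type*} {S : Set X} [Finite S] (f : X → X) (hf : ∀ y ∈ S, f y ∈ S) {r k p j : ℕ} (hr : r.Prime)
    (hp : p.Prime) (hne : r ≠ p) (h1 : ∀ y ∈ S, f^[r ^ k] y = y) (h2 : Nat.card S = p ^ j) : ∃ y ∈ S, f y = y := by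
  have := Fact.mk hr
  have := Fintype.ofFinite S
  let g : Function.End S := fun y => ⟨f y, hf y y.2⟩
  have k1 : ∀ n (y : S), ((g ^ n) y : X) = f^[n] y := fun n => by
    induction n with
    | zero => intro y; rfl
    | succ n ih => intro y; rw [pow_succ, Function.iterate_succ_apply]; exact ih (g y)
  have h3 := Equiv.Perm.card_fixedPoints_modEq (f := g) (p := r) (n := k) (funext fun y => Subtype.ext ((k1 _ y).trans (h1 y y.2)))
  by_contra! h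
  have : IsEmpty (Function.fixedPoints g) := ⟨fun y => h y.1 y.1.2 (congrArg Subtype.val y.2)⟩
  rw [Fintype.card_eq_zero (α := Function.fixedPoints g), ← Nat.card_eq_fintype_card, h2] at h3
  exact hne ((Nat.prime_dvd_prime_iff_eq hr hp).1 (hr.dvd_of_dvd_pow (Nat.modEq_zero_iff_dvd.1 h3)))

variable {G Ω : Type*} [Group G] [Finite G] [MulAction G Ω] [Finite Ω]

theorem GL_aux {p : ℕ} [hp : Fact p.Prime] {A M : Subgroup G} (hM : IsPGroup p M) (hc : ∀ a ∈ A, ∀ b ∈ A, a * b = b * a)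
    (hn : ∀ a ∈ A, ∀ m ∈ M, a * m * a⁻¹ ∈ M) {x : Ω} (hx : ∀ a ∈ A, a • x ∈ orbit M x) (s : List G)
    (hs : ∀ a ∈ s, a ∈ A ∧ ∃ r k : ℕ, r.Prime ∧ r ≠ p ∧ a ^ r ^ k = 1) :
    (∃ y ∈ orbit M x, ∀ a ∈ s, a • y = y) ∧ ∀ y ∈ orbit M x, ∀ z ∈ orbit M x, (∀ a ∈ s, a • y = y) →
      (∀ a ∈ s, a • z = z) → ∃ c ∈ M, (∀ a ∈ s, a * c = c * a) ∧ c • y = z := by
  induction s with
  | nil =>
    refine ⟨⟨x, mem_orbit_self x, by simp⟩, fun y hy z hz _ _ => ?_⟩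
    obtain ⟨u, hu, rfl⟩ := mem_orb.1 hy
    obtain ⟨v, hv, rfl⟩ := mem_orb.1 hz
    exact ⟨v * u⁻¹, mul_mem hv (inv_mem hu), by simp, by simp [mul_smul]⟩
  | cons a s ih =>
    obtain ⟨⟨y0, h0, h1⟩, h2⟩ := ih fun b hb => hs b (List.mem_cons_of_mem _ hb)
    obtain ⟨ha, r, k, hr, hne, hk⟩ := hs a List.mem_cons_self
    have hs' : ∀ b ∈ s, b * a = a * b := fun b hb => hc b (hs b (List.mem_cons_of_mem _ hb)).1 a ha
    let C := M ⊓ Subgroup.centralizer {b | b ∈ s}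
    have hC : IsPGroup p C := hM.to_le inf_le_left
    refine ⟨?_, fun y hy z hz k1 k2 => ?_⟩
    · obtain ⟨j, hj⟩ := ob_pow hC y0
      have e : orbit C y0 = {y | y ∈ orbit M x ∧ ∀ b ∈ s, b • y = y} := Set.ext fun y => ⟨fun h => by
        obtain ⟨c, h3, rfl⟩ := mem_orb.1 h
        obtain ⟨u, hu, rfl⟩ := mem_orb.1 h0
        exact ⟨mem_orb.2 ⟨_, mul_mem h3.1 hu, mul_smul _ _ _⟩, fun b hb => by rw [← mul_smul b, h3.2 b hb, mul_smul, h1 b hb]⟩,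
        fun h => let ⟨c, h3, h4, h5⟩ := h2 y0 h0 y h.1 h1 h.2; mem_orb.2 ⟨c, ⟨h3, h4⟩, h5⟩⟩
      rw [ob, e] at hj
      obtain ⟨y, h3, h4⟩ := fix_on (S := {y | y ∈ orbit M x ∧ ∀ b ∈ s, b • y = y}) (a • ·) (fun y hy => ⟨by
          obtain ⟨u, hu, rfl⟩ := mem_orb.1 hy.1
          obtain ⟨v, hv, e⟩ := mem_orb.1 (hx a ha)
          exact mem_orb.2 ⟨_, mul_mem (hn a ha u hu) hv, by simp [mul_smul, e]⟩,
        fun b hb => by rw [← mul_smul, hs' b hb, mul_smul, hy.2 b hb]⟩) hr hp.out hne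
        (fun y _ => by rw [smul_iterate, hk]; exact one_smul _ y) hj
      exact ⟨y, h3.1, by simpa using ⟨h4, h3.2⟩⟩
    · obtain ⟨c, h3, h4, h5⟩ := h2 y hy z hz (fun b hb => k1 b (List.mem_cons_of_mem _ hb)) fun b hb => k2 b (List.mem_cons_of_mem _ hb)
      obtain ⟨j, hj⟩ := (hC.to_le (inf_le_left (b := stabilizer G y))).exists_card_eq
      have e : Nat.card {d | d ∈ C ∧ d • y = z} = p ^ j := hj ▸ Nat.card_congr
        ⟨fun d => ⟨c⁻¹ * d, mul_mem (C.inv_mem ⟨h3, h4⟩) d.2.1, show _ • y = y by rw [mul_smul, d.2.2, ← h5, inv_smul_smul]⟩,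
          fun d => ⟨c * d, C.mul_mem ⟨h3, h4⟩ d.2.1, by rw [mul_smul, d.2.2, h5]⟩, fun d => by simp, fun d => by simp⟩
      have k3 : ∀ n (d : G), (fun d => a * d * a⁻¹)^[n] d = a ^ n * d * (a ^ n)⁻¹ := fun n d => by
        induction n with
        | zero => simp
        | succ n ih => rw [Function.iterate_succ_apply', ih, pow_succ']; group
      obtain ⟨d, h6, h7⟩ := fix_on (S := {d | d ∈ C ∧ d • y = z}) (fun d => a * d * a⁻¹) (fun d hd => ⟨⟨hn a ha d hd.1.1, fun b hb => by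
          have := hd.1.2 b hb
          calc b * (a * d * a⁻¹) = a * (b * d) * a⁻¹ := by rw [← mul_assoc, ← mul_assoc, hs' b hb]; group
            _ = a * d * (a⁻¹ * (a * b) * a⁻¹) := by rw [this]; group
            _ = _ := by rw [← hs' b hb]; group⟩,
        by rw [mul_smul, mul_smul, inv_smul_eq_iff.2 (k1 a List.mem_cons_self).symm, hd.2, k2 a List.mem_cons_self]⟩) hr hp.out hne
        (fun d _ => by rw [k3, hk]; simp) e
      exact ⟨d, h6.1.1, by simpa using ⟨mul_inv_eq_iff_eq_mul.1 h7, h6.1.2⟩, h6.2⟩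

theorem le_of_primePow {p : ℕ} {A S : Subgroup G} (hA : ¬ p ∣ Nat.card A)
    (h : ∀ a ∈ A, ∀ r k : ℕ, r.Prime → r ≠ p → a ^ r ^ k = 1 → a ∈ S) : A ≤ S := by
  refine Subgroup.subgroupOf_eq_top.1 (Subgroup.index_eq_one.1 (by_contra fun h1 => ?_))
  obtain ⟨r, hr, h2⟩ := Nat.exists_prime_and_dvd h1
  have := Fact.mk hr
  obtain ⟨P⟩ : Nonempty (Sylow r A) := inferInstance
  refine P.not_dvd_index (h2.trans (Subgroup.index_dvd_of_le fun a ha => ?_))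
  obtain ⟨k, hk⟩ := P.isPGroup' ⟨a, ha⟩
  exact h a a.2 r k hr (by rintro rfl; exact hA (h2.trans (Subgroup.index_dvd_card _))) (congrArg (·.1.1) hk)

/-- Glauberman's lemma for an abelian group acting on a `p`-group. -/
theorem glaub {p : ℕ} [Fact p.Prime] {A M : Subgroup G} (hM : IsPGroup p M) (hA : ¬ p ∣ Nat.card A)
    (hc : ∀ a ∈ A, ∀ b ∈ A, a * b = b * a) (hn : ∀ a ∈ A, ∀ m ∈ M, a * m * a⁻¹ ∈ M) {x : Ω}
    (hx : ∀ a ∈ A, a • x ∈ orbit M x) :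
    (∃ y ∈ orbit M x, ∀ a ∈ A, a • y = y) ∧ ∀ y ∈ orbit M x, ∀ z ∈ orbit M x, (∀ a ∈ A, a • y = y) →
      (∀ a ∈ A, a • z = z) → ∃ c ∈ M, (∀ a ∈ A, a * c = c * a) ∧ c • y = z := by
  have := Fintype.ofFinite G
  have k : ∀ a, a ∈ (univ.filter fun a => a ∈ A ∧ ∃ r k : ℕ, r.Prime ∧ r ≠ p ∧ a ^ r ^ k = 1).toList ↔
      a ∈ A ∧ ∃ r k : ℕ, r.Prime ∧ r ≠ p ∧ a ^ r ^ k = 1 := by simp
  obtain ⟨⟨y, h1, h2⟩, h3⟩ := GL_aux hM hc hn hx _ fun a => (k a).1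
  refine ⟨⟨y, h1, le_of_primePow (S := stabilizer G y) hA fun a ha r j h4 h5 h6 => h2 a ((k a).2 ⟨ha, r, j, h4, h5, h6⟩)⟩,
    fun y hy z hz k1 k2 => ?_⟩
  obtain ⟨c, h4, h5, h6⟩ := h3 y hy z hz (fun a ha => k1 a ((k a).1 ha).1) fun a ha => k2 a ((k a).1 ha).1
  exact ⟨c, h4, fun a ha => Subgroup.mem_centralizer_singleton_iff.1 (le_of_primePow hA (fun a ha r j h7 h8 h9 =>
    Subgroup.mem_centralizer_singleton_iff.2 (h5 a ((k a).2 ⟨ha, r, j, h7, h8, h9⟩))) ha), h6⟩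

theorem exists_char2 {H : Type*} [CommGroup H] [Finite H] {C : Subgroup H} {u v : H} (hu : u ∉ C) (hv : v ∉ C) :
    ∃ l : H →* ℂ, l u ≠ 1 ∧ l v ≠ 1 ∧ ∀ u ∈ C, l u = 1 := by
  obtain ⟨s, -, h2, h3, h4⟩ := exists_chars C (by simp [commutator_eq_bot])
  by_contra! h
  have h5 : ∑ l ∈ s, (1 - l u - l v + l (u * v)) = 0 := sum_eq_zero fun l hl => by
    have : (1 - l u) * (1 - l v) = 0 := by
      by_contra h6
      obtain ⟨h7, h8⟩ := mul_ne_zero_iff.1 h6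
      obtain ⟨w, h9, h10⟩ := h l (sub_ne_zero.1 h7).symm (sub_ne_zero.1 h8).symm
      exact h10 (h4 l hl w h9)
    rw [map_mul]; linear_combination this
  simp only [sum_add_distrib, sum_sub_distrib, h3, if_neg hu, if_neg hv, sum_const, h2, nsmul_eq_mul] at h5
  have h6 : (C.index : ℂ) ≠ 0 := Nat.cast_ne_zero.2 Subgroup.index_ne_zero_of_finite
  split_ifs at h5
  · exact h6 (by linear_combination h5 / 2)
  · exact h6 (by linear_combination h5)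

/-- The pairing bound. -/
theorem pairB {M V Z X1 X2 : Subgroup G} (hZ : Z ≤ V) (hV : V ≤ M) (hc : ∀ z ∈ Z, ∀ m ∈ M, z * m = m * z)
    (hab : ∀ v ∈ V, ∀ w ∈ V, v * w = w * v) (h1 : ∀ m ∈ M, ∀ v ∈ V, ⁅m, v⁆ ∈ Z) (hX1 : X1 ≤ Z) (hX2 : X2 ≤ Z)
    (h2 : ∀ v ∈ V, v ∉ Z → (∀ z ∈ X1, ∃ m ∈ M, ⁅m, v⁆ = z) ∨ ∀ z ∈ X2, ∃ m ∈ M, ⁅m, v⁆ = z) {x : Ω}
    (k1 : ¬ X1 ≤ stabilizer G x) (k2 : ¬ X2 ≤ stabilizer G x) : Nat.card V * ob Z x ≤ ob M x * Nat.card Z := by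
  let _ : CommGroup Z := { (inferInstance : Group Z) with mul_comm := fun a b => Subtype.ext (hc _ a.2 _ (hV (hZ b.2))) }
  obtain ⟨u1, hu1, k3⟩ := SetLike.not_le_iff_exists.1 k1
  obtain ⟨u2, hu2, k4⟩ := SetLike.not_le_iff_exists.1 k2
  obtain ⟨l, l1, l2, h4⟩ := exists_char2 (C := (stabilizer G x).subgroupOf Z) (u := ⟨u1, hX1 hu1⟩) (v := ⟨u2, hX2 hu2⟩) k3 k4
  let χ : M → ↥(V ⊓ stabilizer G x) → ℂ := fun a y => l ⟨⁅a.1, y.1⁆, h1 _ a.2 _ y.2.1⟩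
  have := char_pair χ (fun a b y => by
      rw [← map_mul]; refine congrArg l (Subtype.ext ?_)
      have := hc _ (h1 _ b.2 _ y.2.1) _ a.2
      calc ⁅a.1 * b.1, y.1⁆ = a.1 * ⁅b.1, y.1⁆ * a.1⁻¹ * ⁅a.1, y.1⁆ := by group
        _ = ⁅b.1, y.1⁆ * ⁅a.1, y.1⁆ := by rw [← this]; group
        _ = _ := hc _ (h1 _ b.2 _ y.2.1) _ (hV (hZ (h1 _ a.2 _ y.2.1))))
    (fun a y z => by
      rw [← map_mul]; refine congrArg l (Subtype.ext ?_)
      have := hc _ (h1 _ a.2 _ z.2.1) _ (hV y.2.1)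
      calc ⁅a.1, y.1 * z.1⁆ = ⁅a.1, y.1⁆ * (y.1 * ⁅a.1, z.1⁆ * y.1⁻¹) := by group
        _ = _ := by rw [← this]; simp)
    (fun a => (congrArg l (Subtype.ext (by simp))).trans (map_one l))
    (fun a => (congrArg l (Subtype.ext (by simp))).trans (map_one l))
  have h5 : Nat.card {y // ∀ a, χ a y = 1} ≤ Nat.card ↥(Z ⊓ stabilizer G x) :=
    Nat.card_le_card_of_injective (fun y => ⟨y.1.1, by_contra fun hz => by
      rcases h2 _ y.1.2.1 hz with h | h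
      · obtain ⟨m, hm, e⟩ := h _ hu1; exact l1 (by simpa [χ, e] using y.2 ⟨m, hm⟩)
      · obtain ⟨m, hm, e⟩ := h _ hu2; exact l2 (by simpa [χ, e] using y.2 ⟨m, hm⟩), y.1.2.2⟩)
      fun a b e => Subtype.ext (Subtype.ext (congrArg (·.1) e))
  have h6 : ob V x * Nat.card ↥(M ⊓ stabilizer G x) ≤ Nat.card {a // ∀ y, χ a y = 1} := by
    choose v hv hv' using fun y : orbit V x => mem_orb.1 y.2
    rw [ob, ← Nat.card_prod]
    refine Nat.card_le_card_of_injective (fun p => ⟨⟨v p.1 * p.2, mul_mem (hV (hv _)) p.2.2.1⟩, fun y => h4 _ ?_⟩)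
      fun p p' e => ?_
    · have : ⁅v p.1 * p.2.1, y.1⁆ = ⁅p.2.1, y.1⁆ := by
        calc _ = v p.1 * ⁅p.2.1, y.1⁆ * (v p.1)⁻¹ * (v p.1 * y.1 * (v p.1)⁻¹ * y.1⁻¹) := by group
          _ = _ := by rw [hab _ (hv _) _ y.2.1, ← hc _ (h1 _ p.2.2.1 _ y.2.1) _ (hV (hv _))]; group
      simp only [Subgroup.mem_subgroupOf, this]
      exact mul_mem (mul_mem (mul_mem p.2.2.2 y.2.2) (inv_mem p.2.2.2)) (inv_mem y.2.2)
    · have e1 : v p.1 * p.2.1 = v p'.1 * p'.2.1 := congrArg (·.1.1) e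
      have e2 : p.1 = p'.1 := Subtype.ext (by
        have := congrArg (· • x) e1
        simpa [mul_smul, mem_stabilizer_iff.1 p.2.2.2, mem_stabilizer_iff.1 p'.2.2.2, hv'] using this)
      exact Prod.ext e2 (Subtype.ext (by simpa [e2] using e1))
  have h7 : Nat.card V ≤ ob M x * Nat.card ↥(Z ⊓ stabilizer G x) := by
    refine Nat.le_of_mul_le_mul_right ?_ (Nat.card_pos (α := ↥(M ⊓ stabilizer G x)))
    calc _ = Nat.card ↥(V ⊓ stabilizer G x) * (ob V x * Nat.card ↥(M ⊓ stabilizer G x)) := by rw [← ob_mul V x]; ring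
      _ ≤ _ := Nat.mul_le_mul_left _ h6
      _ ≤ Nat.card M * Nat.card ↥(Z ⊓ stabilizer G x) := this ▸ Nat.mul_le_mul_left _ h5
      _ = _ := by rw [← ob_mul M x]; ring
  rw [← ob_mul Z x]
  nlinarith

theorem card_le_of_co {A B : Subgroup G} {F : Type*} [Finite F] (co : A → F) (h : ∀ a a', co a = co a' → a.1⁻¹ * a'.1 ∈ B) :
    Nat.card A ≤ Nat.card F * Nat.card B := by
  have hs : ∀ a, co (Function.invFun co (co a)) = co a := fun a => Function.invFun_eq ⟨a, rfl⟩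
  rw [← Nat.card_prod]
  refine Nat.card_le_card_of_injective (fun a => (co a, ⟨_, h _ _ (hs a)⟩)) fun a b e => ?_
  have e1 : co a = co b := congrArg Prod.fst e
  exact Subtype.ext (by simpa [e1] using congrArg (·.2.1) e)

theorem conj_zpowers {p : ℕ} (hp : p.Prime) (h2 : ¬ p ^ 2 ∣ Nat.card G) {a b : G} (ha : orderOf a = p) (hb : orderOf b = p) :
    ∃ k : G, k * b * k⁻¹ ∈ Subgroup.zpowers a := by
  have := Fact.mk hp
  have h3 : (Nat.card G).factorization p = 1 := le_antisymm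
    (by_contra fun h => h2 ((hp.pow_dvd_iff_le_factorization Nat.card_pos.ne').2 (by omega)))
    ((hp.dvd_iff_one_le_factorization Nat.card_pos.ne').1 (ha ▸ orderOf_dvd_natCard a))
  obtain ⟨k, hk⟩ := exists_smul_eq G (Sylow.ofCard (p := p) (Subgroup.zpowers b) (by rw [h3, Nat.card_zpowers, hb, pow_one]))
    (Sylow.ofCard (p := p) (Subgroup.zpowers a) (by rw [h3, Nat.card_zpowers, ha, pow_one]))
  refine ⟨k, ?_⟩
  have h4 := congrArg (·.1) hk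
  simp only [Sylow.coe_subgroup_smul, Sylow.coe_ofCard] at h4
  exact h4 ▸ Subgroup.smul_mem_pointwise_smul _ _ _ (Subgroup.mem_zpowers b)

/-- Few fixed points for a self-centralising Sylow subgroup of prime order. -/
theorem witt (h : TT G Ω) {p : ℕ} (hp : p.Prime) (h2 : ¬ p ^ 2 ∣ Nat.card G) {σ : G} (ho : orderOf σ = p)
    (hC : ∀ c, c * σ = σ * c → c ∈ Subgroup.zpowers σ) :
    Nat.card (fixedBy Ω σ) * Nat.card (fixedBy Ω σ) - Nat.card (fixedBy Ω σ) ≤ p := by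
  have := Fintype.ofFinite (fixedBy Ω σ)
  have := Fintype.ofFinite (Subgroup.zpowers σ)
  rw [Nat.card_eq_fintype_card, ← card_univ, ← offDiag_card, ← ho, ← Nat.card_zpowers, Nat.card_eq_fintype_card, ← card_univ]
  rcases (univ : Finset (fixedBy Ω σ)).offDiag.eq_empty_or_nonempty with e | ⟨a, ha⟩
  · simp [e]
  have k : ∀ b : fixedBy Ω σ × fixedBy Ω σ, ∃ g : G, g * σ * g⁻¹ ∈ Subgroup.zpowers σ ∧
      (b ∈ univ.offDiag → g • a.1.1 = b.1 ∧ g • a.2.1 = b.2) := fun b => by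
    by_cases hb : b ∈ univ.offDiag
    swap
    · exact ⟨1, by simp, fun h => (hb h).elim⟩
    obtain ⟨g, h3, h4⟩ := h.move a.1 a.2 b.1 b.2 (fun e => (mem_offDiag.1 ha).2.2 (Subtype.ext e))
      fun e => (mem_offDiag.1 hb).2.2 (Subtype.ext e)
    obtain ⟨k, hk⟩ := conj_zpowers (G := ↥(stabilizer G b.1.1 ⊓ stabilizer G b.2.1)) hp
      (fun h => h2 (h.trans (Subgroup.card_subgroup_dvd_card _))) (a := ⟨σ, b.1.2, b.2.2⟩)
      (b := ⟨g * σ * g⁻¹, by simp [← h3, mul_smul, mem_fixedBy.1 a.1.2], by simp [← h4, mul_smul, mem_fixedBy.1 a.2.2]⟩)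
      (by rw [← Subgroup.orderOf_coe, ho]) (by rw [← Subgroup.orderOf_coe, ← ho]; exact (MulAut.conj g).orderOf_eq σ)
    obtain ⟨j, hj⟩ := hk
    refine ⟨k * g, ⟨j, (congrArg Subtype.val hj).trans (by simp [mul_assoc])⟩, fun _ => ?_⟩
    rw [mul_smul, mul_smul, h3, h4]; exact k.2
  choose g hg hg' using k
  refine card_le_card_of_injOn (fun b => ⟨_, hg b⟩) (by simp) fun b hb c hc e => ?_
  obtain ⟨j, hj⟩ := hC ((g c)⁻¹ * g b) (by
    have : g b * σ * (g b)⁻¹ = g c * σ * (g c)⁻¹ := congrArg Subtype.val e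
    calc _ = (g c)⁻¹ * (g b * σ * (g b)⁻¹) * g b := by group
      _ = _ := by rw [this]; group)
  have k : ∀ y : fixedBy Ω σ, g b • y.1 = g c • y.1 := fun y => by
    rw [← inv_smul_eq_iff, ← mul_smul, ← hj]; exact fixedBy_subset_fixedBy_zpow Ω σ j y.2
  exact Prod.ext (Subtype.ext (by rw [← (hg' b hb).1, ← (hg' c hc).1, k])) (Subtype.ext (by rw [← (hg' b hb).2, ← (hg' c hc).2, k]))

end Cfsg.Agent.H8
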