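import Cfsg.Agent.H8.TE0
import Cfsg.Agent.H8.Poin
import Cfsg.Agent.H8.Expo
import Cfsg.Agent.H7.Parab

/-! Root subgroups in a doubly transitive action. -/

set_option autoImplicit false
set_option linter.unusedSectionVars false

namespace Cfsg.Agent.H8

open Cfsg.Lie MulAction Cfsg.Agent.H7
open scoped commutatorElement

variable {D : ChevalleyDatum} {K : Type*} [Field K] {G : Type*} [Group G] {x : ℕ → K → G} [hD : RootFacts D]
  {z nz : ℤ → Bool} {r s : ℕ}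

variable (D) in
/-- The commutator terms whose coefficient is not known to vanish. -/
def ctF (z : ℤ → Bool) (r s : ℕ) : List (ℕ × ℤ × ℕ × ℕ) := (D.commTerms r s).filter fun c => !z c.2.1

variable (D) in
/-- The commutators of the root groups lie in the group of `S`. -/
abbrev Cin (z : ℤ → Bool) (S : List ℕ) (r s : ℕ) : Prop := s = r ∨ s ≠ D.neg r ∧ ∀ c ∈ ctF D z r s, c.1 ∈ S

variable (D) in
/-- The commutator is a single bilinear term. -/
abbrev C1 (z nz : ℤ → Bool) (k r s : ℕ) : Prop :=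
  s ≠ r ∧ s ≠ D.neg r ∧ ∃ c ∈ ctF D z r s, ctF D z r s = [(k, c.2.1, 1, 1)] ∧ nz c.2.1 = true

variable (D) in
/-- A root group in the centre of `U`. -/
abbrev Cen (z : ℤ → Bool) (k : ℕ) : Prop := D.IsPosRoot k ∧ ∀ r < D.nroots, D.IsPosRoot r → Cin D z [] r k

theorem br_eq (hx : IsSt D x) (hz : ∀ c, z c = true → (c : K) = 0) (h1 : s ≠ r) (h2 : s ≠ D.neg r) (t u : K) :
    ⁅x s u, x r t⁆ = ev x ((ctF D z r s).map fun c => (c.1, c.2.1 * t ^ c.2.2.1 * (-u) ^ c.2.2.2)) := by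
  have := hx.comm' h1 h2 (-t) (-u)
  simp only [hx.neg, inv_inv, ChevalleyDatum.commWord, neg_neg] at this
  rw [commutatorElement_def, this, ctF]
  induction D.commTerms r s with
  | nil => rfl
  | cons c l ih => cases h : z c.2.1 <;> simp [h, ih, hz, hx.zero]

theorem Cin.mem {S : List ℕ} (h : Cin D z S r s) (hx : IsSt D x) (hz : ∀ c, z c = true → (c : K) = 0) (t u : K) :
    ⁅x s u, x r t⁆ ∈ XS x {k | k ∈ S} := by
  rcases h with rfl | ⟨h1, h2⟩
  · simp [(hx.commute_self s u t).commutator_eq]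
  by_cases h : s = r
  · simp [h, (hx.commute_self r u t).commutator_eq]
  rw [br_eq hx hz h h1]
  exact ev_mem_XS fun p hp => by obtain ⟨c, hc, rfl⟩ := List.mem_map.1 hp; exact h2 c hc

theorem Cin.commute (h : Cin D z [] r s) (hx : IsSt D x) (hz : ∀ c, z c = true → (c : K) = 0) (t u : K) :
    Commute (x r t) (x s u) := (commutatorElement_eq_one_iff_commute.1 (by simpa [XS_empty] using h.mem hx hz t u)).symm

theorem C1.eq {k : ℕ} (h : C1 D z nz k r s) (hx : IsSt D x) (hz : ∀ c, z c = true → (c : K) = 0)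
    (hn : ∀ c, nz c = true → (c : K) ≠ 0) : ∃ c ≠ 0, ∀ t u, ⁅x s u, x r t⁆ = x k (c * t * u) := by
  obtain ⟨h1, h2, c, -, h3, h4⟩ := h
  exact ⟨-c.2.1, neg_ne_zero.2 (hn _ h4), fun t u => by rw [br_eq hx hz h1 h2, h3]; simp⟩

omit hD [Field K] in
theorem commute_XS {S T : Set ℕ} (h : ∀ r ∈ S, ∀ s ∈ T, ∀ t u, Commute (x r t) (x s u)) {a b : G} (ha : a ∈ XS x S)
    (hb : b ∈ XS x T) : Commute a b :=
  Subgroup.mem_centralizer_singleton_iff.1 (XS_le.2 (fun r hr t => Subgroup.mem_centralizer_singleton_iff.2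
    (Subgroup.mem_centralizer_singleton_iff.1 (XS_le.2 (fun s hs u => Subgroup.mem_centralizer_singleton_iff.2
      (h r hr s hs t u).symm) hb)).symm) ha)

theorem Cen.commute (h : Cen D z s) (hx : IsSt D x) (hz : ∀ c, z c = true → (c : K) = 0) {u v : G} (hu : u ∈ UU D x)
    (hv : v ∈ XS x {s}) : Commute u v :=
  commute_XS (fun r hr _ hs t u => hs ▸ (h.2 r hr.1 hr).commute hx hz t u) hu hv

variable [hN : NFacts D]

theorem Cen.conj (h : Cen D z s) (hx : IsSt D x) (hz : ∀ c, z c = true → (c : K) = 0) :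
    ∀ g ∈ BB D x, ∀ v ∈ XS x {s}, g * v * g⁻¹ ∈ XS x {s} := fun g hg v hv => by
  obtain ⟨u, hu, a, ha, rfl⟩ := hx.mem_BB.1 hg
  have := hx.HH_conj_XS ha hv
  rwa [show u * a * v * (u * a)⁻¹ = u * (a * v * a⁻¹) * u⁻¹ by group, (h.commute hx hz hu this).eq, mul_inv_cancel_right]

theorem card_comm (hx : IsFaith D x) {L : List ℕ} (hL : L.Nodup) (hp : ∀ k ∈ L, D.IsPosRoot k)
    (h : ∀ r ∈ L, ∀ s ∈ L, ∀ t u, Commute (x r t) (x s u)) : Nat.card (XS x {k | k ∈ L}) = Nat.card K ^ L.length := by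
  classical
  have hn : NilFam x {k | k ∈ L} id D.nroots := ⟨fun r _ => hx.add r, fun _ _ _ _ e => e, fun r hr => (hp r hr).1,
    fun r hr s hs _ t u => by simp [mul_assoc, ← (h r hr s hs t u).eq]⟩
  let e : (L.toFinset → K) → XS x {k | k ∈ L} := fun f =>
    ⟨oprod x L (fun k => if h : k ∈ L.toFinset then f ⟨k, h⟩ else 0), oprod_mem_XS (fun k hk => hk) _⟩
  have he : Function.Bijective e := ⟨fun f f' h => funext fun k => by
      simpa using hx.oprod_inj (one_mem _) hp hL (congrArg Subtype.val h) k (List.mem_toFinset.1 k.2), fun g => by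
    obtain ⟨f, hf⟩ := hn.exists_oprod (fun _ => Iff.rfl) hL g.2
    exact ⟨fun k => f k, Subtype.ext (hf ▸ oprod_congr x fun k hk => by simp [hk])⟩⟩
  rw [← Nat.card_congr (Equiv.ofBijective e he), Nat.card_fun, Nat.card_eq_fintype_card (α := L.toFinset), Fintype.card_coe,
    List.toFinset_card_of_nodup hL]

variable (D) in
/-- Root data for the pairing bound. -/
abbrev ChkP (z nz : ℤ → Bool) (M Z : List ℕ) (a b : ℕ) (L : List (ℕ × ℕ)) : Prop :=
  (∀ r ∈ M, D.IsPosRoot r) ∧ (L.map (·.1) ++ Z).Nodup ∧ a ∈ Z ∧ b ∈ Z ∧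
  (∀ s ∈ L.map (·.1) ++ Z, s ∈ M ∧ (∀ r ∈ M, Cin D z Z s r) ∧ ∀ r ∈ L.map (·.1) ++ Z, Cin D z [] r s) ∧
  (∀ r ∈ M, ∀ s ∈ Z, Cin D z [] r s) ∧ (∀ e ∈ L, e.2 ∈ M ∧ (C1 D z nz a e.1 e.2 ∨ C1 D z nz b e.1 e.2)) ∧
  L.Pairwise fun e e' => Cin D z [] e.2 e'.1

theorem pair_aux [Finite G] (hs : IsSt D x) (hz : ∀ c, z c = true → (c : K) = 0) (hn : ∀ c, nz c = true → (c : K) ≠ 0)
    {M Z : List ℕ} {a b : ℕ} (h6 : ∀ r ∈ M, ∀ s ∈ Z, Cin D z [] r s) (L : List (ℕ × ℕ))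
    (hab : ∀ r ∈ L.map (·.1) ++ Z, ∀ s ∈ L.map (·.1) ++ Z, ∀ t u, Commute (x r t) (x s u))
    (h7 : ∀ e ∈ L, e.2 ∈ M ∧ (C1 D z nz a e.1 e.2 ∨ C1 D z nz b e.1 e.2)) (h8 : L.Pairwise fun e e' => Cin D z [] e.2 e'.1)
    {v : G} (hv : v ∈ XS x {k | k ∈ L.map (·.1) ++ Z}) (hv' : v ∉ XS x {k | k ∈ Z}) :
    (∀ g ∈ XS x {a}, ∃ m ∈ XS x {k | k ∈ M}, ⁅m, v⁆ = g) ∨ ∀ g ∈ XS x {b}, ∃ m ∈ XS x {k | k ∈ M}, ⁅m, v⁆ = g := by
  induction L generalizing v with
  | nil => exact (hv' hv).elim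
  | cons e L ih =>
    have e1 : {k | k ∈ (e :: L).map (·.1) ++ Z} = {e.1} ∪ {k | k ∈ L.map (·.1) ++ Z} := by ext; simp
    rw [e1, XS_union] at hv
    obtain ⟨_, h9, w, hw, rfl⟩ := exists_mul_of_sup (fun y hy u hu => by
      rwa [(commute_XS (fun r hr s (hs' : s = e.1) => hab r (List.mem_cons_of_mem _ hr) s (by simp [hs'])) hy hu).eq,
        mul_inv_cancel_right]) hv
    obtain ⟨t, rfl⟩ := hs.mem_XS_singleton h9
    obtain ⟨h12, h13⟩ := List.pairwise_cons.1 h8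
    by_cases ht : t = 0
    · rw [ht, hs.zero, one_mul] at hv' ⊢
      exact ih (fun r hr s hs' => hab r (List.mem_cons_of_mem _ hr) s (List.mem_cons_of_mem _ hs'))
        (fun e he => h7 e (List.mem_cons_of_mem _ he)) h13 hw hv'
    obtain ⟨h10, h11⟩ := h7 e List.mem_cons_self
    have k0 : ∀ u, Commute (x e.2 u) w := fun u => commute_XS (S := {e.2}) (fun r (hr : r = e.2) s hs' => by
      subst hr
      rcases List.mem_append.1 hs' with h | h
      · obtain ⟨e', he', rfl⟩ := List.mem_map.1 h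
        exact (h12 e' he').commute hs hz
      · exact (h6 _ h10 s h).commute hs hz) (x_mem_XS (Set.mem_singleton _) u) hw
    have k : ∀ k, C1 D z nz k e.1 e.2 → ∀ g ∈ XS x {k}, ∃ m ∈ XS x {k | k ∈ M}, ⁅m, x e.1 t * w⁆ = g := fun k h g hg => by
      obtain ⟨c, hc0, h12⟩ := h.eq hs hz hn
      obtain ⟨u, rfl⟩ := hs.mem_XS_singleton hg
      refine ⟨x e.2 (u / (c * t)), x_mem_XS h10 _, ?_⟩
      calc _ = ⁅x e.2 (u / (c * t)), x e.1 t⁆ * (x e.1 t * ⁅x e.2 (u / (c * t)), w⁆ * (x e.1 t)⁻¹) := by group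
        _ = _ := by rw [(k0 _).commutator_eq, h12, mul_div_cancel₀ _ (mul_ne_zero hc0 ht)]; simp
    exact h11.imp (k a) (k b)

variable {Ω : Type*} [MulAction G Ω] [Finite Ω] [Finite G]

theorem pair_root (hx : IsFaith D x) (hz : ∀ c, z c = true → (c : K) = 0) (hn : ∀ c, nz c = true → (c : K) ≠ 0)
    {M Z : List ℕ} {a b : ℕ} {L : List (ℕ × ℕ)} (h : ChkP D z nz M Z a b L) {y : Ω}
    (k1 : ¬ XS x {a} ≤ stabilizer G y) (k2 : ¬ XS x {b} ≤ stabilizer G y) :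
    Nat.card K ^ L.length * ob (XS x {k | k ∈ Z}) y ≤ ob (XS x {k | k ∈ M}) y := by
  obtain ⟨h1, h2, h3, h4, h5, h6, h7, h8⟩ := h
  have hs := hx.toIsSt
  have hc : ∀ v ∈ XS x {k | k ∈ Z}, ∀ m ∈ XS x {k | k ∈ M}, v * m = m * v := fun v hv m hm =>
    (commute_XS (fun r hr s hs' => (h6 r hr s hs').commute hs hz) hm hv).symm
  have hab : ∀ r ∈ L.map (·.1) ++ Z, ∀ s ∈ L.map (·.1) ++ Z, ∀ t u, Commute (x r t) (x s u) :=
    fun r hr s hs' => ((h5 s hs').2.2 r hr).commute hs hz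
  have hV : XS x {k | k ∈ L.map (·.1) ++ Z} ≤ XS x {k | k ∈ M} := XS_mono x fun k hk => (h5 k hk).1
  have hn' : ∀ m ∈ XS x {k | k ∈ M}, ∀ c ∈ XS x {k | k ∈ Z}, m * c * m⁻¹ ∈ XS x {k | k ∈ Z} := fun m hm c h => by
    rwa [← hc c h m hm, mul_inv_cancel_right]
  have key := pairB (V := XS x {k | k ∈ L.map (·.1) ++ Z}) (Z := XS x {k | k ∈ Z})
    (XS_mono x fun k hk => List.mem_append_right _ hk) hV hc (fun v hv w hw => commute_XS hab hv hw) (fun m hm v hv => by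
      rw [← commutatorElement_inv]
      refine inv_mem (comm_mem_closure (fun g hg => hn' g (hV hg)) ?_ hv)
      rintro _ ⟨s, hs', u, rfl⟩
      have := inv_mem (comm_mem_closure hn' (b := x s u) (by rintro _ ⟨r, hr, t, rfl⟩; exact ((h5 s hs').2.1 r hr).mem hs hz u t) hm)
      simpa [mul_assoc] using this)
    (X1 := XS x {a}) (X2 := XS x {b}) (XS_mono x (Set.singleton_subset_iff.2 h3)) (XS_mono x (Set.singleton_subset_iff.2 h4))
    (fun v => pair_aux hs hz hn h6 L hab h7 h8) k1 k2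
  rw [card_comm hx h2 (fun k hk => h1 k (h5 k hk).1) hab, card_comm hx (List.nodup_append.1 h2).2.1
    (fun k hk => h1 k (h5 k (List.mem_append_right _ hk)).1)
    (fun r hr s hs' => hab r (List.mem_append_right _ hr) s (List.mem_append_right _ hs')), List.length_append, pow_add,
    List.length_map, mul_right_comm] at key
  have : Finite K := .of_injective _ (hx.x_injective (h1 a (h5 a (List.mem_append_right _ h3)).1).1)
  exact Nat.le_of_mul_le_mul_right key (pow_pos Nat.card_pos _)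

end Cfsg.Agent.H8
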