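import Cfsg.Agent.H8.TE2
import Cfsg.Agent.H8.Order
import Cfsg.Agent.H7.OutCard
import Cfsg.Agent.H7.Cox

/-! Counting lemmas for doubly transitive actions of Chevalley groups, and the group of type `G2`. -/

set_option autoImplicit false
set_option linter.unusedSectionVars false
set_option maxRecDepth 100000
set_option synthInstance.maxSize 8192
set_option synthInstance.maxHeartbeats 400000

namespace Cfsg.Agent.H8

open Cfsg.Lie MulAction Cfsg.Agent.H7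
open scoped commutatorElement

section gen

variable {D : ChevalleyDatum} {K : Type*} [Field K] {G : Type*} [Group G] {x : ℕ → K → G} [hD : RootFacts D]
  [hN : NFacts D] {z nz : ℤ → Bool} {r s : ℕ} {Ω : Type*} [MulAction G Ω] [Finite Ω] [Finite G] [FaithfulSMul G Ω]

theorem count_eq (h : TT G Ω) {P R : Subgroup G} (hP : ∀ g ∈ P, ∀ u ∈ R, g * u * g⁻¹ ∈ R) (hR : NT R Ω) {x y : Ω}
    (hy : y ≠ x) : Nat.card {a : G ⧸ P // ∃ g : G, a = g ∧ g⁻¹ • y ∈ orbit R (g⁻¹ • x)} * (Nat.card Ω - 1) =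
      P.index * (ob R x - 1) := by
  refine h.count_rel' (A := G ⧸ P) (fun a x y => ∃ g : G, a = g ∧ g⁻¹ • y ∈ orbit R (g⁻¹ • x))
    (fun g a x y ⟨k, h1, h2⟩ => ⟨g * k, by rw [h1]; rfl, by simpa [mul_smul] using h2⟩) hy fun a => ?_
  obtain ⟨g, rfl⟩ := QuotientGroup.mk_surjective a
  rw [hR.ob_eq x (g⁻¹ • x), ← card_orb_ne]
  refine Nat.card_congr ((MulAction.toPerm g⁻¹).subtypeEquiv fun y => and_congr (by simp)
    ⟨fun ⟨k, h1, h2⟩ => ?_, fun h1 => ⟨g, rfl, h1⟩⟩)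
  obtain ⟨u, hu, e⟩ := mem_orb.1 h2
  refine mem_orb.2 ⟨_, hP _ (QuotientGroup.eq.1 h1) u hu, ?_⟩
  simp [mul_smul, e]

theorem ob_le_card (Q : Subgroup G) (y : Ω) : ob Q y ≤ Nat.card Ω := Finite.card_subtype_le _

theorem ob_of_trans {Q : Subgroup G} (h : ∀ a b : Ω, ∃ g ∈ Q, g • a = b) (y : Ω) : ob Q y = Nat.card Ω := by
  rw [ob, Set.eq_univ_of_forall fun w => mem_orb.2 (h y w), Nat.card_univ]

theorem exists_notMem_of_lt [Finite K] (L : List K) (h : L.length < Nat.card K) : ∃ t, t ∉ L := by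
  classical
  by_contra! h1
  have := Fintype.ofFinite K
  exact (List.toFinset_card_le L).not_gt (h.trans_le (by
    rw [Nat.card_eq_fintype_card]; exact Finset.card_le_card fun t _ => List.mem_toFinset.2 (h1 t)))

theorem Cen.not_mem (h : Cen D z s) (hx : IsFaith D x) (hz : ∀ c, z c = true → (c : K) = 0)
    (hU : ∀ a b : Ω, ∃ g ∈ UU D x, g • a = b) (y : Ω) : ¬ ∃ t ≠ 0, x s t ∈ stabilizer G y := fun ⟨_, h1, h2⟩ =>
  hx.x_ne_one h.1.1 h1 (cen_free hU (fun _ hg => h.commute hx.toIsSt hz hg (x_mem_XS (Set.mem_singleton _) _)) h2)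

theorem no_pair (hx : IsSt D x) (hz : ∀ c, z c = true → (c : K) = 0) (hn : ∀ c, nz c = true → (c : K) ≠ 0) {S : Subgroup G}
    (hS : NN D x ≤ S) {θ a b : ℕ} (h : C1 D z nz θ a b ∧ Mv D r a b) (h1 : ¬ ∃ t ≠ 0, x θ t ∈ S) :
    ¬ ∃ t ≠ 0, x a t ∈ S := fun h2 => by
  obtain ⟨u, h3, h4⟩ := h.2.mem hx hS h2
  obtain ⟨t, h5, h6⟩ := h2
  obtain ⟨c, h7, h8⟩ := h.1.eq hx hz hn
  exact h1 ⟨_, mul_ne_zero (mul_ne_zero h7 h5) h3, h8 t u ▸ mul_mem (mul_mem (mul_mem h4 h6) (inv_mem h4)) (inv_mem h6)⟩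

theorem card_bound [Finite K] (hx : IsChev D x) (p : ℕ) [hp : Fact p.Prime] [CharP K p] {τ : K} (h0 : τ ≠ 0) {E : List ℤ}
    (hE : ∀ e ∈ E, τ ^ e ≠ 1) {y : Ω} (hy : NN D x ≤ stabilizer G y) (T : Finset ℕ) {θ a : ℕ}
    (h : ∀ γ < D.nroots, D.IsPosRoot γ → γ ∉ T → (γ = θ ∨ ∃ r < D.nroots, Mv D r γ a) ∧
      ∀ k < D.nroots, D.IsPosRoot k → γ < k → ∃ r < D.nroots, A D r γ = 0 ∧ A D r k ∈ E)
    (h1 : ¬ ∃ t ≠ 0, x θ t ∈ stabilizer G y) (h2 : ¬ ∃ t ≠ 0, x a t ∈ stabilizer G y) :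
    Nat.card K ^ (D.nroots / 2) ≤ Nat.card Ω * Nat.card K ^ T.card := by
  rw [← hx.card_UU, ← ob_mul _ y]
  refine Nat.mul_le_mul (ob_le_card _ y) (card_filt hx T fun k hk hT t v hv h3 => by_contra fun ht => ?_)
  obtain ⟨h4, h5⟩ := h k hk.1 hk hT
  have h6 := mem_of_lead hx (p := p) h0 hE ((HH_le_NN x).trans hy) h5 hv h3
  rcases h4 with rfl | ⟨r, -, h4⟩
  · exact h1 ⟨t, ht, h6⟩
  · exact h2 (h4.mem hx.toIsSt hy ⟨t, ht, h6⟩)

theorem p_dvd_card [Finite K] (hx : IsFaith D x) (p : ℕ) [hp : Fact p.Prime] [CharP K p]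
    (hU : ∀ y : Ω, ¬ ∀ u ∈ UU D x, u • y = y) : p ∣ Nat.card Ω := dvd_card_of_ob (Q := UU D x) fun y => by
  obtain ⟨k, hk⟩ := ob_pow (hx.isPGroup_UU p) y
  exact hk ▸ dvd_pow_self p (by rintro rfl; exact hU y fun u hu => ob_eq_one hk hu)

end gen

theorem num_G2 {q n l : ℕ} (hq : 2 ≤ q) (hn : 2 ≤ n) (h : l * (n - 1) = hor [1, 1, 1, 1, 1, 1] q * (q - 1))
    (h1 : q ^ 3 ∣ n) : n = q ^ 3 ∨ n = q ^ 6 ∧ l = 1 := by
  obtain ⟨m, rfl⟩ := h1
  have h2 : (l : ℤ) * (q ^ 3 * m - 1) = (q ^ 3) ^ 2 - 1 := by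
    zify [show 1 ≤ q ^ 3 * m by omega, show 1 ≤ q by omega] at h
    rw [h]; simp [hor]; ring
  have h3 : (8 : ℤ) ≤ q ^ 3 := by exact_mod_cast Nat.pow_le_pow_left hq 3
  have h4 : (1 : ℤ) ≤ m := by exact_mod_cast Nat.pos_of_ne_zero (by rintro rfl; simp at hn)
  rw [show q ^ 6 = q ^ 3 * q ^ 3 by ring]
  zify
  generalize (q : ℤ) ^ 3 = Q at *
  obtain ⟨j, hj⟩ : Q ∣ l - 1 := ⟨l * m - Q, by linear_combination -h2⟩
  have h5 : 0 ≤ j := by by_contra! h; nlinarith [Int.natCast_nonneg l]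
  have h6 : m + j * (m * Q - 1) = Q := mul_left_cancel₀ (show Q ≠ 0 by omega) (by linear_combination h2 - (Q * m - 1) * hj)
  rcases h5.eq_or_lt with rfl | h5
  · exact Or.inr ⟨by rw [← h6]; ring, by linarith⟩
  · obtain h7 : (m : ℤ) = 1 := by by_contra h7; nlinarith [show (2 : ℤ) ≤ m by omega]
    exact Or.inl (by rw [h7, mul_one])

theorem poinG2b (y : ℕ) : poin chevG2 {j | j ∈ [0, 1]} y = hor [1, 1, 1, 1, 1, 1] y * poin chevG2 {j | j ∈ ([0] : List ℕ)} y :=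
  poin_step' agrG2 (S := [7, 6]) (k := 1) [(107,3,1283),(120,5,769),(123,1,1029),(149,4,256),(152,0,516),(165,2,2)]
    (by decide +kernel) (by decide +kernel) y

section G2

variable {K : Type*} [Field K] [Finite K] {G : Type*} [Group G] {x : ℕ → K → G} {Ω : Type*} [MulAction G Ω] [Finite Ω]
  [Finite G] [FaithfulSMul G Ω] (hx : IsChev chevG2 x) (hG : GG x = ⊤) (h : TT G Ω)
include hx hG h

theorem G2_six (hU : ∀ a b : Ω, ∃ g ∈ UU chevG2 x, g • a = b) (hn : Nat.card Ω = Nat.card K ^ 6)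
    (hR : ∀ y : Ω, ob (XS x {11}) y = Nat.card K) {y : Ω} (hy : NN chevG2 x ≤ stabilizer G y) (h3 : 3 ≤ Nat.card K) : False := by
  have hs := hx.toIsSt
  have reg : ∀ u ∈ UU chevG2 x, ∀ w : Ω, u • w = w → u = 1 := fun u hu w e => by
    have h1 := ob_mul (UU chevG2 x) w
    rw [ob_of_trans hU, hx.card_UU, hn] at h1
    exact (Subgroup.eq_bot_iff_forall _).1 (Subgroup.eq_bot_of_card_eq _ (Nat.eq_of_mul_eq_mul_left (pow_pos Nat.card_pos 6)
      (h1.trans (mul_one _).symm))) u ⟨hu, e⟩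
  rcases h3.eq_or_lt with h3 | h3
  · have := Fintype.ofFinite K
    have : CharP K 3 := charP_of_card_eq_prime (Nat.card_eq_fintype_card (α := K) ▸ h3.symm)
    have := Fact.mk Nat.prime_three
    let l : List (Fin chevG2.rank) := [⟨0, by decide⟩, ⟨1, by decide⟩, ⟨0, by decide⟩, ⟨1, by decide⟩]
    have h4 := hx.HH_pow_card (hs.nWd_mem_HH (l := l ++ l ++ l) (W_ext (wordW_mem _) (one_mem _) (by
      simp only [wordW_apply]; decide +kernel)))
    obtain ⟨a, ha⟩ := exists_conj_UU hx hG 3 (g := nWd chevG2 x (l ++ l)) (j := 1) (by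
      rw [← h3] at h4; rw [← h4]; simp only [nWd_append, ← sq, ← pow_succ, ← pow_mul]; rfl)
    have h5 := reg _ ha (a • y) (by simp [mul_smul, mem_stabilizer_iff.1 (hy (nWd_mem_NN x _))])
    have h6 := hx.nrep_unique (NRep.nWd x (l ++ l)) (by rw [conj_eq_one_iff.1 h5]; exact NRep.one)
    exact absurd (DFunLike.congr_fun h6 7) (by rw [wordW_apply]; decide +kernel)
  obtain ⟨τ, hτ⟩ := exists_notMem_of_lt [0, 1, -1] h3
  simp only [List.mem_cons, List.not_mem_nil, or_false, not_or] at hτ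
  have hz : ∀ c : ℤ, (c == 0) = true → (c : K) = 0 := by simp
  have hP := PJ_conj hs hz (s := 11) (J := [0]) (by decide +kernel) (by decide +kernel)
  have h7 : x 7 1 • y ≠ y := fun e => hx.x_ne_one (by decide) one_ne_zero (reg _ (x_mem_UU x (by decide +kernel) 1) y e)
  have h8 := count_eq h hP (NT.of (fun a b => let ⟨g, h1, h2⟩ := hU a b; ⟨g, BB_le_PJ (UU_le_BB x h1), h2⟩) hP) h7
  rw [hR, index_PJ hx.toIsFaith hG (by decide) (poinG2b _)] at h8
  obtain ⟨⟨h9⟩, ⟨_, g, rfl, h10⟩⟩ := Nat.card_eq_one_iff_unique.1 (((num_G2 (by omega) h.two_le h8 ⟨_, hn.trans (pow_add _ 3 3)⟩).resolve_left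
    (by rw [hn, Nat.pow_right_inj (by omega)]; decide)).2)
  have hh := hE_mem_HH (D := chevG2) x (r := 11) (by decide) hτ.1
  have hA := hs.hE_conj (r := 11) (by decide) hτ.1
  set a := hE chevG2 x 11 τ
  have k1 : a • y = y := hy (HH_le_NN x hh)
  have k2 : a • x 7 1 • y = x 7 1 • y := by
    rw [← mul_smul, mul_inv_eq_iff_eq_mul.1 (hA 7 1), mul_smul, k1, show A chevG2 11 7 = 0 by decide +kernel]; simp
  have k3 : a • (g : G ⧸ PJ chevG2 x {j | j ∈ [0]}) = g := congrArg Subtype.val (h9 ⟨_, a * g, rfl, by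
    rwa [mul_inv_rev, mul_smul, mul_smul, inv_smul_eq_iff.2 k1.symm, inv_smul_eq_iff.2 k2.symm]⟩ ⟨_, g, rfl, h10⟩)
  obtain ⟨w, hw, k4⟩ := hs.exists_cell (g := g) (hG ▸ Subgroup.mem_top g)
  obtain ⟨u, hu, n, k5, v, hv, rfl⟩ := hs.cell_sharp k4
  have k6 : ((u * n * v : G) : G ⧸ PJ chevG2 x {j | j ∈ [0]}) = u • (n : G ⧸ PJ chevG2 x {j | j ∈ [0]}) :=
    QuotientGroup.mk_mul_of_mem _ (BB_le_PJ (UU_le_BB x (Um_le_UU x w hv)))
  have := Fintype.ofFinite K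
  obtain ⟨p, hp⟩ := CharP.exists K
  have := Fact.mk (CharP.char_is_prime K p)
  have k7 : ∀ b ∈ Subgroup.zpowers a, b • (n : G ⧸ PJ chevG2 x {j | j ∈ [0]}) = n := fun b hb => QuotientGroup.eq.2 (by
    simpa [mul_assoc] using BB_le_PJ (HH_le_BB x (hs.NN_conj_HH' k5.mem_NN (inv_mem (Subgroup.zpowers_le.2 hh hb)))))
  obtain ⟨c, -, k8, k9⟩ := (glaub (A := Subgroup.zpowers a) (hx.isPGroup_UU p)
    (fun h => hx.not_dvd_card_HH p (h.trans (Subgroup.card_dvd_of_le (Subgroup.zpowers_le.2 hh))))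
    (fun a ha b hb => hx.HH_commute (Subgroup.zpowers_le.2 hh ha) (Subgroup.zpowers_le.2 hh hb))
    (fun a ha m => hs.HH_conj_XS (Subgroup.zpowers_le.2 hh ha)) (x := (n : G ⧸ PJ chevG2 x {j | j ∈ [0]}))
    fun b hb => by rw [k7 b hb]; exact mem_orbit_self _).2 _ (mem_orbit_self _) _ (mem_orb.2 ⟨u, hu, k6.symm⟩) k7
    (Subgroup.zpowers_le (H := stabilizer G _).2 k3)
  obtain ⟨r, k10, k11⟩ := mem_orb.1 h10
  obtain ⟨s, k12⟩ := hs.mem_XS_singleton (hP _ (QuotientGroup.eq.1 k9) r k10)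
  obtain ⟨e, -, k13⟩ := k5.acts hs
  have k14 : (c * x (w 11) (e 11 * s) * c⁻¹) • y = x 7 1 • y := by
    rw [← k13, ← k12, ← smul_left_cancel_iff (u * n * v)⁻¹, ← k11]; simp only [← mul_smul, smul_eq_mul]; congr 1; group
  have k15 : (c * x (w 11) (τ ^ A chevG2 11 (w 11) * (e 11 * s)) * c⁻¹) • y = x 7 1 • y := by
    have := k8 a (Subgroup.mem_zpowers a)
    rw [← hA, ← k2, ← k14, ← mul_smul, ← mul_assoc, ← mul_assoc, ← mul_assoc, ← mul_assoc, this, mul_assoc _ a⁻¹,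
      ← mul_inv_rev, ← this, mul_inv_rev, ← mul_assoc, mul_smul, inv_smul_eq_iff.2 k1.symm]
  have k16 := hx.eq_zero_of_x (r := 11) (by decide) (reg _ (x_mem_UU x (by decide +kernel) ((τ ^ A chevG2 11 (w 11) - 1) * s))
    (n⁻¹ • c⁻¹ • y) (by
      rw [eq_inv_smul_iff, ← mul_smul, ← mul_smul, k13, show e 11 * ((τ ^ A chevG2 11 (w 11) - 1) * s) =
        -(e 11 * s) + τ ^ A chevG2 11 (w 11) * (e 11 * s) by ring, hs.add, hs.neg, mul_smul, inv_smul_eq_iff]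
      simpa [mul_smul] using k15.trans k14.symm))
  have k17 := (show ∀ r < 12, (∀ s < 12, A chevG2 r s ≠ 3) → A chevG2 11 r ∈ [1, -1, 2, -2] by decide +kernel) (w 11)
    (W_lt hw (by decide)) fun s hs => by
      rw [A_W' hw]; exact (show ∀ s < 12, A chevG2 11 s ≠ 3 by decide +kernel) _ (W_lt (inv_mem hw) hs)
  rcases mul_eq_zero.1 k16 with h | h
  · simp only [List.mem_cons, List.not_mem_nil, or_false] at k17
    rcases k17 with e | e | e | e <;> simp [e, sub_eq_zero, zpow_ofNat, hτ] at h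
  · exact h7 (by simpa [h, hs.zero] using k14.symm)

theorem G2_B (hB : ∀ a b : Ω, ∃ g ∈ BB chevG2 x, g • a = b) (h3 : 3 ≤ Nat.card K) : False := by
  have hs := hx.toIsSt
  have := Fintype.ofFinite K
  obtain ⟨p, hp⟩ := CharP.exists K
  obtain ⟨f, hpp, hf⟩ := FiniteField.card K p
  have := Fact.mk hpp
  rw [← Nat.card_eq_fintype_card] at hf
  have hz : ∀ c : ℤ, (c == 0) = true → (c : K) = 0 := by simp
  have hR := ob_root (nz := fun c => c == 1 || c == -1) hx.toIsFaith hz (fun c h => by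
    rcases (by simpa using h : c = 1 ∨ c = -1) with rfl | rfl <;> simp) hB
    (θ := 11) (β := 10) (γ := 6) (by decide +kernel)
  have hc : Cen chevG2 (· == 0) 11 := by decide +kernel
  have hz3 : (3 : K) = 0 → ∀ c : ℤ, (c % 3 == 0) = true → (c : K) = 0 := fun h3 c h => by
    obtain ⟨d, rfl⟩ := Int.dvd_of_emod_eq_zero (by simpa using h); simp [h3]
  have hn3 : (3 : K) = 0 → ∀ c : ℤ, (c == 1 || c == -1 || c == 2 || c == -2) = true → (c : K) ≠ 0 := fun h3 c h => by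
    have : (2 : K) ≠ 0 := fun h2 => one_ne_zero (α := K) (by linear_combination h3 - h2)
    simp only [Bool.or_eq_true, beq_iff_eq] at h
    rcases h with ((rfl | rfl) | rfl) | rfl <;> simp [this]
  have hn0 : (3 : K) ≠ 0 → ∀ c : ℤ, (c == 1 || c == -1 || c == 3 || c == -3) = true → (c : K) ≠ 0 := fun h3 c h => by
    simp only [Bool.or_eq_true, beq_iff_eq] at h
    rcases h with ((rfl | rfl) | rfl) | rfl <;> simp [h3]
  have k3 := fun h3 (y : Ω) => pair_root hx.toIsFaith (hz3 h3) (hn3 h3) (M := [6, 7, 8, 9, 10, 11]) (Z := [9, 11]) (a := 9) (b := 11)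
    (L := [(8, 7), (10, 6)]) (by decide +kernel) (Cen.not_le (by decide +kernel) hx.toIsFaith (hz3 h3) hB y)
    (hc.not_le hx.toIsFaith hz hB y)
  have h4 : Nat.card K ^ 3 ∣ Nat.card Ω := by
    by_cases h3 : (3 : K) = 0
    · refine dvd_of_ob hx.toIsFaith (XS_mono x (by decide +kernel : ∀ k ∈ [6, 7, 8, 9, 10, 11], _)) fun y => le_trans ?_ (k3 h3 y)
      rw [pow_succ]
      exact Nat.mul_le_mul_left _ (hR y ▸ ob_mono (XS_mono x (by simp)) y)
    · refine dvd_of_ob hx.toIsFaith (XS_mono x (by decide +kernel : ∀ k ∈ [6, 8, 9, 10, 11], _)) fun y => le_trans ?_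
        (pair_root hx.toIsFaith hz (hn0 h3) (Z := [11]) (a := 11) (b := 11) (L := [(9, 8), (10, 6)]) (by decide +kernel)
          (hc.not_le hx.toIsFaith hz hB y) (hc.not_le hx.toIsFaith hz hB y))
      rw [pow_succ]
      exact Nat.mul_le_mul_left _ (hR y ▸ ob_mono (XS_mono x (by simp)) y)
  have := h.nt
  obtain ⟨y0⟩ : Nonempty Ω := inferInstance
  obtain ⟨l, -, h5⟩ := h.count_sub (PJ_conj hs hz (J := [0]) hc (by decide +kernel)) (NT.of hB (hc.conj hs hz)) y0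
  rw [hR, index_PJ hx.toIsFaith hG (by decide) (poinG2b _)] at h5
  have h6 := num_G2 (by omega) h.two_le h5 h4
  have hU : ∀ a b : Ω, ∃ g ∈ UU chevG2 x, g • a = b := by
    rcases h6 with h6 | h6
    · exact U_trans hx hG h (h6.trans (by rw [hf, ← pow_mul]))
    · exact U_trans hx hG h (h6.1.trans (by rw [hf, ← pow_mul]))
  obtain ⟨τ, hτ⟩ := exists_notMem_of_lt (K := K) [0, 1] h3
  obtain ⟨y, hy⟩ := exists_N_fix hx hU (p := p) (τ := τ) (E := [1]) (by simp_all) (by simp_all) (by decide +kernel)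
  rcases h6 with h6 | h6
  swap
  · exact G2_six hx hG h hU h6.1 hR hy h3
  by_cases h7 : (3 : K) = 0
  · have h8 := ob_mul (XS x {k | k ∈ [9, 11]}) y
    rw [(Subgroup.eq_bot_iff_forall (XS x {k | k ∈ [9, 11]} ⊓ stabilizer G y)).2 fun v hv => cen_free hU (fun g hg => commute_XS (fun r hr s hs' =>
      ((show ∀ s ∈ [9, 11], Cen chevG2 (· % 3 == 0) s by decide +kernel) s hs').2 r hr.1 hr |>.commute hs (hz3 h7)) hg hv.1) hv.2,
      card_comm hx.toIsFaith (by decide) (by decide +kernel) fun r hr s hs' => ((show ∀ r ∈ [9, 11], ∀ s ∈ [9, 11],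
        Cin chevG2 (· == 0) [] r s by decide +kernel) r hr s hs').commute hs hz, Subgroup.card_bot, mul_one] at h8
    have := (k3 h7 y).trans (ob_le_card _ y)
    rw [h8, h6, ← pow_add, Nat.pow_le_pow_iff_right (by omega)] at this
    simp at this
  obtain ⟨σ, hσ⟩ := exists_notMem_of_lt (K := K) [0, 1, -1] (lt_of_le_of_ne h3 fun e => h7 (by
    simpa [← Nat.card_eq_fintype_card, ← e] using FiniteField.cast_card_eq_zero K))
  have h8 := hc.not_mem hx.toIsFaith hz hU y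
  have := card_bound hx p (τ := σ) (E := [1, 2]) (by simp_all) (by simp_all [zpow_ofNat]) hy {6, 10} (θ := 11) (a := 9)
    (by decide +kernel) h8 (no_pair hs hz (hn0 h7) hy (r := 7) (b := 8) (by decide +kernel) h8)
  rw [h6, ← pow_add, Nat.pow_le_pow_iff_right (by omega)] at this
  exact absurd this (by decide)

end G2

theorem pieceG {F : Type} [Field F] [Fintype F] (h3 : 3 ≤ Fintype.card F) {Ω : Type*} [Finite Ω]
    [MulAction (Lie.chevG2.group F) Ω] [FaithfulSMul (Lie.chevG2.group F) Ω] (h : H7.TT (Lie.chevG2.group F) Ω)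
    (hU : ∀ x : Ω, ¬ ∀ u ∈ H8.UU Lie.chevG2 (H7.xg Lie.chevG2 F), u • x = x)
    (hB : Fintype.card F ≠ 3 → ∀ x y : Ω, ∃ b ∈ H8.BB Lie.chevG2 (H7.xg Lie.chevG2 F), b • x = y) : False := by
  have hx := H7.isChev_xg (D := chevG2) (F := F)
  have := hx.finite_G H7.GG_xg
  refine G2_B hx H7.GG_xg h (by_cases (fun h4 : Fintype.card F = 3 => fun a b => ?_) hB) (Nat.card_eq_fintype_card (α := F) ▸ h3)
  have : CharP F 3 := charP_of_card_eq_prime h4
  have := Fact.mk Nat.prime_three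
  have h5 := card_group (F := F) (c := (chevG2, [2, 6])) (by simp)
  simp only [card_zkerG2, Nat.card_eq_fintype_card (α := F), h4] at h5
  have h6 : Nat.card (chevG2.group F) = 4245696 := by
    have : ((3 : ℕ) : ℤ) ^ (chevG2.nroots / 2) * ([2, 6].map fun d : ℕ => ((3 : ℕ) : ℤ) ^ d - 1).prod = 4245696 := by decide +kernel
    rw [this] at h5; exact_mod_cast (mul_one _).symm.trans h5
  have h7 := h6 ▸ h.card_mul_dvd
  have h8 := h.two_le
  have h9 := (show ∀ n < 2062, 2 ≤ n → 3 ∣ n → n * (n - 1) ∣ 4245696 → ∃ k < 7, n = 3 ^ k by decide +kernel) _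
    (by by_contra! h; have := Nat.le_of_dvd (by decide) h7; have := Nat.mul_le_mul h (Nat.sub_le_sub_right h 1); omega)
    h8 (p_dvd_card hx.toIsFaith 3 hU) h7
  obtain ⟨k, -, hk⟩ := h9
  obtain ⟨g, h10, h11⟩ := U_trans hx H7.GG_xg h hk a b
  exact ⟨g, UU_le_BB _ h10, h11⟩

end Cfsg.Agent.H8
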