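import Cfsg.Agent.H8.TE3
import Cfsg.Agent.H8.Z.F4Ord

/-! The groups of type `F4` have no doubly transitive action. -/

set_option autoImplicit false
set_option linter.unusedSectionVars false
set_option maxRecDepth 100000
set_option synthInstance.maxSize 8192
set_option synthInstance.maxHeartbeats 400000

namespace Cfsg.Agent.H8

open Cfsg.Lie MulAction Cfsg.Agent.H7
open scoped commutatorElement

theorem num_F4 {q n l : ℕ} (hq : 2 ≤ q) (hn : 2 ≤ n)
    (h : l * (n - 1) = hor [1, 1, 1, 1, 2, 2, 2, 2, 2, 2, 2, 2, 1, 1, 1, 1] q * (q - 1)) (h1 : q ^ 8 ∣ n) :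
    n = q ^ 8 ∨ n = q ^ 12 := by
  obtain ⟨m, rfl⟩ := h1
  have h2 : (l : ℤ) * ((q ^ 4) ^ 2 * m - 1) = ((q ^ 4) ^ 3 - 1) * (q ^ 4 + 1) := by
    zify [show 1 ≤ q ^ 8 * m by omega, show 1 ≤ q by omega] at h
    rw [← pow_mul, h]; simp only [hor, List.foldr]; push_cast; ring
  have h3 : (16 : ℤ) ≤ q ^ 4 := by exact_mod_cast Nat.pow_le_pow_left hq 4
  have h4 : (1 : ℤ) ≤ m := by exact_mod_cast Nat.pos_of_ne_zero (by rintro rfl; simp at hn)
  rw [show q ^ 12 = (q ^ 4) ^ 2 * q ^ 4 by ring, show q ^ 8 = (q ^ 4) ^ 2 by ring]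
  zify
  generalize (q : ℤ) ^ 4 = Q at *
  obtain ⟨j, hj⟩ : Q ^ 2 ∣ l - Q - 1 := ⟨l * m - Q ^ 2 - Q, by linear_combination -h2⟩
  have h5 : 0 ≤ j := by by_contra! h; nlinarith [Int.natCast_nonneg l]
  have h6 : (Q + 1) * m + j * (m * Q ^ 2 - 1) = Q ^ 2 + Q :=
    mul_left_cancel₀ (show Q ^ 2 ≠ 0 by positivity) (by linear_combination h2 - (Q ^ 2 * m - 1) * hj)
  rcases h5.eq_or_lt with rfl | h5
  · exact Or.inr (by rw [mul_left_cancel₀ (show Q + 1 ≠ 0 by omega) (show (Q + 1) * m = (Q + 1) * Q by linear_combination h6)])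
  · obtain h7 : (m : ℤ) = 1 := by
      by_contra h7
      have h8 : 2 * Q ^ 2 ≤ m * Q ^ 2 := by gcongr; omega
      nlinarith [mul_le_mul_of_nonneg_right (show 1 ≤ j from h5) (show 0 ≤ m * Q ^ 2 - 1 by nlinarith)]
    exact Or.inl (by rw [h7, mul_one])

theorem poinF4b (y : ℕ) : poin chevF4 {j | j ∈ [0, 1, 2, 3]} y =
    hor [1, 1, 1, 1, 2, 2, 2, 2, 2, 2, 2, 2, 1, 1, 1, 1] y * poin chevF4 {j | j ∈ ([0, 1, 2] : List ℕ)} y :=
  poin_step' agrF4 (S := [33, 27, 25, 24]) (k := 3) [(27016,8,385941504),(30632,9,251659521),(30856,15,268567042),(30858,5,285410052),(30886,6,302254083),(31082,10,319357190),(31110,11,336201221),(31112,1,353044231),(31336,7,370082824),(34698,11,151324938),(34726,12,168168457),(34728,2,185011467),(35176,13,202377740),(35178,3,219220750),(35206,4,236064269),(38568,8,17306383),(38792,14,34344976),(38794,4,51187986),(38822,5,68032017),(39018,9,85135124),(39046,10,101979155),(39048,0,118822165),(39272,6,135729686),(42888,7,1447703)]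
    (by decide +kernel) (by decide +kernel) y

section F4

variable {K : Type*} [Field K] [Finite K] {G : Type*} [Group G] {x : ℕ → K → G} {Ω : Type*} [MulAction G Ω] [Finite Ω]
  [Finite G] [FaithfulSMul G Ω]

theorem hz_zero : ∀ c : ℤ, (c == 0) = true → (c : K) = 0 := by simp

theorem hz_two (h2 : (2 : K) = 0) : ∀ c : ℤ, (c % 2 == 0) = true → (c : K) = 0 := fun c h => by
  obtain ⟨d, rfl⟩ := Int.dvd_of_emod_eq_zero (by simpa using h); simp [h2]

theorem hn_one : ∀ c : ℤ, (c == 1 || c == -1) = true → (c : K) ≠ 0 := fun c h => by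
  rcases (by simpa using h : c = 1 ∨ c = -1) with rfl | rfl <;> simp

theorem hn_two (h2 : (2 : K) ≠ 0) : ∀ c : ℤ, (c == 1 || c == -1 || c == 2 || c == -2) = true → (c : K) ≠ 0 := fun c h => by
  simp only [Bool.or_eq_true, beq_iff_eq] at h
  rcases h with ((rfl | rfl) | rfl) | rfl <;> simp [h2]

theorem chkF4_two : ChkP chevF4 (· % 2 == 0) (fun c => c == 1 || c == -1)
    [24, 26, 31, 32, 33, 34, 35, 37, 36, 38, 39, 40, 42, 43, 44, 45, 46, 47] [44, 47] 44 47
    [(36, 37), (38, 35), (39, 34), (40, 33), (42, 32), (43, 31), (45, 26), (46, 24)] := by decide +kernel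

variable (hx : IsChev chevF4 x) (hG : GG x = ⊤) (h : TT G Ω)
include hx hG h

theorem F4_B (hB : ∀ a b : Ω, ∃ g ∈ BB chevF4 x, g • a = b) (h3 : 3 ≤ Nat.card K) : False := by
  have hs := hx.toIsSt
  have := Fintype.ofFinite K
  obtain ⟨p, hp⟩ := CharP.exists K
  obtain ⟨f, hpp, hf⟩ := FiniteField.card K p
  have := Fact.mk hpp
  rw [← Nat.card_eq_fintype_card] at hf
  have hR := ob_root hx.toIsFaith hz_zero hn_one hB (θ := 47) (β := 46) (γ := 24) (by decide +kernel)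
  have hc : Cen chevF4 (· == 0) 47 := by decide +kernel
  have hc2 : Cen chevF4 (· % 2 == 0) 44 := by decide +kernel
  have k1 := hc.not_le hx.toIsFaith hz_zero hB
  have h4 : Nat.card K ^ 8 ∣ Nat.card Ω := by
    by_cases h2 : (2 : K) = 0
    · refine dvd_of_ob hx.toIsFaith (XS_mono x chkF4_two.1) fun y => le_trans ?_
        (pair_root hx.toIsFaith (hz_two h2) hn_one chkF4_two (hc2.not_le hx.toIsFaith (hz_two h2) hB y) (k1 y))
      exact Nat.le_mul_of_pos_right _ (ob_pos _ _)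
    · refine dvd_of_ob hx.toIsFaith (XS_mono x (by decide +kernel :
        ∀ k ∈ [24, 26, 29, 31, 32, 36, 38, 39, 40, 42, 43, 44, 45, 46, 47], _)) fun y => le_trans ?_
        (pair_root hx.toIsFaith hz_zero (hn_two h2) (Z := [47]) (L := [(39, 38), (40, 36), (42, 32), (43, 31), (44, 29),
          (45, 26), (46, 24)]) (by decide +kernel) (k1 y) (k1 y))
      rw [pow_succ]
      exact Nat.mul_le_mul_left _ (hR y ▸ ob_mono (XS_mono x (by simp)) y)
  have := h.nt
  obtain ⟨y0⟩ : Nonempty Ω := inferInstance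
  obtain ⟨l, -, h5⟩ := h.count_sub (PJ_conj hs hz_zero (J := [0, 1, 2]) hc (by decide +kernel))
    (NT.of hB (hc.conj hs hz_zero)) y0
  rw [hR, index_PJ hx.toIsFaith hG (by decide) (poinF4b _)] at h5
  have h6 := num_F4 (by omega) h.two_le h5 h4
  have hU : ∀ a b : Ω, ∃ g ∈ UU chevF4 x, g • a = b := by
    rcases h6 with h6 | h6 <;> exact U_trans hx hG h (h6.trans (by rw [hf, ← pow_mul]))
  obtain ⟨τ, hτ⟩ := exists_notMem_of_lt (K := K) [0, 1] h3
  obtain ⟨y, hy⟩ := exists_N_fix hx hU (p := p) (τ := τ) (E := [1]) (by simp_all) (by simp_all) (by decide +kernel)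
  have h8 := hc.not_mem hx.toIsFaith hz_zero hU y
  have := card_bound hx p (τ := τ) (E := [1]) (by simp_all) (by simp_all) hy {24, 25, 26, 30, 31, 32, 41, 42, 43, 45, 46}
    (θ := 47) (a := 44) (by decide +kernel) h8 (by
      by_cases h2 : (2 : K) = 0
      · exact hc2.not_mem hx.toIsFaith (hz_two h2) hU y
      · exact no_pair hs hz_zero (hn_two h2) hy (r := 41) (b := 29) (by decide +kernel) h8)
  rcases h6 with h6 | h6 <;> rw [h6, ← pow_add, Nat.pow_le_pow_iff_right (by omega)] at this <;> exact absurd this (by decide)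

omit hG in
theorem F4_large (hK : Nat.card K = 2) : 512 ≤ Nat.card Ω := by
  have hs := hx.toIsSt
  have := Fintype.ofFinite K
  have h2 : (2 : K) = 0 := by simpa [← Nat.card_eq_fintype_card, hK] using FiniteField.cast_card_eq_zero K
  have h1 : ∀ c : K, c ≠ 0 → c = 1 := fun c hc => by simpa [← Nat.card_eq_fintype_card, hK] using FiniteField.pow_card_sub_one_eq_one c hc
  obtain ⟨y, h3, h4⟩ : ∃ y : Ω, x 47 1 • y ≠ y ∧ x 44 1 • y ≠ y := by
    by_contra! k
    have k1 : ∀ g : G, g * x 47 1 * g⁻¹ = x 47 1 → ∀ y : Ω, x 47 1 • y ≠ y → (g * x 44 1 * g⁻¹) • y = y := fun g hg y hy => by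
      rw [mul_smul, mul_smul, k _ (by rw [Ne, eq_inv_smul_iff, ← mul_smul, ← mul_smul, hg]; exact hy), smul_inv_smul]
    obtain ⟨c, h5, h6⟩ := (show Mv chevF4 41 44 29 by decide +kernel).conj hs
    obtain ⟨d, h7, h8⟩ := (show Mv chevF4 41 47 47 by decide +kernel).conj hs
    rw [h1 c h5] at h6
    rw [h1 d h7] at h8
    have h9 := br_eq hs hz_zero (r := 29) (s := 41) (by decide) (by decide +kernel) 1 1
    rw [show ctF chevF4 (· == 0) 29 41 = [(44, 1, 1, 1), (47, 1, 2, 1)] by decide +kernel] at h9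
    simp only [List.map_cons, List.map_nil, ev_cons, ev_nil, h1 (-1) (by simp), Int.cast_one, one_pow, mul_one] at h9
    refine hx.x_ne_one (r := 47) (by decide) one_ne_zero (eq_of_smul_eq_smul (α := Ω) fun y => by_contra fun hy => ?_)
    rw [one_smul] at hy
    have k2 := k1 _ (by simpa using h8 1) y hy
    have k3 := k1 (x 41 1 * nE chevF4 x 41 1) (by
      rw [show ∀ a b c : G, a * b * c * (a * b)⁻¹ = a * (b * c * b⁻¹) * a⁻¹ by intros; group, h8,
        (((show Cin chevF4 (· == 0) [] 41 47 by decide +kernel).commute hs hz_zero 1 _).eq), mul_inv_cancel_right, mul_one]) y hy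
    rw [show ∀ a b c : G, a * b * c * (a * b)⁻¹ = ⁅a, b * c * b⁻¹⁆ * (b * c * b⁻¹) by intros; group, mul_smul, k2, h6, mul_one, h9,
      ((show Cin chevF4 (· == 0) [] 44 47 by decide +kernel).commute hs hz_zero 1 1).eq, mul_smul, k y hy] at k3
    exact hy k3
  have h5 := (pair_root hx.toIsFaith (hz_two h2) hn_one chkF4_two (fun k => h4 (k (x_mem_XS (Set.mem_singleton _) 1)))
    fun k => h3 (k (x_mem_XS (Set.mem_singleton _) 1))).trans (ob_le_card _ y)
  have h6 := ob_pos (XS x {k | k ∈ [44, 47]}) y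
  have h7 : ob (XS x {k | k ∈ [44, 47]}) y ≠ 1 := fun e => h3 (ob_eq_one e (x_mem_XS (by simp) 1))
  rw [hK] at h5
  simp only [List.length_cons, List.length_nil] at h5
  omega

end F4

theorem num_F4_two {n : ℕ} (h1 : 512 ≤ n) (h2 : 2 ∣ n) (h : n * (n - 1) ∣ 2 ^ 24 * (3 ^ 6 * (5 ^ 2 * (7 ^ 2 * (13 ^ 1 * 17 ^ 1))))) :
    n = 4096 := by
  obtain ⟨d, rfl⟩ : ∃ d, n = d + 1 := ⟨n - 1, by omega⟩
  rw [Nat.add_sub_cancel] at h
  obtain ⟨a, d, ha, h3, rfl⟩ := exists_dvd_and_dvd_of_dvd_mul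
    ((((Nat.coprime_two_right.2 (Nat.odd_iff.2 (by omega))).pow_right 24)).dvd_of_dvd_mul_left ((dvd_mul_left _ _).trans h))
  obtain ⟨b, d, hb, h4, rfl⟩ := exists_dvd_and_dvd_of_dvd_mul h3
  obtain ⟨c, d, hc, h5, rfl⟩ := exists_dvd_and_dvd_of_dvd_mul h4
  obtain ⟨d, e, hd, he, rfl⟩ := exists_dvd_and_dvd_of_dvd_mul h5
  obtain ⟨a, ka, rfl⟩ := (Nat.dvd_prime_pow (by norm_num)).1 ha
  obtain ⟨b, kb, rfl⟩ := (Nat.dvd_prime_pow (by norm_num)).1 hb
  obtain ⟨c, kc, rfl⟩ := (Nat.dvd_prime_pow (by norm_num)).1 hc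
  obtain ⟨d, kd, rfl⟩ := (Nat.dvd_prime_pow (by norm_num)).1 hd
  obtain ⟨e, ke, rfl⟩ := (Nat.dvd_prime_pow (by norm_num)).1 he
  exact (show ∀ a ≤ 6, ∀ b ≤ 2, ∀ c ≤ 2, ∀ d ≤ 1, ∀ e ≤ 1, (fun m => 512 ≤ m + 1 → (m + 1) * m ∣ 2 ^ 24 * (3 ^ 6 * (5 ^ 2 *
    (7 ^ 2 * (13 ^ 1 * 17 ^ 1)))) → m + 1 = 4096) (3 ^ a * (5 ^ b * (7 ^ c * (13 ^ d * 17 ^ e)))) by decide +kernel)
    a ka b kb c kc d kd e ke h1 h

theorem cent17 {F : Type} [Field F] [Fintype F] (hF : Fintype.card F = 2) (h2 : ¬ 17 ^ 2 ∣ Nat.card (chevF4.group F))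
    {σ : chevF4.group F} (ho : orderOf σ = 17) (c : chevF4.group F) (hc : c * σ = σ * c) : c ∈ Subgroup.zpowers σ := by
  have := (H7.isChev_xg (D := chevF4) (F := F)).finite_G H7.GG_xg
  have : CharP F 2 := charP_of_card_eq_prime hF
  have h17 : Nat.Prime 17 := by norm_num
  have := Fact.mk h17
  have h8 : orderOf ((2 : ℕ) : ZMod 17) = 8 := orderOf_eq_prime_pow (p := 2) (n := 2) (by decide +revert) (by decide +revert)
  have h3 := Nat.eq_prime_pow_of_unique_prime_dvd (p := 17) (Nat.card_pos (α := Subgroup.centralizer {σ})).ne' fun {r} hr h => by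
    by_contra h4
    have := Fact.mk hr
    obtain ⟨b, hb⟩ := exists_prime_orderOf_dvd_card' r h
    rw [← Subgroup.orderOf_coe] at hb
    have h5 := Commute.orderOf_mul_eq_mul_orderOf_of_coprime (Subgroup.mem_centralizer_singleton_iff.1 b.2)
      (by rw [hb, ho]; exact (Nat.coprime_primes hr h17).2 h4)
    rw [hb, ho] at h5
    by_cases h6 : r = 2
    · have := adjF4_two_z h17 (by decide) (h6 ▸ h5)
      rw [hF, h8] at this; simp at this
    obtain ⟨L, hL, h7, h9⟩ := adjF4_odd_z hr h17 h6 (by decide) (h5 ▸ dvd_mul_right _ _) (h5 ▸ dvd_mul_left _ _)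
    rw [hF] at h7 h9
    have h10 : orderOf ((2 : ℕ) : ZMod r) = 8 := by
      rw [h8] at h9; fin_cases hL <;> simp at h9; simpa using h7
    have h11 := pow_ne_one_of_lt_orderOf (x := ((2 : ℕ) : ZMod r)) (n := 4) (by decide) (by omega)
    have h12 := h10 ▸ pow_orderOf_eq_one ((2 : ℕ) : ZMod r)
    exact h4 ((Nat.prime_dvd_prime_iff_eq hr h17).1 ((ZMod.natCast_eq_zero_iff _ _).1 ((mul_eq_zero.1
      (show (((2 : ℕ) : ZMod r) ^ 4 - 1) * ((17 : ℕ) : ZMod r) = 0 by push_cast at h12 ⊢; linear_combination h12)).resolve_left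
        (sub_ne_zero.2 h11))))
  have h4 : Subgroup.zpowers σ ≤ Subgroup.centralizer {σ} := Subgroup.zpowers_le.2 (Subgroup.mem_centralizer_singleton_iff.2 rfl)
  rw [Subgroup.eq_of_le_of_card_ge h4 (by
    rw [Nat.card_zpowers, ho, h3]
    exact (Nat.pow_le_pow_right (by decide) (by_contra fun h => h2 ((pow_dvd_pow _ (by omega)).trans
      (h3 ▸ Subgroup.card_subgroup_dvd_card _)))).trans (pow_one 17).le)]
  exact Subgroup.mem_centralizer_singleton_iff.2 hc

theorem pieceF {F : Type} [Field F] [Fintype F] {Ω : Type*} [Finite Ω]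
    [MulAction (Lie.chevF4.group F) Ω] [FaithfulSMul (Lie.chevF4.group F) Ω] (h : H7.TT (Lie.chevF4.group F) Ω)
    (hU : ∀ x : Ω, ¬ ∀ u ∈ H8.UU Lie.chevF4 (H7.xg Lie.chevF4 F), u • x = x)
    (hB : Fintype.card F ≠ 2 → ∀ x y : Ω, ∃ b ∈ H8.BB Lie.chevF4 (H7.xg Lie.chevF4 F), b • x = y) : False := by
  have hx := H7.isChev_xg (D := chevF4) (F := F)
  have := hx.finite_G H7.GG_xg
  by_cases h2 : Fintype.card F = 2
  swap
  · exact F4_B hx H7.GG_xg h (hB h2) (by rw [Nat.card_eq_fintype_card]; have := Fintype.one_lt_card (α := F); omega)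
  have : CharP F 2 := charP_of_card_eq_prime h2
  have h5 := card_group (F := F) (c := (chevF4, [2, 6, 8, 12])) (by simp)
  simp only [card_zkerF4, Nat.card_eq_fintype_card (α := F), h2] at h5
  have h6 : Nat.card (chevF4.group F) = 2 ^ 24 * (3 ^ 6 * (5 ^ 2 * (7 ^ 2 * (13 ^ 1 * 17 ^ 1)))) := by
    have : ((2 : ℕ) : ℤ) ^ (chevF4.nroots / 2) * ([2, 6, 8, 12].map fun d : ℕ => ((2 : ℕ) : ℤ) ^ d - 1).prod =
      (2 ^ 24 * (3 ^ 6 * (5 ^ 2 * (7 ^ 2 * (13 ^ 1 * 17 ^ 1)))) : ℕ) := by decide +kernel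
    rw [this] at h5; exact_mod_cast (mul_one _).symm.trans h5
  have h7 := num_F4_two (F4_large hx h (Nat.card_eq_fintype_card.trans h2)) (p_dvd_card hx.toIsFaith 2 hU) (h6 ▸ h.card_mul_dvd)
  have h17 : Nat.Prime 17 := by norm_num
  have := Fact.mk h17
  have h8 : ¬ 17 ^ 2 ∣ Nat.card (chevF4.group F) := by rw [h6]; decide +kernel
  obtain ⟨σ, hσ⟩ := exists_prime_orderOf_dvd_card' (G := chevF4.group F) 17 (by rw [h6]; decide +kernel)
  have h9 := witt h h17 h8 hσ (cent17 h2 h8 hσ)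
  have h10 := (IsPGroup.of_card (p := 17) (n := 1) (G := Subgroup.zpowers σ) (by rw [Nat.card_zpowers, hσ]; rfl)).card_modEq_card_fixedPoints Ω
  rw [h7, show fixedPoints (Subgroup.zpowers σ) Ω = fixedBy Ω σ from Set.ext fun y => ⟨fun k => k ⟨σ, Subgroup.mem_zpowers σ⟩,
    fun k g => Subgroup.zpowers_le (H := stabilizer _ y).2 k g.2⟩, Nat.ModEq] at h10
  have h11 : 16 ≤ Nat.card (fixedBy Ω σ) := by omega
  have := Nat.mul_le_mul_right (Nat.card (fixedBy Ω σ)) h11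
  omega

end Cfsg.Agent.H8
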