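import Cfsg.Agent.H8.TwInv
import Cfsg.Agent.H8.TwD4

/-! Involutions of the twisted group of type `D4` in characteristic two. -/

set_option autoImplicit false
set_option linter.unusedSectionVars false

namespace Cfsg.Agent.H8

open Cfsg.Lie Matrix Cfsg.Agent.H7

def basesD4 : List (List (List ℕ × ℕ) × List (Bool × List ℕ)) := [([], []),
  ([([0], 0), ([2], 2), ([3], 3)], [(false, [1]), (false, [0, 2, 3])]),
  ([([1, 3, 2, 1, 0], 0)], []),
  ([([1, 3, 2, 1, 0], 0), ([0], 0), ([2], 2), ([3], 3)], [(false, [1]), (true, [12, 18, 13]), (false, [0, 2, 3]), (true, [15, 19, 16])])]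

def masksD4 : List (List ℕ × List (List ℕ)) := [([1, 3, 2, 1, 0, 0, 0, 1, 2, 3, 1, 0, 0, 0, 2, 2, 2, 3, 3, 3], []),
  ([], []),
  ([0, 0, 0, 2, 2, 2, 3, 3, 3], [[0, 2, 3], [1]]),
  ([], []),
  ([], []),
  ([], []),
  ([], []),
  ([], []),
  ([], []),
  ([], []),
  ([], []),
  ([], []),
  ([], []),
  ([1, 3, 2, 1, 0, 0, 0, 1, 2, 3, 1], []),
  ([], []),
  ([], [])]

theorem ocmD4 : chkOC fastD4 = true := by decide +kernel

theorem tgtTwD4 : chkTgt fastD4 [[23], [17, 20, 21]] = true := by decide +kernel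

variable {K : Type*} [Field K] [Fintype K] [CharP K 2]

theorem ncard_twD4 {q : ℕ} (hK : Fintype.card K = q ^ 3) :
    (ConjClasses.mk '' {g : twistedD4 K q | orderOf g = 2}).ncard = 2 := by
  obtain ⟨φ, hφ⟩ := exists_frob hK three_ne_zero
  have hx : IsChev chevD4 (xg chevD4 K) := isChev_xg
  obtain ⟨σ, h⟩ := exists_twistD4 hx GG_xg φ
  have hS := twSubD4 hx.toIsFaith hφ (fun t => by
    rw [hφ, hφ, hφ, ← pow_mul, ← pow_mul, ← pow_two, ← pow_succ', ← hK, FiniteField.pow_card]) h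
  have hf := okD4.twF_one φ
  have hW : ∀ l ∈ [[0, 2, 3], [1]], nWd chevD4 (xg chevD4 K) (fl chevD4 l) ∈ twS (xg chevD4 K) (d4Words K q) := by
    simp only [List.forall_mem_cons, List.not_mem_nil, false_imp_iff, implies_true, and_true]
    exact ⟨hS.nWd_mem h hx.toIsFaith agrD4 hf ocmD4 (R := [18, 13, 12]) (by decide +kernel) (by decide +kernel),
      hS.nWd_mem h hx.toIsFaith agrD4 hf ocmD4 (R := [14]) (by decide +kernel) (by decide +kernel)⟩
  refine ncard_tw agrD4 (Ts := [[23], [17, 20, 21]]) (by decide) tgtTwD4 (fun R hR => ?_) (fun t ht h2 => ?_)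
    fun R hR R' hR' h1 => ?_
  · refine hS.px_mem h hx.toIsFaith agrD4 hf ?_
    revert R; decide +kernel
  · obtain ⟨n, h3, R, hR, h4⟩ := exists_cj_base (hS.orbSub h hx.toIsFaith) hx.toIsFaith agrD4 (by decide +kernel) hW
      (hS.base_of_chk h hx.toIsFaith agrD4 hf ocmD4 (Sm := [18, 14, 13, 12]) (by decide +kernel) hW
        (Ts := [[], [23], [17, 20, 21]]) (Bs := basesD4) (by decide +kernel)) (C := masksD4) (by decide +kernel) ht h2
    exact ⟨R, hR, h3.trans h4⟩
  · have h2 := rkT_eq_of_cj agrD4 (lt_of_chkTgt agrD4 tgtTwD4 hR) (lt_of_chkTgt agrD4 tgtTwD4 hR') h1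
    clear h1; revert R R'; decide +kernel

end Cfsg.Agent.H8
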