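import Cfsg.Agent.H8.TwInv
import Cfsg.Agent.H8.TwE6

/-! Involutions of the twisted group of type `E6` in characteristic two. -/

set_option autoImplicit false
set_option linter.unusedSectionVars false

namespace Cfsg.Agent.H8

open Cfsg.Lie Matrix Cfsg.Agent.H7

def basesE6 : List (List (List ℕ × ℕ) × List (Bool × List ℕ)) := [([], []),
  ([([5, 2, 3, 4, 1, 3, 2, 0], 0), ([4, 5, 3, 4, 1, 3, 2, 0], 0)], []),
  ([([1, 3, 4, 5, 2, 3, 4, 1, 3, 2, 0], 0)], []),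
  ([([1, 3, 4, 5, 2, 3, 4, 1, 3, 2, 0], 0), ([4, 3, 2, 0], 0), ([5, 4, 3, 2], 2)], [(false, [1]), (false, [3]), (false, [2, 4])]),
  ([([1, 3, 4, 5, 2, 3, 4, 1, 3, 2, 0], 0), ([5, 4, 3, 2, 0], 0)], [(false, [1]), (false, [3]), (true, [37, 42]), (false, [2, 4]), (false, [3]), (false, [1])]),
  ([([1, 3, 4, 5, 2, 3, 4, 1, 3, 2, 0], 0), ([5, 4, 3, 2, 0], 0), ([4, 3, 2], 2)], [(false, [1]), (false, [3]), (true, [36, 56]), (false, [0, 5]), (false, [2, 4]), (true, [36, 56]), (true, [37, 42])]),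
  ([([1, 3, 4, 5, 2, 3, 4, 1, 3, 2, 0], 0), ([5, 4, 3, 2, 0], 0), ([3, 2], 2), ([4, 3], 3)], [(false, [0, 5]), (false, [1]), (false, [3]), (false, [2, 4]), (true, [36, 56]), (false, [0, 5]), (true, [39]), (false, [3]), (false, [2, 4]), (false, [3]), (true, [51])]),
  ([([1, 3, 4, 5, 2, 3, 4, 1, 3, 2, 0], 0), ([5, 4, 3, 2, 0], 0), ([4, 3, 2], 2), ([3], 3)], [(false, [1]), (true, [36, 56]), (false, [0, 5]), (false, [2, 4]), (false, [3]), (false, [2, 4]), (true, [37, 42]), (true, [41, 58]), (true, [36, 56]), (false, [0, 5]), (true, [39]), (false, [3]), (false, [2, 4]), (false, [3]), (true, [51])])]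

def masksE6 : List (List ℕ × List (List ℕ)) := [([1, 3, 4, 5, 2, 3, 4, 1, 3, 2, 0, 0, 0, 2, 3, 1, 4, 3, 2, 5, 4, 3, 1, 5, 4, 3, 2, 0, 0, 0, 2, 3, 4, 5, 4, 3, 2, 2, 2, 3, 4, 3, 3, 3], []),
  ([], []),
  ([1, 3, 4, 5, 2, 3, 4, 1, 3, 2, 0, 0, 0, 2, 3, 1, 4, 3, 2, 5, 4, 3, 1, 5, 4, 3, 2, 0, 0, 0, 2, 3, 4, 5, 4, 3, 2, 2, 2, 3, 4], [[3], [1]]),
  ([], []),
  ([], []),
  ([], []),
  ([], []),
  ([], []),
  ([1, 3, 4, 5, 2, 3, 4, 1, 3, 2, 0, 0, 0, 2, 3, 1, 4, 3, 2, 5, 4, 3, 1, 5, 4, 3, 2, 0, 0, 0, 2, 3, 4, 5, 4, 3, 2, 2, 2, 3, 4], []),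
  ([], []),
  ([1, 3, 4, 5, 2, 3, 4, 1, 3, 2, 0, 0, 0, 2, 3, 1, 4, 3, 2, 5, 4, 3, 1, 5, 4, 3, 2, 0, 0, 0, 2, 3, 4, 5, 4, 3, 2, 2, 2, 3, 4], [[1]]),
  ([], []),
  ([], []),
  ([], []),
  ([], []),
  ([], []),
  ([], []),
  ([], []),
  ([], []),
  ([], []),
  ([1, 3, 4, 5, 2, 3, 4, 1, 3, 2, 0, 0, 0, 2, 3, 1, 4, 3, 2, 5, 4, 3, 1, 5, 4, 3, 2, 0, 0, 0, 2, 3, 4, 5, 3, 2, 2, 2, 3, 4, 3, 3, 3, 4], []),
  ([], []),
  ([1, 3, 4, 5, 2, 3, 4, 1, 3, 2, 0, 0, 0, 2, 3, 1, 4, 3, 2, 5, 4, 3, 1, 4, 3, 2, 0, 0, 0, 2, 3, 4, 5, 4, 3, 2, 2, 2, 3, 4, 5], [[0, 5], [2, 4], [3], [1]]),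
  ([], []),
  ([], []),
  ([], []),
  ([], []),
  ([], []),
  ([1, 3, 4, 5, 2, 3, 4, 1, 3, 2, 0, 0, 0, 2, 3, 1, 4, 3, 2, 5, 4, 3, 1, 5, 4, 3, 2, 0, 0, 0, 2, 3, 4, 5], []),
  ([], []),
  ([5, 2, 3, 4, 1, 3, 2, 0, 0, 0, 2, 3, 1, 4, 3, 2, 5, 4, 5, 3, 4, 1, 3, 2, 0, 0, 0, 2, 3, 1, 4, 3, 5, 4], []),
  ([], []),
  ([], []),
  ([1, 3, 4, 5, 2, 3, 4, 1, 3, 2, 0, 0, 0, 2, 3, 1, 4, 3, 2, 5, 4, 3, 1, 5, 4, 3, 2, 0, 0, 0, 2, 3, 4, 5, 3, 2, 2, 2, 3, 4, 3, 3, 3, 4], [[2, 4], [0, 5]]),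
  ([], []),
  ([1, 3, 4, 5, 2, 3, 4, 1, 3, 2, 0, 0, 0, 2, 3, 1, 4, 3, 2, 5, 4, 3, 1, 4, 3, 2, 0, 0, 0, 2, 3, 4, 5, 4, 3, 2, 2, 2, 3, 4, 5], [[3], [1]]),
  ([], []),
  ([], []),
  ([], []),
  ([], []),
  ([], []),
  ([1, 3, 4, 5, 2, 3, 4, 1, 3, 2, 0, 0, 0, 2, 3, 1, 4, 3, 2, 5, 4, 3, 1, 4, 3, 2, 0, 0, 0, 2, 3, 4, 5, 4, 3, 2, 2, 2, 3, 4, 5], []),
  ([], []),
  ([1, 3, 4, 5, 2, 3, 4, 1, 3, 2, 0, 0, 0, 2, 3, 1, 4, 3, 2, 5, 4, 3, 1, 4, 3, 2, 0, 0, 0, 2, 3, 4, 5, 4, 3, 2, 2, 2, 3, 4, 5], [[1]]),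
  ([], []),
  ([], []),
  ([], []),
  ([], []),
  ([], []),
  ([], []),
  ([], []),
  ([], []),
  ([], []),
  ([1, 3, 4, 5, 2, 3, 4, 1, 3, 2, 0, 0, 0, 2, 3, 1, 4, 3, 2, 5, 4, 3, 1, 5, 4, 3, 2, 0, 0, 0, 2, 3, 4, 5, 3, 2, 2, 2, 3, 4, 3, 3, 3, 4], [[0, 5]]),
  ([], []),
  ([1, 3, 4, 5, 2, 3, 4, 1, 3, 2, 0, 0, 0, 2, 3, 1, 4, 3, 2, 5, 4, 3, 1, 4, 3, 2, 0, 0, 0, 2, 3, 4, 5, 4, 3, 2, 2, 2, 3, 4, 5], [[2, 4], [3], [1]]),
  ([], []),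
  ([], []),
  ([], []),
  ([], []),
  ([], []),
  ([1, 3, 4, 5, 2, 3, 4, 1, 3, 2, 0, 0, 0, 2, 3, 1, 4, 3, 2, 5, 4, 3, 1], []),
  ([], []),
  ([], [])]

variable {K : Type*} [Field K] [Fintype K]

theorem exists_pow_ne_self {q n : ℕ} (hK : Fintype.card K = q ^ n) (hn : 2 ≤ n) : ∃ t : K, t ^ q ≠ t := by
  classical
  by_contra h
  push Not at h
  have h1 : 1 < q ^ n := hK ▸ Fintype.one_lt_card
  have h2 : 1 < q := by
    rcases q with _ | _ | q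
    · rw [zero_pow (by omega)] at h1; omega
    · simp at h1
    · omega
  have h3 := Polynomial.card_le_degree_of_subset_roots (p := (Polynomial.X ^ q - Polynomial.X : Polynomial K))
    (Z := Finset.univ) fun t _ => by
      rw [Polynomial.mem_roots (FiniteField.X_pow_card_sub_X_ne_zero K h2)]; simp [h t]
  rw [FiniteField.X_pow_card_sub_X_natDegree_eq K h2, Finset.card_univ, hK] at h3
  exact absurd (Nat.pow_lt_pow_right h2 (show 1 < n by omega)) (by rw [pow_one]; omega)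

variable [CharP K 2]

theorem ncard_twE6 {q : ℕ} (hK : Fintype.card K = q ^ 2) :
    (ConjClasses.mk '' {g : twistedE6 K q | orderOf g = 2}).ncard = 3 := by
  obtain ⟨φ, hφ⟩ := exists_frob hK two_ne_zero
  have hx : IsChev chevE6 (xg chevE6 K) := isChev_xg
  obtain ⟨σ, h⟩ := exists_twistE6 hx GG_xg φ
  have hφ2 : ∀ t, φ (φ t) = t := fun t => by rw [hφ, hφ, ← pow_mul, ← pow_two, ← hK, FiniteField.pow_card]
  have hS := twSubE6 hx.toIsFaith hφ hφ2 h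
  have hf := okE6.twF_one φ
  have hW : ∀ l ∈ [[0, 5], [1], [2, 4], [3]],
      nWd chevE6 (xg chevE6 K) (fl chevE6 l) ∈ twS (xg chevE6 K) (e6Words K q) := fun l hl =>
    hS.nWd_mem h hx.toIsFaith agrE6 hf ocmE6 (R := l.map fun i => [56, 46, 42, 39, 37, 36].getD i 0)
      (by revert l; decide +kernel) (by revert l; decide +kernel)
  have h5 : Cj (twS (xg chevE6 K) (e6Words K q)) (px (xg chevE6 K) [68, 66]) (px (xg chevE6 K) [68, 66, 71]) := by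
    obtain ⟨s, hs⟩ := exists_pow_ne_self hK le_rfl
    have h6 : s + φ s ≠ 0 := fun h => hs (by rw [← hφ, ← neg_eq_of_add_eq_zero_right h, CharTwo.neg_eq])
    have h7 : φ (s / (s + φ s)) = 1 + s / (s + φ s) := by
      rw [map_div₀, map_add, hφ2, add_comm (φ s), one_add_div h6, add_right_comm, CharTwo.add_self_eq_zero, zero_add]
    generalize s / (s + φ s) = t at h7
    refine ⟨xg chevE6 K 50 t * xg chevE6 K 48 (1 + t), hS.mem_of_UU h hx.toIsFaith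
      (mul_mem (x_mem_UU _ (by decide +kernel) _) (x_mem_UU _ (by decide +kernel) _)) ?_, mul_inv_eq_of_eq_mul ?_⟩
    · have h8 : ∀ u, σ (xg chevE6 K 50 u) = xg chevE6 K 48 (φ u) := fun u => by
        simpa using h.map_one' (s := 48) (e := 1) (by decide +kernel) u
      have h9 : ∀ u, σ (xg chevE6 K 48 u) = xg chevE6 K 50 (φ u) := fun u => by
        simpa using h.map_one' (s := 50) (e := 1) (by decide +kernel) u
      rw [map_mul, h8, h9, h7, ← h7, hφ2, h7]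
      exact (hx.toIsSt.commute (by decide +kernel) (by decide +kernel) _ _).eq
    · simpa [px, mev, mul_assoc] using hx.toIsSt.eq_of_weq agrE6 (CharP.cast_eq_zero K 2) (fun _ => t)
        (key := fun k => k) (w := [(50, [(1, [1])]), (48, [(1, [0]), (1, [1])]), (68, [(1, [0])]), (66, [(1, [0])])])
        (w' := [(68, [(1, [0])]), (66, [(1, [0])]), (71, [(1, [0])]), (50, [(1, [1])]), (48, [(1, [0]), (1, [1])])])
        (by decide +kernel)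
  refine ncard_tw agrE6 (Ts := invTE6) (by decide) tgtE6 (fun R hR => ?_) (fun t ht h2 => ?_) distTE6
  · refine hS.px_mem h hx.toIsFaith agrE6 hf ?_
    revert R; decide +kernel
  · obtain ⟨n, h3, R, hR, h4⟩ := exists_cj_base (hS.orbSub h hx.toIsFaith) hx.toIsFaith agrE6 (by decide +kernel) hW
      (hS.base_of_chk h hx.toIsFaith agrE6 hf ocmE6 (Sm := [56, 46, 42, 39, 37, 36]) (by decide +kernel) hW
        (Ts := [68, 66, 71] :: [] :: invTE6) (Bs := basesE6) (by decide +kernel)) (C := masksE6) (by decide +kernel) ht h2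
    rcases List.mem_cons.1 hR with rfl | hR
    · exact ⟨_, by simp [invTE6], (h3.trans h4).trans h5.symm⟩
    · exact ⟨R, hR, h3.trans h4⟩

end Cfsg.Agent.H8
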