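import Cfsg.Agent.H8.TwInv
import Cfsg.Agent.H8.TwF4

/-! Involutions of the twisted groups of type `F4` and of the Tits group. -/

set_option autoImplicit false
set_option linter.unusedSectionVars false

namespace Cfsg.Agent.H8

open Cfsg.Lie Matrix Cfsg.Agent.H7

def basesF4 : List (List (List ℕ × ℕ) × List (Bool × List ℕ)) := [([], []),
  ([([0], 0), ([3], 3)], [(false, [1, 2, 1, 2]), (false, [0, 3]), (false, [1, 2, 1, 2])]),
  ([([1, 2, 3, 0, 1, 2], 2), ([2, 3, 1, 2, 1, 0], 0), ([0], 0), ([3], 3)], [(false, [1, 2, 1, 2]), (true, [24, 33]), (false, [0, 3]), (true, [25, 27, 28]), (false, [1, 2, 1, 2]), (true, [26, 34, 36])])]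

def masksF4 : List (List ℕ × List (List ℕ)) := [([1, 2, 3, 0, 1, 2, 2, 2, 1, 0, 3, 2, 1, 2, 3, 1, 2, 1, 0, 0, 0, 1, 2, 1, 3, 2, 0, 0, 0, 3, 3, 3], []),
  ([], []),
  ([], []),
  ([], []),
  ([], []),
  ([], []),
  ([1, 2, 1, 2], [[0, 3], [1, 2, 1, 2], [0, 3]]),
  ([], []),
  ([], []),
  ([0, 0, 0, 3, 3, 3], [[1, 2, 1, 2], [0, 3], [1, 2, 1, 2]]),
  ([], []),
  ([], []),
  ([], []),
  ([], []),
  ([], []),
  ([], [])]

theorem ncard_inv_congr {A B : Type*} [Group A] [Group B] (e : A ≃* B) :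
    (ConjClasses.mk '' {g : A | orderOf g = 2}).ncard = (ConjClasses.mk '' {g : B | orderOf g = 2}).ncard := by
  rw [← Set.ncard_image_of_injective _ (f := ConjClasses.map e.toMonoidHom) (Function.LeftInverse.injective
    (g := ConjClasses.map e.symm.toMonoidHom) fun c => by
      obtain ⟨a, rfl⟩ := ConjClasses.mk_surjective c
      exact congrArg ConjClasses.mk (e.symm_apply_apply a)), Set.image_image]
  congr 1; ext c
  constructor
  · rintro ⟨a, ha, rfl⟩; exact ⟨e a, (e.orderOf_eq a).trans ha, rfl⟩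
  · rintro ⟨a, ha, rfl⟩
    exact ⟨e.symm a, (e.symm.orderOf_eq a).trans ha, congrArg ConjClasses.mk (e.apply_symm_apply a)⟩

theorem Cj.mem_comm {G : Type*} [Group G] {S : Subgroup G} {a b : G} (h : Cj S a b) (ha : a ∈ S) :
    a * b⁻¹ ∈ ⁅S, S⁆ := by
  obtain ⟨g, hg, rfl⟩ := h
  simpa [commutatorElement_def, mul_assoc] using Subgroup.commutator_mem_commutator ha hg

theorem tgtTwF4 : chkTgt fastF4 [[47, 44], [39, 45]] = true := by decide +kernel

variable {K : Type*} [Field K] [Fintype K] [CharP K 2] {G : Type*} [Group G] {x : ℕ → K → G} {e : ℕ} {φ : K →+* K}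
  {σ : G →* G} {S : Subgroup G} (hx : IsChev chevF4 x) (h : Twist chevF4 x σ rhoF4 pfF4 (twF H7.twF4 φ))
  (hS : TwSub chevF4 x σ pfF4 S (fun i => {j | j ∈ oLF4 i}))

theorem nWd_px {D : ChevalleyDatum} [RootFacts D] [NFacts D] {T : Fast} (hx : IsSt D x) (hT : Agree D T)
    (l L : List ℕ) : nWd D x (fl D l) * px x L * (nWd D x (fl D l))⁻¹ = px x (L.map (wdL T l)) := by
  induction L with
  | nil => simp
  | cons r L ih => rw [List.map_cons, px_cons, px_cons, ← ih, wdL_eq hT, ← hx.acts_nWd_two]; simp [mul_assoc]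

include hx h hS

theorem suzN_cj : Cj S (px x [28, 30]) (nWd chevF4 x (fl chevF4 [1, 2, 1, 2])) := by
  have hf := okF4.twF_one φ
  have h1 : px x [28, 30] ∈ S := hS.px_mem h hx.toIsFaith agrF4 hf (by decide +kernel)
  have h2 : px x [19, 17] ∈ S := hS.mem_of_VV h hx.toIsFaith (H8.px_mem (by decide +kernel)) (by
    rw [h.map_px hf]; exact px_eq_of_chk hx agrF4 (by decide +kernel))
  refine ⟨_, mul_mem h1 h2, (suzN hx).symm.trans ?_⟩
  rw [← show (fl chevF4 [1, 2, 1, 2]).map (fun i => chevF4.simple i.1) = [27, 25, 27, 25] by decide +kernel,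
    List.map_map]; rfl

theorem nWd_twF4 : ∀ l ∈ [[0, 3], [1, 2, 1, 2]], nWd chevF4 x (fl chevF4 l) ∈ S := by
  have hf := okF4.twF_one φ
  simp only [List.forall_mem_cons, List.not_mem_nil, false_imp_iff, implies_true, and_true]
  exact ⟨hS.nWd_mem h hx.toIsFaith agrF4 hf ocmF4 (R := [33, 24]) (by decide +kernel) (by decide +kernel),
    (suzN_cj hx h hS).mem (hS.px_mem h hx.toIsFaith agrF4 hf (by decide +kernel))⟩

theorem cjTwF4 {t : G} (ht : t ∈ S) (h2 : t * t = 1) : ∃ R ∈ [[], [47, 44], [39, 45]], Cj S t (px x R) := by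
  have hf := okF4.twF_one φ
  have hW := nWd_twF4 hx h hS
  obtain ⟨n, h3, R, hR, h4⟩ := exists_cj_base (hS.orbSub h hx.toIsFaith) hx.toIsFaith agrF4 (by decide +kernel) hW
    (List.forall_mem_cons.2 ⟨⟨_, hW [1, 2, 1, 2] (by simp), NRep.nWd x _, (suzN_cj hx h hS).mul_self (by
      rw [← px_append]; exact px_eq_of_chk hx agrF4 (L' := []) (by decide +kernel)), [47, 44], by simp,
      (suzN_cj hx h hS).symm.trans (hS.cj_prog h hx.toIsFaith agrF4 hf hW
        [(false, [0, 3]), (false, [1, 2, 1, 2]), (false, [0, 3])] (by decide +kernel))⟩,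
      hS.base_of_chk h hx.toIsFaith agrF4 hf ocmF4 (Sm := [33, 27, 25, 24]) (by decide +kernel) hW
      (Ts := [[], [47, 44], [39, 45]]) (Bs := basesF4) (by decide +kernel)⟩) (C := masksF4) (by decide +kernel) ht h2
  exact ⟨R, hR, h3.trans h4⟩

theorem inv_mem_comm {t : G} (ht : t ∈ S) (h2 : t * t = 1) : t ∈ ⁅S, S⁆ := by
  have hf := okF4.twF_one φ
  obtain ⟨R, hR, h3⟩ := cjTwF4 hx h hS ht h2
  have h4 : px x R ∈ ⁅S, S⁆ := by
    obtain ⟨L, hL, h5⟩ := (by decide +kernel : ∀ R ∈ [[], [47, 44], [39, 45]],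
      ∃ L ∈ [[], [36, 42], [26, 29, 34, 38, 41, 42, 44]], weq fastF4 2 (fun k => k) (toSW R)
        (toSW ([32, 37] ++ L ++ [32, 37].reverse ++ L.reverse)) = true) R hR
    have h6 := hx.toIsSt.eq_of_weq agrF4 (CharP.cast_eq_zero K 2) (fun _ => 0) h5
    rw [evS_toSW, evS_toSW, px_append, px_append, px_append, hx.toIsSt.px_reverse, hx.toIsSt.px_reverse] at h6
    rw [h6]
    refine Subgroup.commutator_mem_commutator (hS.px_mem h hx.toIsFaith agrF4 hf (by decide +kernel))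
      (hS.px_mem h hx.toIsFaith agrF4 hf ?_)
    clear h5 h6; revert L; decide +kernel
  simpa using mul_mem (h3.mem_comm ht) h4

omit hx h hS in
theorem ncard_twF4 {m : ℕ} (hK : Fintype.card K = 2 ^ (2 * m + 1)) :
    (ConjClasses.mk '' {g : twistedF4 K (2 ^ m) | orderOf g = 2}).ncard = 2 := by
  have hx : IsChev chevF4 (xg chevF4 K) := isChev_xg
  have hφ : ∀ t, iterateFrobenius K 2 m t = t ^ 2 ^ m := fun t => iterateFrobenius_def ..
  obtain ⟨σ, h⟩ := exists_twistF4 hx GG_xg (iterateFrobenius K 2 m)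
  have hS := twSubF4 hx hφ (fun t => by
    rw [hφ, hφ, ← pow_mul, ← pow_mul, ← pow_succ, ← pow_add, ← add_assoc, ← two_mul, ← hK, FiniteField.pow_card]) h
  refine ncard_tw agrF4 (Ts := [[47, 44], [39, 45]]) (by decide) tgtTwF4 (fun R hR => ?_)
    (fun t ht h2 => cjTwF4 hx h hS ht h2) fun R hR R' hR' => distTF4 R (.tail _ (.tail _ hR)) R' (.tail _ (.tail _ hR'))
  refine hS.px_mem h hx.toIsFaith agrF4 (okF4.twF_one _) ?_
  revert R; decide +kernel

omit hx h hS in
theorem twSub_two : ∃ σ, Twist chevF4 (xg chevF4 (ZMod 2)) σ rhoF4 pfF4 (twF H7.twF4 (RingHom.id _)) ∧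
    TwSub chevF4 (xg chevF4 (ZMod 2)) σ pfF4 (twS (xg chevF4 (ZMod 2)) (f4Words (ZMod 2) 1))
      (fun i => {j | j ∈ oLF4 i}) := by
  obtain ⟨σ, h⟩ := exists_twistF4 (isChev_xg (K := ZMod 2)) GG_xg (RingHom.id _)
  exact ⟨σ, h, twSubF4 isChev_xg (by simp) (fun t => ZMod.pow_card t) h⟩

omit hx h hS in
theorem mem_commutator_tw {D : ChevalleyDatum} [RootFacts D] [MatFacts D] {K : Type*} [Field K]
    (Wd : Set (List (ℕ × K))) : (commutator (D.genSubgroup K Wd)).map (D.genSubgroup K Wd).subtype =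
      ⁅twS (xg D K) Wd, twS (xg D K) Wd⁆.map (D.group K).subtype := by
  rw [Subgroup.map_subtype_commutator, Subgroup.map_commutator, map_twS_xg]

omit hx h hS in
theorem inv_mem_tits (g : twistedF4 (ZMod 2) 1) (hg : orderOf g = 2) : g ∈ commutator (twistedF4 (ZMod 2) 1) := by
  obtain ⟨σ, h, hS⟩ := twSub_two
  obtain ⟨t, ht, h1⟩ := (map_twS_xg (D := chevF4) _).ge g.2
  have h2 := Subgroup.mem_map_of_mem (chevF4.group (ZMod 2)).subtype (inv_mem_comm isChev_xg h hS ht (Subtype.ext (by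
    have := congrArg Subtype.val (pow_orderOf_eq_one g)
    rw [hg, pow_two] at this
    exact (congrArg₂ (· * ·) h1 h1).trans this)))
  rw [← mem_commutator_tw, h1] at h2
  exact (Subgroup.mem_map_iff_mem (Subgroup.subtype_injective _)).1 h2

omit hx h hS in
/-- Every element of `S` is a product of an element of the derived group and an element centralizing `px x R`. -/
theorem tits_sup {x : ℕ → ZMod 2 → G} (hx : IsChev chevF4 x)
    (h : Twist chevF4 x σ rhoF4 pfF4 (twF H7.twF4 (RingHom.id _)))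
    (hS : TwSub chevF4 x σ pfF4 (twS x (f4Words (ZMod 2) 1)) (fun i => {j | j ∈ oLF4 i})) {R : List ℕ}
    (hR : R ∈ [[47, 44], [39, 45]]) {g : G} (hg : g ∈ twS x (f4Words (ZMod 2) 1)) : ∃ c ∈ twS x (f4Words (ZMod 2) 1),
      Commute c (px x R) ∧ g * c⁻¹ ∈ ⁅twS x (f4Words (ZMod 2) 1), twS x (f4Words (ZMod 2) 1)⁆ := by
  have hf := okF4.twF_one (RingHom.id (ZMod 2))
  have hW := nWd_twF4 hx h hS
  set S := twS x (f4Words (ZMod 2) 1) with hSd
  have hm : ∀ L ∈ [[27, 25, 28], [28, 30], [33, 24]], px x L ∈ S := fun L hL =>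
    hS.px_mem h hx.toIsFaith agrF4 hf (by revert L; decide +kernel)
  have hT : ⁅S, S⁆ ≤ S := (Subgroup.commutator_le).2 fun a ha b hb =>
    mul_mem (mul_mem (mul_mem ha hb) (inv_mem ha)) (inv_mem hb)
  let M : Subgroup (G) :=
    { carrier := {g | ∃ c ∈ S, Commute c (px x R) ∧ g * c⁻¹ ∈ ⁅S, S⁆}
      one_mem' := ⟨1, one_mem _, Commute.one_left _, by simp⟩
      mul_mem' := by
        rintro a b ⟨c, hc, h5, h6⟩ ⟨d, hd, h7, h8⟩
        refine ⟨c * d, mul_mem hc hd, h5.mul_left h7, ?_⟩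
        simpa [commutatorElement_def, mul_assoc] using
          mul_mem (mul_mem h6 (Subgroup.commutator_mem_commutator hc (hT h8))) h8
      inv_mem' := by
        rintro a ⟨c, hc, h5, h6⟩
        refine ⟨c⁻¹, inv_mem hc, h5.inv_left, ?_⟩
        simpa [commutatorElement_def, mul_assoc] using
          mul_mem (Subgroup.commutator_mem_commutator (inv_mem hc) (inv_mem (hT h6))) (inv_mem h6) }
  have h5 : ∀ a ∈ ⁅S, S⁆, a ∈ M := fun a ha => ⟨1, one_mem _, Commute.one_left _, by simpa using ha⟩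
  have h6 : ∀ a ∈ S, ∀ b ∈ M, Cj S a b → a ∈ M := fun a ha b hb h => by
    simpa using mul_mem (h5 _ (h.mem_comm ha)) hb
  have h7 : px x [27, 25, 28] ∈ M := h6 _ (hm _ (by simp)) (px x [29, 41, 44]) ⟨_, hS.px_mem h hx.toIsFaith agrF4 hf
    (L := [29, 41, 44]) (by decide +kernel), by
      rw [Commute, SemiconjBy, ← px_append, ← px_append]
      exact px_eq_of_chk hx agrF4 (by clear h5 h6; clear_value M; revert R; decide +kernel), by simp⟩
    (hS.cj_prog h hx.toIsFaith agrF4 hf hW [(false, [0, 3]), (false, [1, 2, 1, 2]), (false, [0, 3])] (by decide +kernel))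
  have h8 : ∀ L ∈ [[28, 30], [33, 24]], px x L ∈ M := fun L hL => h5 _ (inv_mem_comm hx h hS (hm L (by revert L; decide))
    (by rw [← px_append]; exact px_eq_of_chk hx agrF4 (L' := []) (by revert L; decide +kernel)))
  have h9 : ∀ L ∈ [([20, 22, 19], [27, 25, 28], [1, 2, 1, 2]), ([19, 17], [28, 30], [1, 2, 1, 2]),
      ([14, 23], [33, 24], [0, 3])], px x L.2.1 ∈ M → px x L.1 ∈ M := fun L hL h0 => by
    have h10 : Cj S (px x L.2.1) (px x L.1) := ⟨_, hW L.2.2 (by clear h0; revert L; decide), by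
      rw [nWd_px hx.toIsSt agrF4]; congr 1; clear h0; revert L; decide +kernel⟩
    exact h6 _ (h10.mem (hm _ (by clear h0 h10; revert L; decide))) _ h0 h10.symm
  refine (twS_le (M := M)).2 ?_ hg
  have h10 := h8 [28, 30] (by simp)
  have h11 := h8 [33, 24] (by simp)
  have h12 := h9 ([20, 22, 19], [27, 25, 28], [1, 2, 1, 2]) (by simp) h7
  have h13 := h9 ([19, 17], [28, 30], [1, 2, 1, 2]) (by simp) h10
  have h14 := h9 ([14, 23], [33, 24], [0, 3]) (by simp) h11
  have h15 : ∀ t : ZMod 2, t = 0 ∨ t = 1 := by decide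
  have h16 : ∀ r, x r 1 * x r 1 = 1 := fun r => by rw [← hx.add, CharTwo.add_self_eq_zero, hx.toIsSt.zero]
  rintro _ (⟨t, rfl | rfl⟩ | ⟨t, u, rfl | rfl⟩) <;> rcases h15 t with rfl | rfl
  · simp [f4PairWord, hx.toIsSt.zero]
  · simpa [px, f4PairWord] using! h11
  · simp [f4PairWord, hx.toIsSt.zero]
  · simpa [px, f4PairWord] using! h14
  all_goals rcases h15 u with rfl | rfl
  · simp [b2ClassWord, hx.toIsSt.zero]
  · simpa [b2ClassWord, hx.toIsSt.zero, px] using! h10
  · simpa [b2ClassWord, hx.toIsSt.zero, px] using! h7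
  · simpa [b2ClassWord, hx.toIsSt.zero, px, CharTwo.add_self_eq_zero, mul_assoc, ← mul_assoc (x _ 1) (x 28 1), h16]
      using! mul_mem h7 h10
  · simp [b2ClassWord, hx.toIsSt.zero]
  · simpa [b2ClassWord, hx.toIsSt.zero, px] using! h13
  · simpa [b2ClassWord, hx.toIsSt.zero, px] using! h12
  · simpa [b2ClassWord, hx.toIsSt.zero, px, CharTwo.add_self_eq_zero, mul_assoc, ← mul_assoc (x _ 1) (x 19 1), h16]
      using! mul_mem h12 h13

omit hx h hS in
theorem ncard_tits : (ConjClasses.mk '' {g : TitsGroup | orderOf g = 2}).ncard = 2 := by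
  obtain ⟨σ, h, hS⟩ := twSub_two
  have hx : IsChev chevF4 (xg chevF4 (ZMod 2)) := isChev_xg
  have hf := okF4.twF_one (RingHom.id (ZMod 2))
  refine (ncard_inv_congr (((commutator _).equivMapOfInjective _ (Subgroup.subtype_injective _)).trans
    ((MulEquiv.subgroupCongr (mem_commutator_tw _)).trans
      (Subgroup.equivMapOfInjective _ _ (Subgroup.subtype_injective _)).symm))).trans ?_
  set x := xg chevF4 (ZMod 2)
  set S := twS x (f4Words (ZMod 2) 1) with hSd
  have e : ∀ R, (chevF4.group (ZMod 2)).subtype (px x R) = px (xu chevF4 (ZMod 2)) R := fun R => by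
    simp only [px, map_list_prod, List.map_map]; rfl
  have h1 : ∀ R ∈ [[47, 44], [39, 45]], orderOf (px x R) = 2 := fun R hR =>
    (orderOf_injective _ (Subgroup.subtype_injective _) _).symm.trans
      ((congrArg _ (e R)).trans (orderOf_of_chkTgt agrF4 tgtTwF4 hR))
  have h2 : ∀ {t : chevF4.group (ZMod 2)}, orderOf t = 2 → t * t = 1 := fun {t} h => by
    have := pow_orderOf_eq_one t; rwa [h, pow_two] at this
  have hm : ∀ L ∈ [[47, 44], [39, 45]], px x L ∈ S := fun L hL =>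
    hS.px_mem h hx.toIsFaith agrF4 hf (by revert L; decide +kernel)
  have hT : ⁅S, S⁆ ≤ S := (Subgroup.commutator_le).2 fun a ha b hb =>
    mul_mem (mul_mem (mul_mem ha hb) (inv_mem ha)) (inv_mem hb)
  simp only [← Subgroup.orderOf_coe (H := ⁅S, S⁆)]
  refine ncard_classes (Ts := [[47, 44], [39, 45]]) (by decide) (f := px x) (P := fun g => orderOf g = 2)
    (fun R hR => inv_mem_comm hx h hS (hm R hR) (h2 (h1 R hR))) h1 (fun t ht h3 => ?_)
    fun R hR R' hR' ⟨g, _, h3⟩ => distTF4 (K := ZMod 2) R (.tail _ (.tail _ hR)) R' (.tail _ (.tail _ hR'))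
      ⟨g.1, GG_xu.ge g.2, by rw [← e, ← e, ← h3]; rfl⟩
  obtain ⟨R, hR, h4⟩ := cjTwF4 hx h hS (hT ht) (h2 h3)
  rcases List.mem_cons.1 hR with rfl | hR
  · obtain ⟨g, -, h4⟩ := h4
    obtain rfl : t = 1 := by simpa using h4
    simp at h3
  refine ⟨R, hR, Cj.symm ?_⟩
  obtain ⟨g, hg, rfl⟩ := h4.symm
  obtain ⟨c, -, h10, h11⟩ := tits_sup hx h hS hR hg
  exact ⟨_, h11, by rw [mul_assoc g, h10.inv_left.eq]; group⟩

end Cfsg.Agent.H8
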